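import Cfsg.Agent.H29.ESys
import Cfsg.Agent.H25.Lift

/-!
# The quaternion system (piece S5287-Q, helper89)

`quat_sys`: a finite `2`-group `S` containing a quaternion subgroup `E = ⟨i, j⟩` of order `8` with
`⟨i⟩` normal in `S`, `N_S(⟨j⟩) ≤ E`, `N_S(⟨ij⟩) ≤ E` and an element `ξ` centralizing `i` with
`ξ j ξ⁻¹ = i j` carries a saturated fusion system in which `S` is not normal (the system generated
by `Inn(S)` and all injective maps between subgroups of the conjugates of `E`).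
-/

set_option autoImplicit false

namespace Cfsg.Agent.H89.QuatSys

open Cfsg Cfsg.FusionSystem Cfsg.Agent.H86 Cfsg.Agent.H29.ES QuaternionGroup

/-- The quaternion group of order `8`. -/
abbrev Q8 := QuaternionGroup 2

/-! ### Finite checks in `Q8` -/

theorem q_gen : ∀ q : Q8, ∃ m : Fin 4, ∃ n : Fin 2, q = a 1 ^ m.val * xa 0 ^ n.val := by decide

theorem q_cases (q : Q8) : (∃ m, q = a m) ∨ (∃ n, q = xa n) := by
  rcases q with m | n
  · exact Or.inl ⟨m, rfl⟩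
  · exact Or.inr ⟨n, rfl⟩

theorem a_pow_one : ∀ m : ZMod (2 * 2), (a m : Q8) = a 1 ^ m.val := by decide

theorem a_pow_three : ∀ m : ZMod (2 * 2), (a 3 : Q8) ^ m.val = (a 1 ^ m.val)⁻¹ := by decide

theorem a_pow_exists : ∀ c m : ZMod (2 * 2), ∃ m', (a c : Q8) ^ m.val = a m' := by decide

theorem a_sq_ne : ∀ m : ZMod (2 * 2), (a m : Q8) ^ 2 ≠ 1 → m = 1 ∨ m = 3 := by decide

theorem zmod4_cases : ∀ n : ZMod (2 * 2), n ≠ 1 → n ≠ 3 → n = 0 ∨ n = 2 := by decide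

theorem zmod4_cases' : ∀ n : ZMod (2 * 2), n = 0 ∨ n = 1 ∨ n = 2 ∨ n = 3 := by decide

theorem a_invol : ∀ m : ZMod (2 * 2), (a m : Q8) * a m = 1 → (a m : Q8) ≠ 1 → (a m : Q8) = a 2 := by
  decide

theorem xa_pow_cases : ∀ (n : ZMod (2 * 2)) (e : Fin 4), (xa n : Q8) ^ e.val = 1 ∨
    (xa n : Q8) ^ e.val = a 2 ∨ (xa n : Q8) ^ e.val = xa n ∨ (xa n : Q8) ^ e.val = (xa n)⁻¹ := by
  decide

theorem xa_gen : ∀ (n : ZMod (2 * 2)) (q : Q8), (∃ e : Fin 4, q = (xa n) ^ e.val) ∨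
    (∀ r : Q8, ∃ c : Fin 4, ∃ b : Fin 2, r = (xa n) ^ c.val * q ^ b.val) := by decide

theorem a_of_pow : ∀ (m ε : ZMod (2 * 2)), (ε = 1 ∨ ε = 3) →
    ∃ k : Fin 4, (a m : Q8) = (a ε) ^ k.val := by decide

theorem xa_ne_pow : ∀ k : Fin 4, (xa 0 : Q8) ≠ (a 1) ^ k.val := by decide

theorem xa_ne_one : ∀ n : ZMod (2 * 2), (xa n : Q8) ≠ 1 := by decide

theorem xa_sq : ∀ n : ZMod (2 * 2), (xa n : Q8) * xa n = a 2 := by decide

theorem xa_pow_two_ne : ∀ n : ZMod (2 * 2), (xa n : Q8) ^ 2 ≠ 1 := by decide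

theorem xa_inv : ∀ n : ZMod (2 * 2), (xa n : Q8)⁻¹ = xa (n + 2) := by decide

theorem xa_ne_a : ∀ m c : ZMod (2 * 2), (xa m : Q8) ≠ a c := by decide

theorem inv_a : ∀ m : ZMod (2 * 2), (a m : Q8)⁻¹ = xa 0 * a m * (xa 0)⁻¹ := by decide

theorem a1_pow_fin : ∀ e : Fin 4, ∃ m : ZMod (2 * 2), (a 1 : Q8) ^ e.val = a m := by decide

theorem xa_pow_four : ∀ n : ZMod (2 * 2), (xa n : Q8) ^ 4 = 1 := by decide

/-- The automorphism of `Q8` fixing `a 1` and sending `xa 0` to `xa 3`. -/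
def θf : Q8 → Q8
  | .a m => .a m
  | .xa m => .xa (m + 3)

theorem θf_mul : ∀ x y : Q8, θf (x * y) = θf x * θf y := by decide

/-- `θf` as a homomorphism. -/
def θ : Q8 →* Q8 := MonoidHom.mk' θf θf_mul

theorem θ_a1 : θ (a 1) = a 1 := rfl

theorem θ_xa0 : θ (xa 0) = xa 3 := by decide

theorem θ_xa (n : ZMod (2 * 2)) : θ (xa n) = xa (n + 3) := rfl

theorem θ_surj : ∀ q : Q8, ∃ r : Q8, θf r = q := by decide

theorem inner_dec : ∀ (n ε : ZMod (2 * 2)), (ε = 1 ∨ ε = 3) → ∃ r : Q8,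
    (r * a 1 * r⁻¹ = a ε ∧ r * xa 0 * r⁻¹ = xa n) ∨
    (θf (r * a 1 * r⁻¹) = a ε ∧ θf (r * xa 0 * r⁻¹) = xa n) := by decide

/-- The map of `Q8` with `a 1 ↦ u`, `xa 0 ↦ v`. -/
def σf (u v : Q8) : Q8 → Q8
  | .a m => u ^ m.val
  | .xa m => v * u ^ m.val

theorem σf_mul : ∀ u v : Q8, (u * u ≠ 1 ∧ v * v ≠ 1 ∧ v ≠ u ∧ v ≠ u⁻¹) →
    ∀ x y : Q8, σf u v (x * y) = σf u v x * σf u v y := by decide

theorem σf_inj : ∀ u v : Q8, (u * u ≠ 1 ∧ v * v ≠ 1 ∧ v ≠ u ∧ v ≠ u⁻¹) →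
    ∀ x y : Q8, σf u v x = σf u v y → x = y := by decide

theorem σf_exists : ∀ n : ZMod (2 * 2), ∃ u v : Q8, (u * u ≠ 1 ∧ v * v ≠ 1 ∧ v ≠ u ∧ v ≠ u⁻¹) ∧
    v * u ^ n.val = a 1 ∧ ∃ m, u ^ (1 : ZMod (2 * 2)).val = xa m := by decide

/-- An automorphism of `Q8` sending `xa n` to `a 1` (and `a 1` outside `⟨a 1⟩`). -/
theorem exists_aut (n : ZMod (2 * 2)) :
    ∃ σ : Q8 →* Q8, Function.Injective σ ∧ σ (xa n) = a 1 ∧ ∃ m, σ (a 1) = xa m := by
  obtain ⟨u, v, hok, h1, m, hm⟩ := σf_exists n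
  exact ⟨MonoidHom.mk' (σf u v) (σf_mul u v hok), fun x y hxy => σf_inj u v hok x y hxy, h1, m, hm⟩

theorem card_sq_ne : Fintype.card {q : Q8 // q * q ≠ 1} = 6 := by decide

theorem zmod4_orbit : ∀ n n₀ : ZMod (2 * 2), n = n₀ ∨ n = n₀ + 3 ∨ n = n₀ + 3 + 3 ∨
    n = n₀ + 3 + 3 + 3 := by decide

theorem not_inner_ξ : ¬ ∃ q : Q8, q * a 1 * q⁻¹ = a 1 ∧ q * xa 0 * q⁻¹ = xa 3 := by decide

theorem sq_ne_cases : ∀ q : Q8, q * q ≠ 1 → q = a 1 ∨ q = a 3 ∨ ∃ n, q = xa n := by decide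

/-- Two homomorphisms from `Q8` agreeing on the generators are equal. -/
theorem hom_ext {M : Type*} [Monoid M] {φ ψ : Q8 →* M} (h1 : φ (a 1) = ψ (a 1))
    (h2 : φ (xa 0) = ψ (xa 0)) : φ = ψ := by
  apply MonoidHom.ext
  intro q
  obtain ⟨m, n, rfl⟩ := q_gen q
  rw [map_mul, map_mul, map_pow, map_pow, map_pow, map_pow, h1, h2]

/-! ### The configuration -/

/-- The configuration: an embedded quaternion group `ι : Q8 → S` with `⟨ι (a 1)⟩` normal in `S`,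
self-normalizing-in-`E` cyclic subgroups `⟨ι (xa 0)⟩`, `⟨ι (xa 3)⟩`, and an element `ξ ∈ S`
inducing the automorphism `θ`. -/
structure Cfg {Ω : Type*} [Group Ω] (S : Subgroup Ω) (ι : Q8 →* Ω) (ξ : Ω) : Prop where
  inj : Function.Injective ι
  le : ι.range ≤ S
  hξ : ξ ∈ S
  hin : ∀ s ∈ S, s * ι (a 1) * s⁻¹ = ι (a 1) ∨ s * ι (a 1) * s⁻¹ = ι (a 3)
  hξi : ξ * ι (a 1) * ξ⁻¹ = ι (a 1)
  hξj : ξ * ι (xa 0) * ξ⁻¹ = ι (xa 3)
  hNj : ∀ s ∈ S, (s * ι (xa 0) * s⁻¹ = ι (xa 0) ∨ s * ι (xa 0) * s⁻¹ = ι (xa 2)) → s ∈ ι.range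
  hNk : ∀ s ∈ S, (s * ι (xa 3) * s⁻¹ = ι (xa 3) ∨ s * ι (xa 3) * s⁻¹ = ι (xa 1)) → s ∈ ι.range

variable {Ω : Type*} [Group Ω] {S : Subgroup Ω} {ι : Q8 →* Ω} {ξ : Ω}

/-- `P` is contained in `⟨ι (a 1)⟩`. -/
def InC (ι : Q8 →* Ω) (P : Subgroup Ω) : Prop := ∀ x ∈ P, ∃ m : ZMod (2 * 2), x = ι (a m)

theorem conj_pm_inv {g x : Ω} (h : g * x * g⁻¹ = x ∨ g * x * g⁻¹ = x⁻¹) :
    g * x⁻¹ * g⁻¹ = x⁻¹ ∨ g * x⁻¹ * g⁻¹ = x := by
  have e : g * x⁻¹ * g⁻¹ = (g * x * g⁻¹)⁻¹ := by group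
  rw [e]
  rcases h with h | h
  · left; rw [h]
  · right; rw [h, inv_inv]

theorem map_pow_of_mul {P : Subgroup Ω} {f : Ω → Ω}
    (hmul : ∀ x ∈ P, ∀ y ∈ P, f (x * y) = f x * f y) {u : Ω} (hu : u ∈ P) (e : ℕ) :
    f (u ^ e) = f u ^ e := by
  induction e with
  | zero =>
    have h3 := hmul 1 P.one_mem 1 P.one_mem
    rw [mul_one] at h3
    rw [pow_zero, pow_zero]
    exact mul_eq_left.1 h3.symm
  | succ e ih => rw [pow_succ, pow_succ, hmul _ (P.pow_mem hu e) _ hu, ih]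

namespace Cfg

theorem ne_one (h : Cfg S ι ξ) {q : Q8} (hq : q ≠ 1) : ι q ≠ 1 :=
  fun e => hq (h.inj (e.trans (map_one ι).symm))

theorem conj_ξ (h : Cfg S ι ξ) (q : Q8) : ξ * ι q * ξ⁻¹ = ι (θ q) := by
  have e : (MulAut.conj ξ).toMonoidHom.comp ι = ι.comp θ :=
    hom_ext (by
      show ξ * ι (a 1) * ξ⁻¹ = ι (θ (a 1))
      rw [θ_a1]; exact h.hξi) (by
      show ξ * ι (xa 0) * ξ⁻¹ = ι (θ (xa 0))
      rw [θ_xa0]; exact h.hξj)
  exact DFunLike.congr_fun e q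

theorem conj_a (h : Cfg S ι ξ) {s : Ω} (hs : s ∈ S) (m : ZMod (2 * 2)) :
    ∃ m', s * ι (a m) * s⁻¹ = ι (a m') := by
  rw [a_pow_one m, map_pow, ← conj_pow]
  rcases h.hin s hs with e | e
  · obtain ⟨m', hm'⟩ := a_pow_exists 1 m
    exact ⟨m', by rw [e, ← map_pow, hm']⟩
  · obtain ⟨m', hm'⟩ := a_pow_exists 3 m
    exact ⟨m', by rw [e, ← map_pow, hm']⟩

theorem conj_a' (h : Cfg S ι ξ) {s : Ω} (hs : s ∈ S) (m : ZMod (2 * 2)) :
    ∃ m', s⁻¹ * ι (a m) * s = ι (a m') := by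
  have := h.conj_a (S.inv_mem hs) m
  rwa [inv_inv] at this

/-- `N_S(⟨ι (xa n)⟩) ≤ E`. -/
theorem norm_xa (h : Cfg S ι ξ) (n : ZMod (2 * 2)) {g : Ω} (hg : g ∈ S)
    (hc : g * ι (xa n) * g⁻¹ = ι (xa n) ∨ g * ι (xa n) * g⁻¹ = (ι (xa n))⁻¹) : g ∈ ι.range := by
  have e2 : ι (xa 2) = (ι (xa 0))⁻¹ := by
    rw [← map_inv]; exact congrArg ι (by decide)
  have e1 : ι (xa 1) = (ι (xa 3))⁻¹ := by
    rw [← map_inv]; exact congrArg ι (by decide)
  rcases zmod4_cases' n with rfl | rfl | rfl | rfl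
  · exact h.hNj g hg (by rw [e2]; exact hc)
  · refine h.hNk g hg ?_
    rw [e1] at hc ⊢
    have := conj_pm_inv hc
    rw [inv_inv] at this
    exact this
  · refine h.hNj g hg ?_
    rw [e2] at hc ⊢
    have := conj_pm_inv hc
    rw [inv_inv] at this
    exact this
  · exact h.hNk g hg (by rw [e1]; exact hc)

/-- `N_S(⟨ι (xa n)⟩) ≤ E`, power form. -/
theorem norm_xa_pow (h : Cfg S ι ξ) (n : ZMod (2 * 2)) {g : Ω} (hg : g ∈ S) (e : ℕ)
    (hc : g * ι (xa n) * g⁻¹ = ι (xa n) ^ e) : g ∈ ι.range := by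
  rw [← map_pow, pow_eq_pow_mod e (xa_pow_four n)] at hc
  rcases xa_pow_cases n ⟨e % 4, Nat.mod_lt _ (by norm_num)⟩ with h1 | h1 | h1 | h1
  · exfalso
    rw [h1, map_one] at hc
    have h2 : ι (xa n) = 1 := by
      have : ι (xa n) = g⁻¹ * (g * ι (xa n) * g⁻¹) * g := by group
      rw [this, hc]; group
    exact h.ne_one (xa_ne_one n) h2
  · exfalso
    rw [h1] at hc
    have h2 : g * ι (xa n * xa n) * g⁻¹ = ι (a 2 * a 2) := by
      rw [map_mul, map_mul, ← hc]; group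
    have h3 : (xa n : Q8) * xa n = a 2 := xa_sq n
    have h4 : (a 2 : Q8) * a 2 = 1 := by decide
    rw [h3, h4, map_one] at h2
    have h5 : ι (a 2) = 1 := by
      have : ι (a 2) = g⁻¹ * (g * ι (a 2) * g⁻¹) * g := by group
      rw [this, h2]; group
    exact h.ne_one (by decide) h5
  · exact h.norm_xa n hg (Or.inl (by rw [hc, h1]))
  · exact h.norm_xa n hg (Or.inr (by rw [hc, h1, map_inv]))

theorem mor_lift (h : Cfg S ι ξ) {s : Ω} (hs : s ∈ S) {σ : Q8 →* Q8} (hσ : Function.Injective σ)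
    {N : Subgroup Ω} (hNS : N ≤ S) (hN : ∀ x ∈ N, s⁻¹ * x * s ∈ ι.range) :
    Mor (eSys S ι.range h.le) N (fun x => ι (σ (Function.invFun ι (s⁻¹ * x * s)))) := by
  have key : ∀ x ∈ N, ∃ q, s⁻¹ * x * s = ι q ∧ Function.invFun ι (s⁻¹ * x * s) = q := by
    intro x hx
    obtain ⟨q, hq⟩ := hN x hx
    exact ⟨q, hq.symm, by rw [← hq]; exact Function.leftInverse_invFun h.inj q⟩
  refine mor_eSys_iff.2 ⟨hNS, Or.inr ⟨?_, ?_, s, hs, 1, S.one_mem, hN, fun x hx => ?_⟩⟩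
  · intro x hx y hy hxy
    obtain ⟨q, hq, hq'⟩ := key x hx
    obtain ⟨r, hr, hr'⟩ := key y hy
    have hxy' : ι (σ (Function.invFun ι (s⁻¹ * x * s))) =
        ι (σ (Function.invFun ι (s⁻¹ * y * s))) := hxy
    rw [hq', hr'] at hxy'
    have hqr : q = r := hσ (h.inj hxy')
    have h2 : s⁻¹ * x * s = s⁻¹ * y * s := by rw [hq, hr, hqr]
    exact mul_left_cancel (mul_right_cancel h2)
  · intro x hx y hy
    obtain ⟨q, hq, hq'⟩ := key x hx
    obtain ⟨r, hr, hr'⟩ := key y hy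
    have hxy : s⁻¹ * (x * y) * s = ι (q * r) := by
      rw [map_mul, ← hq, ← hr]; group
    show ι (σ (Function.invFun ι (s⁻¹ * (x * y) * s))) =
      ι (σ (Function.invFun ι (s⁻¹ * x * s))) * ι (σ (Function.invFun ι (s⁻¹ * y * s)))
    rw [hq', hr', hxy, Function.leftInverse_invFun h.inj, map_mul, map_mul]
  · show (1 : Ω)⁻¹ * ι _ * 1 ∈ ι.range
    rw [inv_one, one_mul, mul_one]
    exact ⟨_, rfl⟩

theorem lift_apply (h : Cfg S ι ξ) (s : Ω) (σ : Q8 →* Q8) {x : Ω} {q : Q8}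
    (hx : s⁻¹ * x * s = ι q) : ι (σ (Function.invFun ι (s⁻¹ * x * s))) = ι (σ q) := by
  rw [hx, Function.leftInverse_invFun h.inj q]

/-- An injective endomorphism of `E` fixing `⟨ι (a 1)⟩` is induced by an element of `S`. -/
theorem inner_of (h : Cfg S ι ξ) {φ : Q8 →* Ω} (hφ : Function.Injective φ)
    (hφE : ∀ q, φ q ∈ ι.range) (h1 : φ (a 1) = ι (a 1) ∨ φ (a 1) = ι (a 3)) :
    ∃ w ∈ S, ∀ q, φ q = w * ι q * w⁻¹ := by
  obtain ⟨ε, hε, hφε⟩ : ∃ ε : ZMod (2 * 2), (ε = 1 ∨ ε = 3) ∧ φ (a 1) = ι (a ε) := by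
    rcases h1 with h1 | h1
    · exact ⟨1, Or.inl rfl, h1⟩
    · exact ⟨3, Or.inr rfl, h1⟩
  obtain ⟨q₁, hq₁⟩ := hφE (xa 0)
  rcases q_cases q₁ with ⟨m, rfl⟩ | ⟨n, rfl⟩
  · exfalso
    obtain ⟨k, hk⟩ := a_of_pow m ε hε
    have h2 : φ (xa 0) = φ (a 1 ^ k.val) := by
      rw [← hq₁, hk, map_pow, map_pow, hφε]
    exact xa_ne_pow k (hφ h2)
  · obtain ⟨r, hr | hr⟩ := inner_dec n ε hε
    · refine ⟨ι r, h.le ⟨r, rfl⟩, ?_⟩
      have e : φ = (MulAut.conj (ι r)).toMonoidHom.comp ι := by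
        apply hom_ext
        · show φ (a 1) = ι r * ι (a 1) * (ι r)⁻¹
          rw [hφε, ← hr.1, map_mul, map_mul, map_inv]
        · show φ (xa 0) = ι r * ι (xa 0) * (ι r)⁻¹
          rw [← hq₁, ← hr.2, map_mul, map_mul, map_inv]
      intro q
      rw [e]; rfl
    · refine ⟨ξ * ι r, S.mul_mem h.hξ (h.le ⟨r, rfl⟩), ?_⟩
      have key : ∀ q, ξ * ι r * ι q * (ξ * ι r)⁻¹ = ι (θ (r * q * r⁻¹)) := by
        intro q
        rw [← h.conj_ξ, map_mul, map_mul, map_inv]; group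
      have e : φ = (MulAut.conj (ξ * ι r)).toMonoidHom.comp ι := by
        apply hom_ext
        · show φ (a 1) = ξ * ι r * ι (a 1) * (ξ * ι r)⁻¹
          rw [key, hφε]
          exact congrArg ι hr.1.symm
        · show φ (xa 0) = ξ * ι r * ι (xa 0) * (ξ * ι r)⁻¹
          rw [key, ← hq₁]
          exact congrArg ι hr.2.symm
      intro q
      rw [e]; rfl

/-- An injective multiplicative map between subgroups of `⟨ι (a 1)⟩` is the identity or the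
inversion. -/
theorem c1_rigid (h : Cfg S ι ξ) {P : Subgroup Ω} (hP : InC ι P) {f : Ω → Ω}
    (hinj : Set.InjOn f (P : Set Ω)) (hmul : ∀ x ∈ P, ∀ y ∈ P, f (x * y) = f x * f y)
    (hfP : ∀ x ∈ P, ∃ m : ZMod (2 * 2), f x = ι (a m)) :
    (∀ x ∈ P, f x = x) ∨ (∀ x ∈ P, f x = x⁻¹) := by
  have hf1 : f 1 = 1 := by
    have := map_pow_of_mul hmul P.one_mem 0
    rwa [pow_zero, pow_zero] at this
  by_cases hi : ι (a 1) ∈ P
  · obtain ⟨m, hm⟩ := hfP _ hi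
    have hm13 : m = 1 ∨ m = 3 := by
      have h2 : f (ι (a 1) ^ 2) = ι (a m) ^ 2 := by rw [map_pow_of_mul hmul hi, hm]
      have h3 : ι (a 1) ^ 2 ≠ 1 := by
        rw [← map_pow]; exact h.ne_one (by decide)
      have h4 : f (ι (a 1) ^ 2) ≠ 1 :=
        fun e => h3 (hinj (P.pow_mem hi 2) P.one_mem (e.trans hf1.symm))
      rw [h2, ← map_pow] at h4
      exact a_sq_ne m (fun e => h4 (by rw [e, map_one]))
    rcases hm13 with rfl | rfl
    · left; intro x hx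
      obtain ⟨n, rfl⟩ := hP x hx
      rw [a_pow_one n, map_pow, map_pow_of_mul hmul hi, hm]
    · right; intro x hx
      obtain ⟨n, rfl⟩ := hP x hx
      rw [a_pow_one n, map_pow, map_pow_of_mul hmul hi, hm, ← map_pow, ← map_pow, ← map_inv]
      exact congrArg ι (a_pow_three n)
  · left; intro x hx
    obtain ⟨n, rfl⟩ := hP x hx
    have hn : n = 0 ∨ n = 2 := by
      refine zmod4_cases n (fun e => hi (e ▸ hx)) (fun e => hi ?_)
      have h3 := P.inv_mem hx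
      rw [e, ← map_inv] at h3
      have e' : ((a 3 : Q8))⁻¹ = a 1 := by decide
      rw [e'] at h3
      exact h3
    rcases hn with rfl | rfl
    · have e0 : (a 0 : Q8) = 1 := rfl
      rw [e0, map_one]; exact hf1
    · obtain ⟨m, hm⟩ := hfP _ hx
      have h2 : ι (a 2) ≠ 1 := h.ne_one (by decide)
      have h4 : f (ι (a 2)) ≠ 1 := fun e => h2 (hinj hx P.one_mem (e.trans hf1.symm))
      have h5 : f (ι (a 2)) * f (ι (a 2)) = 1 := by
        rw [← hmul _ hx _ hx, ← map_mul]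
        have e2 : (a 2 : Q8) * a 2 = 1 := by decide
        rw [e2, map_one, hf1]
      rw [hm] at h4 h5 ⊢
      rw [← map_mul] at h5
      have h6 := h.inj (h5.trans (map_one ι).symm)
      have h7 : (a m : Q8) ≠ 1 := fun e => h4 (by rw [e, map_one])
      exact congrArg ι (a_invol m h6 h7)

theorem fa_small (h : Cfg S ι ξ) (hS : IsPGroup 2 S) {Qr : Subgroup Ω} (hQS : Qr ≤ S)
    (hQ : InC ι Qr) : (eSys S ι.range h.le).IsFullyAutomized 2 Qr := by
  refine fullyAutomized_of_le hS hQS (fun α hα => ?_)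
  rw [mem_autGroup_iff hQS] at hα
  rw [mem_autInducedBy_iff]
  have hrig := h.c1_rigid hQ hα.injOn (fun x hx y hy => hα.map_mul hx hy)
    (fun x hx => hQ _ (autFun_mem α hx))
  rcases hrig with hr | hr
  · refine ⟨1, S.one_mem, fun x => ?_⟩
    rw [← autFun_apply α x, hr x x.2]; group
  · refine ⟨ι (xa 0), h.le ⟨_, rfl⟩, fun x => ?_⟩
    rw [← autFun_apply α x, hr x x.2]
    obtain ⟨m, hm⟩ := hQ x x.2
    rw [hm, ← map_inv, ← map_inv, ← map_mul, ← map_mul]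
    exact congrArg ι (inv_a m)

theorem conj_pow' (s x : Ω) (e : ℕ) : (s⁻¹ * x * s) ^ e = s⁻¹ * x ^ e * s := by
  have := conj_pow (a := s⁻¹) (b := x) (i := e)
  rwa [inv_inv] at this

theorem rec_small (h : Cfg S ι ξ) {Qr : Subgroup Ω} (hQS : Qr ≤ S) (hQ : InC ι Qr) :
    (eSys S ι.range h.le).IsReceptive Qr := by
  refine receptive_of hQS (fun P f hf himg N hN => ?_)
  have hNS : N ≤ S := fun g hg => ((hN g).1 hg).1
  have hfQ : ∀ x ∈ P, ∃ m : ZMod (2 * 2), f x = ι (a m) :=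
    fun x hx => hQ _ (by rw [← himg]; exact hf.mem_imgS_of_mem hx)
  have inner : (∃ g ∈ S, ∀ x ∈ P, f x = g * x * g⁻¹) →
      ∃ f', Mor (eSys S ι.range h.le) N f' ∧ ∀ x ∈ P, f' x = f x := by
    rintro ⟨g, hg, hgf⟩
    exact ⟨fun x => g * x * g⁻¹, Mor.conj _ hNS hg, fun x hx => (hgf x hx).symm⟩
  obtain ⟨hPS, hcase⟩ := mor_eSys_iff.1 hf
  rcases hcase with hin | ⟨hinj, hmul, s, hs, -, -, h1, -⟩
  · exact inner hin
  · by_cases hC : ∀ x ∈ P, ∃ m : ZMod (2 * 2), s⁻¹ * x * s = ι (a m)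
    · have hPC : InC ι P := by
        intro x hx
        obtain ⟨m, hm⟩ := hC x hx
        obtain ⟨m', hm'⟩ := h.conj_a hs m
        refine ⟨m', ?_⟩
        rw [← hm', ← hm]; group
      rcases h.c1_rigid hPC hinj hmul hfQ with hr | hr
      · exact inner ⟨1, S.one_mem, fun x hx => by rw [hr x hx]; group⟩
      · refine inner ⟨ι (xa 0), h.le ⟨_, rfl⟩, fun x hx => ?_⟩
        rw [hr x hx]
        obtain ⟨m, hm⟩ := hPC x hx
        rw [hm, ← map_inv, ← map_inv, ← map_mul, ← map_mul]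
        exact congrArg ι (inv_a m)
    · push Not at hC
      obtain ⟨u₁, hu₁, hu₁C⟩ := hC
      obtain ⟨q, hq⟩ := h1 u₁ hu₁
      rcases q_cases q with ⟨m, rfl⟩ | ⟨n₁, rfl⟩
      · exact absurd hq.symm (hu₁C m)
      obtain ⟨m, hm⟩ := hfQ u₁ hu₁
      have hm13 : m = 1 ∨ m = 3 := by
        have h2 : u₁ ^ 2 ≠ 1 := by
          intro e
          have h3 : ι (xa n₁ ^ 2) = 1 := by
            rw [map_pow, hq, conj_pow', e]; group
          exact h.ne_one (xa_pow_two_ne n₁) h3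
        have h4 : f (u₁ ^ 2) ≠ 1 :=
          fun e => h2 (hinj (P.pow_mem hu₁ 2) P.one_mem (e.trans hf.map_one.symm))
        rw [map_pow_of_mul hmul hu₁, hm, ← map_pow] at h4
        exact a_sq_ne m (fun e => h4 (by rw [e, map_one]))
      obtain ⟨u, hu, n, hun, hfu⟩ :
          ∃ u ∈ P, ∃ n, s⁻¹ * u * s = ι (xa n) ∧ f u = ι (a 1) := by
        rcases hm13 with rfl | rfl
        · exact ⟨u₁, hu₁, n₁, hq.symm, hm⟩
        · refine ⟨u₁⁻¹, P.inv_mem hu₁, n₁ + 2, ?_, ?_⟩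
          · have e : s⁻¹ * u₁⁻¹ * s = (s⁻¹ * u₁ * s)⁻¹ := by group
            rw [e, ← hq, ← map_inv]; exact congrArg ι (xa_inv n₁)
          · rw [hf.map_inv hu₁, hm, ← map_inv]; exact congrArg ι (by decide)
      have hPu : ∀ x ∈ P, ∃ e : ℕ, x = u ^ e := by
        intro x hx
        obtain ⟨m', hm'⟩ := hfQ x hx
        refine ⟨m'.val, hinj hx (P.pow_mem hu _) ?_⟩
        rw [map_pow_of_mul hmul hu, hfu, hm', a_pow_one m', map_pow]
      have hNE : ∀ g ∈ N, s⁻¹ * g * s ∈ ι.range := by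
        intro g hg
        obtain ⟨hgS, hgN, -⟩ := (hN g).1 hg
        have h5 : g * u * g⁻¹ ∈ P := conj_mem_of_mem_normalizer hgN hu
        obtain ⟨e, he⟩ := hPu _ h5
        refine h.norm_xa_pow n (S.mul_mem (S.mul_mem (S.inv_mem hs) hgS) hs) e ?_
        rw [← hun, conj_pow', ← he]; group
      obtain ⟨σ, hσ, hσn, -⟩ := exists_aut n
      refine ⟨_, h.mor_lift hs hσ hNS hNE, fun x hx => ?_⟩
      obtain ⟨e, rfl⟩ := hPu x hx
      have h6 : s⁻¹ * u ^ e * s = ι (xa n ^ e) := by rw [← conj_pow', hun, map_pow]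
      show ι (σ (Function.invFun ι (s⁻¹ * u ^ e * s))) = f (u ^ e)
      rw [h.lift_apply s σ h6, map_pow, hσn, map_pow, map_pow_of_mul hmul hu, hfu]

theorem rec_E (h : Cfg S ι ξ) [Finite S] : (eSys S ι.range h.le).IsReceptive ι.range := by
  refine receptive_of h.le (fun P f hf himg N hN => ?_)
  have hNS : N ≤ S := fun g hg => ((hN g).1 hg).1
  have inner : (∃ g ∈ S, ∀ x ∈ P, f x = g * x * g⁻¹) →
      ∃ f', Mor (eSys S ι.range h.le) N f' ∧ ∀ x ∈ P, f' x = f x := by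
    rintro ⟨g, hg, hgf⟩
    exact ⟨fun x => g * x * g⁻¹, Mor.conj _ hNS hg, fun x hx => (hgf x hx).symm⟩
  obtain ⟨hPS, hcase⟩ := mor_eSys_iff.1 hf
  rcases hcase with hin | ⟨hinj, hmul, s, hs, -, -, h1, -⟩
  · exact inner hin
  · have hPs : ∀ q, s * ι q * s⁻¹ ∈ P := by
      have hc : Mor (eSys S ι.range h.le) P (fun x => s⁻¹ * x * s⁻¹⁻¹) :=
        Mor.conj _ hPS (S.inv_mem hs)
      have hle : imgS P (fun x => s⁻¹ * x * s⁻¹⁻¹) ≤ ι.range := by
        intro y hy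
        obtain ⟨x, hx, rfl⟩ := hc.mem_imgS.1 hy
        show s⁻¹ * x * s⁻¹⁻¹ ∈ ι.range
        rw [inv_inv]; exact h1 x hx
      haveI : Finite ι.range := finite_of_le h.le
      have hcard : Nat.card ι.range ≤ Nat.card (imgS P (fun x => s⁻¹ * x * s⁻¹⁻¹)) := by
        rw [hc.card_imgS, ← hf.card_imgS, himg]
      have heq := Subgroup.eq_of_le_of_card_ge hle hcard
      intro q
      have hq : ι q ∈ imgS P (fun x => s⁻¹ * x * s⁻¹⁻¹) := by rw [heq]; exact ⟨q, rfl⟩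
      obtain ⟨x, hx, hxq⟩ := hc.mem_imgS.1 hq
      have e : s * ι q * s⁻¹ = x := by rw [← hxq]; group
      rw [e]; exact hx
    obtain ⟨φ, hφ⟩ : ∃ φ : Q8 →* Ω, ∀ q, φ q = f (s * ι q * s⁻¹) :=
      ⟨MonoidHom.mk' (fun q => f (s * ι q * s⁻¹)) (fun q r => by
        show f (s * ι (q * r) * s⁻¹) = f (s * ι q * s⁻¹) * f (s * ι r * s⁻¹)
        rw [← hf.map_mul (hPs q) (hPs r), map_mul]; congr 1; group), fun q => rfl⟩
    have hφinj : Function.Injective φ := by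
      intro q r hqr
      rw [hφ, hφ] at hqr
      have := hf.injOn (hPs q) (hPs r) hqr
      exact h.inj (mul_left_cancel (mul_right_cancel this))
    have hφE : ∀ q, φ q ∈ ι.range := fun q => by
      rw [hφ, ← himg]; exact hf.mem_imgS_of_mem (hPs q)
    by_cases hc1 : φ (a 1) = ι (a 1) ∨ φ (a 1) = ι (a 3)
    · obtain ⟨w, hw, hwφ⟩ := h.inner_of hφinj hφE hc1
      refine inner ⟨w * s⁻¹, S.mul_mem hw (S.inv_mem hs), fun x hx => ?_⟩
      obtain ⟨q, hq⟩ := h1 x hx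
      have hx' : x = s * ι q * s⁻¹ := by rw [hq]; group
      rw [hx', ← hφ, hwφ]; group
    · obtain ⟨q₁, hq₁⟩ := hφE (a 1)
      have hq₁sq : q₁ * q₁ ≠ 1 := by
        intro e
        have e' : φ (a 1 * a 1) = φ 1 := by
          rw [map_mul, ← hq₁, ← map_mul, e, map_one, map_one]
        exact absurd (hφinj e') (by decide)
      rcases sq_ne_cases q₁ hq₁sq with rfl | rfl | ⟨n, rfl⟩
      · exact absurd (Or.inl hq₁.symm) hc1
      · exact absurd (Or.inr hq₁.symm) hc1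
      have hNP : N ≤ P := by
        intro g hg
        obtain ⟨hgS, hgN, hh, hhS, hgh⟩ := (hN g).1 hg
        have hx1 : g * (s * ι (a 1) * s⁻¹) * g⁻¹ = s * ι (a 1) * s⁻¹ ∨
            g * (s * ι (a 1) * s⁻¹) * g⁻¹ = (s * ι (a 1) * s⁻¹)⁻¹ := by
          have e3 : ι (a 3) = (ι (a 1))⁻¹ := by
            rw [← map_inv]; exact congrArg ι (by decide)
          have e : g * (s * ι (a 1) * s⁻¹) * g⁻¹ = (g * s) * ι (a 1) * (g * s)⁻¹ := by group
          rw [e]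
          rcases h.hin s hs with h2 | h2 <;>
            rcases h.hin (g * s) (S.mul_mem hgS hs) with h3 | h3
          · left; rw [h2, h3]
          · right; rw [h2, h3, e3]
          · right; rw [h2, h3, e3, inv_inv]
          · left; rw [h2, h3]
        have hhE : hh ∈ ι.range := by
          refine h.norm_xa n hhS ?_
          have h4 := hgh _ (hPs (a 1))
          rw [← hφ (a 1), ← hq₁] at h4
          rcases hx1 with h5 | h5
          · left; rw [← h4, h5, ← hφ (a 1), hq₁]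
          · right; rw [← h4, h5, hf.map_inv (hPs (a 1)), ← hφ (a 1), hq₁]
        obtain ⟨qh, hqh⟩ := hhE
        obtain ⟨h', hh'P, hh'⟩ : ∃ h' ∈ P, f h' = hh :=
          hf.mem_imgS.1 (by rw [himg]; exact ⟨qh, hqh⟩)
        have hcent : ∀ x ∈ P, g * x * g⁻¹ = h' * x * h'⁻¹ := by
          intro x hx
          have hgx : g * x * g⁻¹ ∈ P := conj_mem_of_mem_normalizer hgN hx
          have hhx : h' * x * h'⁻¹ ∈ P := P.mul_mem (P.mul_mem hh'P hx) (P.inv_mem hh'P)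
          refine hf.injOn hgx hhx ?_
          rw [hgh x hx, hf.map_mul (P.mul_mem hh'P hx) (P.inv_mem hh'P), hf.map_mul hh'P hx,
            hf.map_inv hh'P, hh']
        have h6 := hcent _ (hPs (xa 0))
        have hg1 : s⁻¹ * (h'⁻¹ * g) * s ∈ ι.range := by
          refine h.norm_xa 0
            (S.mul_mem (S.mul_mem (S.inv_mem hs) (S.mul_mem (S.inv_mem (hPS hh'P)) hgS)) hs)
            (Or.inl ?_)
          have e : s⁻¹ * (h'⁻¹ * g) * s * ι (xa 0) * (s⁻¹ * (h'⁻¹ * g) * s)⁻¹ =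
              s⁻¹ * h'⁻¹ * (g * (s * ι (xa 0) * s⁻¹) * g⁻¹) * h' * s := by group
          rw [e, h6]; group
        obtain ⟨q₂, hq₂⟩ := hg1
        have e : g = h' * (s * ι q₂ * s⁻¹) := by rw [hq₂]; group
        rw [e]
        exact P.mul_mem hh'P (hPs q₂)
      exact ⟨f, hf.restrict hNP, fun x _ => rfl⟩

theorem ξ_mem_normalizer (h : Cfg S ι ξ) : ξ ∈ Subgroup.normalizer (ι.range : Set Ω) := by
  refine mem_normalizer_of_forall_conj_mem ?_ ?_
  · rintro _ ⟨q, rfl⟩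
    exact ⟨θ q, (h.conj_ξ q).symm⟩
  · rintro _ ⟨q, rfl⟩
    obtain ⟨r, hr⟩ := θ_surj q
    refine ⟨r, ?_⟩
    have e : ι q = ξ * ι r * ξ⁻¹ := by rw [h.conj_ξ]; exact congrArg ι hr.symm
    rw [e]; group

theorem fa_E (h : Cfg S ι ξ) [Finite S] (hS : IsPGroup 2 S) :
    (eSys S ι.range h.le).IsFullyAutomized 2 ι.range := by
  haveI : Fact (Nat.Prime 2) := ⟨Nat.prime_two⟩
  haveI : Finite ι.range := finite_of_le h.le
  refine ⟨h.le, ?_⟩
  have hH : IsPGroup 2 ((autInducedBy S ι.range).subgroupOf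
      ((eSys S ι.range h.le).autGroup ι.range)) :=
    (autInducedBy_isPGroup hS ι.range).comap_subtype
  obtain ⟨R, hHR⟩ := hH.exists_le_sylow
  refine ⟨R, le_antisymm (fun β hβ => ?_) hHR⟩
  rw [Subgroup.mem_subgroupOf, mem_autInducedBy_iff]
  obtain ⟨φ, hφ⟩ : ∃ φ : Q8 →* Ω,
      ∀ q, φ q = (((β : MulAut ι.range) (ι.rangeRestrict q) : ι.range) : Ω) :=
    ⟨ι.range.subtype.comp ((β : MulAut ι.range).toMonoidHom.comp ι.rangeRestrict), fun q => rfl⟩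
  have hφinj : Function.Injective φ := by
    intro q r hqr
    rw [hφ, hφ] at hqr
    have h2 := (β : MulAut ι.range).injective (Subtype.ext hqr)
    exact h.inj (congrArg Subtype.val h2)
  have hφE : ∀ q, φ q ∈ ι.range := fun q => by
    rw [hφ]; exact ((β : MulAut ι.range) (ι.rangeRestrict q)).2
  have hc1 : φ (a 1) = ι (a 1) ∨ φ (a 1) = ι (a 3) := by
    by_contra hc1
    obtain ⟨q₁, hq₁⟩ := hφE (a 1)
    have hq₁sq : q₁ * q₁ ≠ 1 := by
      intro e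
      have e' : φ (a 1 * a 1) = φ 1 := by
        rw [map_mul, ← hq₁, ← map_mul, e, map_one, map_one]
      exact absurd (hφinj e') (by decide)
    rcases sq_ne_cases q₁ hq₁sq with rfl | rfl | ⟨n₀, rfl⟩
    · exact hc1 (Or.inl hq₁.symm)
    · exact hc1 (Or.inr hq₁.symm)
    -- the orbit of `ι (a 1)` under `R` has `6` elements
    have hsm : ∀ (r : R.toSubgroup) (y : ι.range),
        r • y = ((r : (eSys S ι.range h.le).autGroup ι.range) : MulAut ι.range) y :=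
      fun r y => rfl
    have hrel : ∀ w ∈ S, w ∈ Subgroup.normalizer (ι.range : Set Ω) →
        ∃ r : R.toSubgroup, ∀ y : ι.range, ((r • y : ι.range) : Ω) = w * y * w⁻¹ := by
      intro w hw hwN
      obtain ⟨α, hα⟩ := exists_conjAut hwN
      have hαS : α ∈ autInducedBy S ι.range := (mem_autInducedBy_iff S ι.range α).2 ⟨w, hw, hα⟩
      have hαA := autInducedBy_le_autGroup (eSys S ι.range h.le) h.le hαS
      exact ⟨⟨⟨α, hαA⟩, hHR (Subgroup.mem_subgroupOf.2 hαS)⟩, fun y => hα y⟩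
    have hmem : ∀ w ∈ S, w ∈ Subgroup.normalizer (ι.range : Set Ω) → ∀ q q' : Q8,
        w * ι q * w⁻¹ = ι q' →
        ι.rangeRestrict q ∈ MulAction.orbit R.toSubgroup (ι.rangeRestrict (a 1)) →
        ι.rangeRestrict q' ∈ MulAction.orbit R.toSubgroup (ι.rangeRestrict (a 1)) := by
      intro w hw hwN q q' hwq hq
      obtain ⟨r, hr⟩ := hrel w hw hwN
      have e : r • ι.rangeRestrict q = ι.rangeRestrict q' := Subtype.ext ((hr _).trans hwq)
      rw [← e]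
      exact MulAction.mem_orbit_of_mem_orbit r hq
    have h0 : ι.rangeRestrict (xa n₀) ∈
        MulAction.orbit R.toSubgroup (ι.rangeRestrict (a 1)) := by
      have e : (⟨β, hβ⟩ : R.toSubgroup) • ι.rangeRestrict (a 1) = ι.rangeRestrict (xa n₀) := by
        rw [hsm]
        exact Subtype.ext ((hφ (a 1)).symm.trans hq₁.symm)
      rw [← e]
      exact MulAction.mem_orbit _ _
    have hstep : ∀ m, ι.rangeRestrict (xa m) ∈
        MulAction.orbit R.toSubgroup (ι.rangeRestrict (a 1)) →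
        ι.rangeRestrict (xa (m + 3)) ∈
          MulAction.orbit R.toSubgroup (ι.rangeRestrict (a 1)) :=
      fun m hm => hmem ξ h.hξ h.ξ_mem_normalizer (xa m) (xa (m + 3))
        (by rw [h.conj_ξ, θ_xa]) hm
    have hO : MulAction.orbit R.toSubgroup (ι.rangeRestrict (a 1)) =
        {y : ι.range | (y : Ω) * y ≠ 1} := by
      ext y
      constructor
      · rintro ⟨r, rfl⟩
        intro e
        have e1 : (r • ι.rangeRestrict (a 1)) * (r • ι.rangeRestrict (a 1)) = (1 : ι.range) :=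
          Subtype.ext e
        rw [hsm, ← map_mul] at e1
        have e2 := (MulEquiv.map_eq_one_iff _).1 e1
        have e3 : ι (a 1) * ι (a 1) = 1 := congrArg Subtype.val e2
        rw [← map_mul] at e3
        exact h.ne_one (by decide) e3
      · intro hy
        obtain ⟨q, hq⟩ := y.2
        have hyq : y = ι.rangeRestrict q := Subtype.ext hq.symm
        have hqq : q * q ≠ 1 := by
          intro e
          apply hy
          rw [← hq, ← map_mul, e, map_one]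
        rw [hyq]
        rcases sq_ne_cases q hqq with rfl | rfl | ⟨n, rfl⟩
        · exact MulAction.mem_orbit_self _
        · refine hmem (ι (xa 0)) (h.le ⟨_, rfl⟩) (Subgroup.le_normalizer ⟨_, rfl⟩) (a 1) (a 3) ?_
            (MulAction.mem_orbit_self _)
          rw [← map_inv, ← map_mul, ← map_mul]; exact congrArg ι (by decide)
        · rcases zmod4_orbit n n₀ with rfl | rfl | rfl | rfl
          · exact h0
          · exact hstep _ h0
          · exact hstep _ (hstep _ h0)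
          · exact hstep _ (hstep _ (hstep _ h0))
    obtain ⟨k, hk⟩ := R.isPGroup'.card_orbit (ι.rangeRestrict (a 1))
    rw [hO] at hk
    have hc6 : Nat.card {y : ι.range | (y : Ω) * y ≠ 1} = 6 := by
      rw [← card_sq_ne, ← Nat.card_eq_fintype_card]
      refine (Nat.card_congr (Equiv.subtypeEquiv (MonoidHom.ofInjective h.inj).toEquiv ?_)).symm
      intro q
      show q * q ≠ 1 ↔ ι q * ι q ≠ 1
      rw [← map_mul]
      exact ⟨fun hq => h.ne_one hq, fun hq e => hq (by rw [e, map_one])⟩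
    rw [hc6] at hk
    rcases k with _ | _ | _ | k
    · norm_num at hk
    · norm_num at hk
    · norm_num at hk
    · have h8 : 1 ≤ 2 ^ k := Nat.one_le_two_pow
      rw [pow_add] at hk
      omega
  obtain ⟨w, hw, hwφ⟩ := h.inner_of hφinj hφE hc1
  refine ⟨w, hw, fun x => ?_⟩
  obtain ⟨q, hq⟩ := x.2
  have hxq : x = ι.rangeRestrict q := Subtype.ext hq.symm
  rw [hxq, ← hφ, hwφ]; rfl

theorem conj_step (h : Cfg S ι ξ) {P : Subgroup Ω} (hP : P ≤ ι.range) :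
    ∃ Qr, (eSys S ι.range h.le).IsConj P Qr ∧ (Qr = ι.range ∨ (Qr ≤ S ∧ InC ι Qr)) := by
  by_cases hall : ∀ q, ι q ∈ P
  · refine ⟨ι.range, ?_, Or.inl rfl⟩
    have e : P = ι.range := le_antisymm hP (by rintro _ ⟨q, rfl⟩; exact hall q)
    rw [e]; exact isConj_refl _ h.le
  by_cases hC : InC ι P
  · exact ⟨P, isConj_refl _ (hP.trans h.le), Or.inr ⟨hP.trans h.le, hC⟩⟩
  · unfold InC at hC
    push Not at hC
    obtain ⟨u, hu, huC⟩ := hC
    obtain ⟨q, hq⟩ := hP hu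
    rcases q_cases q with ⟨m, rfl⟩ | ⟨n, rfl⟩
    · exact absurd hq.symm (huC m)
    have hPu : ∀ x ∈ P, ∃ e : Fin 4, x = ι (xa n ^ e.val) := by
      intro x hx
      obtain ⟨q', rfl⟩ := hP hx
      rcases xa_gen n q' with ⟨e, he⟩ | hgen
      · exact ⟨e, by rw [he]⟩
      · exfalso; apply hall; intro r
        obtain ⟨c, b, rfl⟩ := hgen r
        rw [map_mul, map_pow, map_pow, hq]
        exact P.mul_mem (P.pow_mem hu _) (P.pow_mem hx _)
    obtain ⟨σ, hσ, hσn, -⟩ := exists_aut n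
    have hP1 : ∀ x ∈ P, (1 : Ω)⁻¹ * x * 1 ∈ ι.range := fun x hx => by
      rw [inv_one, one_mul, mul_one]; exact hP hx
    have hmor := h.mor_lift S.one_mem hσ (hP.trans h.le) hP1
    refine ⟨_, isConj_iff.2 ⟨_, hmor, rfl⟩, Or.inr ⟨hmor.imgS_le, ?_⟩⟩
    intro y hy
    obtain ⟨x, hx, rfl⟩ := hmor.mem_imgS.1 hy
    obtain ⟨e, rfl⟩ := hPu x hx
    have h6 : (1 : Ω)⁻¹ * ι (xa n ^ e.val) * 1 = ι (xa n ^ e.val) := by
      rw [inv_one, one_mul, mul_one]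
    obtain ⟨m, hm⟩ := a1_pow_fin e
    refine ⟨m, ?_⟩
    show ι (σ (Function.invFun ι ((1 : Ω)⁻¹ * ι (xa n ^ e.val) * 1))) = ι (a m)
    rw [h.lift_apply 1 σ h6, map_pow, hσn, hm]

theorem saturated (h : Cfg S ι ξ) [Finite S] (hS : IsPGroup 2 S) :
    (eSys S ι.range h.le).IsSaturated 2 := by
  refine eSys_saturated hS (fun P hP hin => ?_)
  obtain ⟨s, hs, hsP⟩ := hin
  have hc : Mor (eSys S ι.range h.le) P (fun x => s⁻¹ * x * s⁻¹⁻¹) :=
    Mor.conj _ hP (S.inv_mem hs)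
  have hle : imgS P (fun x => s⁻¹ * x * s⁻¹⁻¹) ≤ ι.range := by
    intro y hy
    obtain ⟨x, hx, rfl⟩ := hc.mem_imgS.1 hy
    show s⁻¹ * x * s⁻¹⁻¹ ∈ ι.range
    rw [inv_inv]; exact hsP x hx
  obtain ⟨Qr, hconj, hQ⟩ := h.conj_step hle
  refine ⟨Qr, isConj_trans (isConj_iff.2 ⟨_, hc, rfl⟩) hconj, ?_⟩
  rcases hQ with rfl | ⟨hQS, hQC⟩
  · exact ⟨h.fa_E hS, h.rec_E⟩
  · exact ⟨h.fa_small hS hQS hQC, h.rec_small hQS hQC⟩

theorem not_normal (h : Cfg S ι ξ) : ¬ (eSys S ι.range h.le).IsNormal S := by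
  obtain ⟨σ, hσ, -, m, hσm⟩ := exists_aut 0
  have hE1 : ∀ x ∈ ι.range, (1 : Ω)⁻¹ * x * 1 ∈ ι.range := fun x hx => by
    rw [inv_one, one_mul, mul_one]; exact hx
  refine eSys_not_normal ?_ _ (h.mor_lift S.one_mem hσ h.le hE1) ?_
  · rintro ⟨s, hs, hsS⟩
    have h1 := hsS (s * ξ * s⁻¹) (S.mul_mem (S.mul_mem hs h.hξ) (S.inv_mem hs))
    have e : s⁻¹ * (s * ξ * s⁻¹) * s = ξ := by group
    rw [e] at h1
    obtain ⟨q, hq⟩ := h1
    apply not_inner_ξ
    refine ⟨q, h.inj ?_, h.inj ?_⟩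
    · rw [map_mul, map_mul, map_inv, hq]; exact h.hξi
    · rw [map_mul, map_mul, map_inv, hq]; exact h.hξj
  · rintro ⟨g, hg, hgf⟩
    have h1 := hgf (ι (a 1)) ⟨_, rfl⟩
    have h6 : (1 : Ω)⁻¹ * ι (a 1) * 1 = ι (a 1) := by rw [inv_one, one_mul, mul_one]
    have h2 : ι (σ (Function.invFun ι ((1 : Ω)⁻¹ * ι (a 1) * 1))) = g * ι (a 1) * g⁻¹ := h1
    rw [h.lift_apply 1 σ h6, hσm] at h2
    rcases h.hin g hg with h3 | h3
    · rw [h3] at h2; exact xa_ne_a m 1 (h.inj h2)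
    · rw [h3] at h2; exact xa_ne_a m 3 (h.inj h2)

end Cfg

/-- **S5287-Q** (the quaternion system). -/
theorem quat_sys {Ω : Type*} [Group Ω] {S : Subgroup Ω} [Finite S] (hS : IsPGroup 2 S) (i j ξ : Ω) (hi : i ∈ S) (hj : j ∈ S) (hξ : ξ ∈ S) (hi4 : i ^ 4 = 1) (hi2 : i ^ 2 ≠ 1) (hj2 : j * j = i ^ 2) (hji : j * i * j⁻¹ = i⁻¹) (hzc : ∀ s ∈ S, s * i ^ 2 = i ^ 2 * s) (hin : ∀ s ∈ S, s * i * s⁻¹ = i ∨ s * i * s⁻¹ = i⁻¹) (hξi : ξ * i = i * ξ) (hξj : ξ * j * ξ⁻¹ = i * j) (hNj : ∀ s ∈ S, (s * j * s⁻¹ = j ∨ s * j * s⁻¹ = j⁻¹) → ∃ a b : ℕ, s = i ^ a * j ^ b) (hNk : ∀ s ∈ S, (s * (i * j) * s⁻¹ = i * j ∨ s * (i * j) * s⁻¹ = (i * j)⁻¹) → ∃ a b : ℕ, s = i ^ a * j ^ b) : ∃ F : Cfsg.FusionSystem S, F.IsSaturated 2 ∧ ¬ F.IsNormal S := by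
  have hA : i ^ (2 * 2) = 1 := hi4
  obtain ⟨ι, hι⟩ : ∃ ι : Q8 →* Ω, ι = Cfsg.Agent.H25.quatLift 2 i j hA hj2 hji := ⟨_, rfl⟩
  have hιi : ι (QuaternionGroup.a 1) = i := by
    rw [hι]
    show Cfsg.Agent.H25.zp (2 * 2) i 1 = i
    have h1 := Cfsg.Agent.H25.zp_natCast hA 1
    rw [Nat.cast_one, pow_one] at h1
    exact h1
  have hιj : ι (QuaternionGroup.xa 0) = j := by
    rw [hι]
    show j * Cfsg.Agent.H25.zp (2 * 2) i 0 = j
    have h1 := Cfsg.Agent.H25.zp_natCast hA 0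
    rw [Nat.cast_zero, pow_zero] at h1
    rw [h1, mul_one]
  have hord4 : orderOf i = 4 := by
    have h1 := orderOf_eq_prime_pow (p := 2) (n := 1) (x := i) (by simpa using hi2)
      (by simpa using hi4)
    simpa using h1
  have hinj : Function.Injective ι := by
    rw [hι]
    refine Cfsg.Agent.H25.quatLift_injective 2 i j hA hj2 hji (fun c hc => ?_) (fun c hc => ?_)
    · have h1 := orderOf_dvd_iff_zpow_eq_one.2 hc
      rw [hord4] at h1
      exact_mod_cast h1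
    · have hjc : j = (i ^ c)⁻¹ := eq_inv_of_mul_eq_one_left hc
      have h1 : j * i * j⁻¹ = i := by rw [hjc]; group
      rw [hji] at h1
      apply hi2
      rw [pow_two]
      nth_rewrite 1 [← h1]
      group
  have hcfg : Cfg S ι ξ := by
    have e3 : ι (QuaternionGroup.a 3) = i⁻¹ := by
      rw [← hιi, ← map_inv]; exact congrArg ι (by decide)
    have e2 : ι (QuaternionGroup.xa 2) = j⁻¹ := by
      rw [← hιj, ← map_inv]; exact congrArg ι (by decide)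
    have ek : ι (QuaternionGroup.xa 3) = i * j := by
      rw [← hιi, ← hιj, ← map_mul]; exact congrArg ι (by decide)
    have ek' : ι (QuaternionGroup.xa 1) = (i * j)⁻¹ := by
      rw [← ek, ← map_inv]; exact congrArg ι (by decide)
    have hrange : ∀ c b : ℕ, i ^ c * j ^ b ∈ ι.range := fun c b =>
      ⟨QuaternionGroup.a 1 ^ c * QuaternionGroup.xa 0 ^ b, by
        rw [map_mul, map_pow, map_pow, hιi, hιj]⟩
    refine ⟨hinj, ?_, hξ, ?_, ?_, ?_, ?_, ?_⟩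
    · rintro _ ⟨q, rfl⟩
      obtain ⟨m, n, rfl⟩ := q_gen q
      rw [map_mul, map_pow, map_pow, hιi, hιj]
      exact S.mul_mem (S.pow_mem hi _) (S.pow_mem hj _)
    · intro s hs
      rw [hιi, e3]; exact hin s hs
    · rw [hιi, hξi]; group
    · rw [hιj, ek]; exact hξj
    · intro s hs hc
      rw [hιj, e2] at hc
      obtain ⟨c, b, rfl⟩ := hNj s hs hc
      exact hrange c b
    · intro s hs hc
      rw [ek, ek'] at hc
      obtain ⟨c, b, rfl⟩ := hNk s hs hc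
      exact hrange c b
  exact ⟨eSys S ι.range hcfg.le, hcfg.saturated hS, hcfg.not_normal⟩

end Cfsg.Agent.H89.QuatSys
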