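import Mathlib
import Cfsg.Agent.H44.SpLDefs

/-!
# SPL-CHAR (S2333, helper89 for helper44): a primitive additive character of a finite field of
characteristic 2 which is invariant under the Frobenius `x ↦ x²`
-/

set_option autoImplicit false

namespace Cfsg.Agent.H89.SpL

open Cfsg.Agent.H44.SpL

universe u

/-- The squaring map as an additive homomorphism in characteristic 2. -/
def sqHom {F : Type u} [Field F] (h2 : (2 : F) = 0) : F →+ F where
  toFun x := x ^ 2
  map_zero' := by simp
  map_add' x y := by linear_combination (x * y) * h2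

theorem sqHom_apply {F : Type u} [Field F] (h2 : (2 : F) = 0) (x : F) : sqHom h2 x = x ^ 2 := rfl

theorem sq_surjective {F : Type u} [Field F] [Finite F] (h2 : (2 : F) = 0) :
    Function.Surjective (fun x : F => x ^ 2) := by
  apply Finite.injective_iff_surjective.mp
  intro x y hxy
  have hxy' : x ^ 2 = y ^ 2 := hxy
  have h : (x - y) ^ 2 = 0 := by linear_combination hxy' + (y ^ 2 - x * y) * h2
  have h' : x - y = 0 := by simpa using h
  exact sub_eq_zero.mp h'

theorem char : StChar.{u} := by
  intro F _ _ h2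
  classical
  -- a nontrivial, hence primitive, character
  obtain ⟨ψ₀, hψ₀1⟩ := (AddChar.exists_apply_ne_zero (a := (1 : F))).mpr one_ne_zero
  have hψ₀ne : ψ₀ ≠ 1 := by
    intro h
    apply hψ₀1
    rw [h]
    simp
  have hψ₀ : ψ₀.IsPrimitive := AddChar.IsPrimitive.of_ne_one hψ₀ne
  -- every character is a shift of `ψ₀`
  have hbij : Function.Bijective ψ₀.mulShift := by
    rw [Fintype.bijective_iff_injective_and_card]
    exact ⟨AddChar.to_mulShift_inj_of_isPrimitive hψ₀, AddChar.card_eq.symm⟩
  obtain ⟨ν, hν⟩ := hbij.2 (ψ₀.compAddMonoidHom (sqHom h2))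
  have hνx : ∀ x : F, ψ₀ (ν * x) = ψ₀ (x ^ 2) := by
    intro x
    have h := DFunLike.congr_fun hν x
    rw [AddChar.mulShift_apply, AddChar.compAddMonoidHom_apply, sqHom_apply] at h
    exact h
  have hν0 : ν ≠ 0 := by
    rintro rfl
    apply hψ₀ne
    ext x
    obtain ⟨y, hy⟩ := sq_surjective h2 x
    have h := hνx y
    rw [zero_mul, AddChar.map_zero_eq_one] at h
    have hy' : y ^ 2 = x := hy
    rw [hy'] at h
    rw [← h]
    simp
  refine ⟨ψ₀.mulShift (ν ^ 2), AddChar.IsPrimitive.of_ne_one (hψ₀ (pow_ne_zero 2 hν0)), ?_⟩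
  intro x
  rw [AddChar.mulShift_apply, AddChar.mulShift_apply]
  have e1 : ν ^ 2 * x ^ 2 = (ν * x) ^ 2 := by ring
  have e2 : ν ^ 2 * x = ν * (ν * x) := by ring
  rw [e1, ← hνx (ν * x), e2]

example : StChar.{u} := char

end Cfsg.Agent.H89.SpL
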