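import Cfsg.Agent.H89.Series
import Cfsg.Agent.H89.PStable
import Cfsg.Agent.H88.Subnormal

set_option autoImplicit false

namespace Cfsg.Agent.H89

open Cfsg Cfsg.FusionSystem Cfsg.Agent.H86

variable {Ω : Type*} [Group Ω] {S : Subgroup Ω}

/-- Conjugacy in a subsystem is conjugacy in the system. -/
theorem isConj_of_subsystem {T : Subgroup Ω} {E : FusionSystem T} {F : FusionSystem S}
    (hEF : E.IsSubsystemOf F) {P Q : Subgroup Ω} (h : E.IsConj P Q) : F.IsConj P Q := by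
  obtain ⟨φ, hφ, hr⟩ := h
  exact ⟨φ, hEF P hφ, hr⟩

/-- If `P` is radical and `φ` is a map of the system with source `P`, every element of
`O_p(Aut_F(φ(P)))` is inner. -/
theorem mem_inn_of_radical_conj [Finite S] {p : ℕ} [Fact p.Prime] {F : FusionSystem S} {P : Subgroup Ω}
    (hPr : F.IsRadical p P) {φ : P →* Ω} (hφ : φ ∈ F.Hom P) {α : MulAut φ.range}
    (hα : α ∈ (pCore p ↥(F.autGroup φ.range)).map (F.autGroup φ.range).subtype) :
    α ∈ Inn φ.range := by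
  have hR : φ.range ≤ S := range_le F hφ
  have hfinR : Finite φ.range := finite_of_le hR
  have hfinA : Finite (F.autGroup φ.range) := Finite.of_injective (fun a => (a : MulAut φ.range))
    Subtype.val_injective
  let e := homEquiv F hφ
  have h1 : (MulAut.congr e).symm α ∈ (pCore p ↥(F.autGroup P)).map (F.autGroup P).subtype := by
    refine mem_pCore_map_equiv (MulAut.congr e).symm (A := F.autGroup φ.range) (B := F.autGroup P)
      (fun a => ?_) hα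
    rw [autGroup_transport F hφ ((MulAut.congr e).symm a), MulEquiv.apply_symm_apply]
  rw [hPr.2] at h1
  obtain ⟨g, hg⟩ := h1
  refine ⟨e g, ?_⟩
  have h2 : α = MulAut.congr e ((MulAut.congr e).symm α) := (MulEquiv.apply_symm_apply _ _).symm
  rw [h2, ← hg]
  ext y
  show ((MulAut.conj (e g)) y : Ω) = ((e ((MulAut.conj g) (e.symm y)) : φ.range) : Ω)
  rw [MulAut.conj_apply, MulAut.conj_apply, map_mul, map_mul, map_inv, MulEquiv.apply_symm_apply]

/-- Conjugation by `d ∈ T ∩ C(P ∩ T)` normalizing `P` lies in `O_p(Aut_F(P))` when `T` is strongly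
closed. -/
theorem conj_mem_pCore_of_centralizes [Finite S] {p : ℕ} [Fact p.Prime] (hS : IsPGroup p S)
    {F : FusionSystem S} {T : Subgroup Ω} (hT : F.StronglyClosed T) {P : Subgroup Ω} (hP : P ≤ S)
    {d : Ω} (hdT : d ∈ T) (hdC : ∀ y ∈ P ⊓ T, y * d = d * y) {α : MulAut P}
    (hα : ∀ y : P, ((α y : P) : Ω) = d * (y : Ω) * d⁻¹) :
    α ∈ (pCore p ↥(F.autGroup P)).map (F.autGroup P).subtype := by
  have hfinP : Finite P := finite_of_le hP
  have hdS : d ∈ S := hT.1 hdT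
  have hαA : α ∈ F.autGroup P :=
    autInducedBy_le_autGroup F hP ((mem_autInducedBy_iff S P α).2 ⟨d, hdS, hα⟩)
  let A : ℕ → Subgroup P := fun k =>
    match k with
    | 0 => ⊤
    | 1 => T.subgroupOf P
    | (_ + 2) => ⊥
  have hA0 : A 0 = ⊤ := rfl
  have hA1 : A 1 = T.subgroupOf P := rfl
  have hA2 : A 2 = ⊥ := rfl
  have hanti : ∀ k < 2, A (k + 1) ≤ A k := by
    intro k hk
    match k with
    | 0 => rw [hA0]; exact le_top
    | 1 => rw [hA2]; exact bot_le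
  have hinv : ∀ γ ∈ F.autGroup P, ∀ k ≤ 2, ∀ u ∈ A k, γ u ∈ A k := by
    intro γ hγ k hk u hu
    have hγM := (Cfsg.Agent.H86.mem_autGroup_iff hP γ).1 hγ
    match k with
    | 0 => rw [hA0]; exact Subgroup.mem_top _
    | 1 =>
      rw [hA1] at hu ⊢
      rw [Subgroup.mem_subgroupOf] at hu ⊢
      have := (stronglyClosed_iff.1 hT).2 (T ⊓ P) _ inf_le_left (hγM.restrict inf_le_right)
        (u : Ω) ⟨hu, u.2⟩
      rwa [autFun_apply] at this
    | 2 =>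
      rw [hA2] at hu ⊢
      rw [Subgroup.mem_bot] at hu ⊢
      rw [hu, map_one]
  have hstab : ∀ k < 2, ∀ u ∈ A k, u⁻¹ * α u ∈ A (k + 1) := by
    intro k hk u hu
    have hval : ((u⁻¹ * α u : P) : Ω) = (u : Ω)⁻¹ * (d * (u : Ω) * d⁻¹) := by
      rw [Subgroup.coe_mul, hα, Subgroup.coe_inv]
    match k with
    | 0 =>
      rw [hA1, Subgroup.mem_subgroupOf, hval]
      have h1 : (u : Ω)⁻¹ * d * ((u : Ω)⁻¹)⁻¹ ∈ T :=
        stronglyClosed_conj_mem hT (S.inv_mem (hP u.2)) hdT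
      rw [inv_inv] at h1
      have h2 := T.mul_mem h1 (T.inv_mem hdT)
      have h3 : (u : Ω)⁻¹ * (d * (u : Ω) * d⁻¹) = (u : Ω)⁻¹ * d * (u : Ω) * d⁻¹ := by group
      rw [h3]
      exact h2
    | 1 =>
      rw [hA1, Subgroup.mem_subgroupOf] at hu
      rw [hA2, Subgroup.mem_bot]
      apply Subtype.ext
      rw [hval, Subgroup.coe_one]
      have h1 := hdC (u : Ω) ⟨u.2, hu⟩
      rw [← h1]
      group
  exact mem_pCore_of_stab (hS.to_le hP) (F.autGroup P) A 2 hanti hA0 hA2 hinv hαA hstab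

/-- Main step: for `F` saturated, `T` strongly closed, `E ≤ F` over `T`, and `P ≤ S` with `P ∩ T` not
`E`-centric, some `F`-conjugate `P* = f(P)` of `P` has an element `d ∈ T ∩ C(P* ∩ T)` of `S`,
normalizing `P*` and outside `P*`. -/
theorem exists_conj_centralizer_not_le [Finite S] {p : ℕ} [Fact p.Prime] (hS : IsPGroup p S)
    {F : FusionSystem S} (hF : F.IsSaturated p) {T : Subgroup Ω} (E : FusionSystem T)
    (hEF : E.IsSubsystemOf F) (hT : F.StronglyClosed T) {P : Subgroup Ω} (hP : P ≤ S)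
    (hPT : ¬ E.IsCentric (P ⊓ T)) :
    ∃ f, Mor F P f ∧ ∃ d ∈ T, (∀ y ∈ imgS P f ⊓ T, y * d = d * y) ∧
      d ∈ Subgroup.normalizer (imgS P f : Set Ω) ∧ d ∉ imgS P f := by
  have hTS : T ≤ S := hT.1
  have hP₀S : P ⊓ T ≤ S := inf_le_left.trans hP
  -- an E-conjugate of P ⊓ T with non-contained centralizer
  have hex : ∃ R₀, E.IsConj (P ⊓ T) R₀ ∧ ¬ centralizerIn T R₀ ≤ R₀ := by
    by_contra hcon
    exact hPT ⟨inf_le_right, fun R hR => by_contra fun h => hcon ⟨R, hR, h⟩⟩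
  obtain ⟨R₀, hR₀E, hR₀C⟩ := hex
  have hR₀F : F.IsConj (P ⊓ T) R₀ := isConj_of_subsystem hEF hR₀E
  obtain ⟨Q₀, hQ₀c, hQ₀n⟩ := Cfsg.Agent.H86.exists_fullyNormalized_conj F hP₀S
  obtain ⟨f, hf, hfN, hfimg⟩ := Cfsg.Agent.H88.exists_normalizer_map_of_fullyNormalized hS hF hQ₀n hQ₀c
  -- P normalizes P ⊓ T
  have hPN : P ≤ normalizerIn S (P ⊓ T) := by
    intro g hg
    rw [mem_normalizerIn_iff]
    refine ⟨hP hg, ?_⟩
    rw [Subgroup.mem_normalizer_iff]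
    intro n
    constructor
    · rintro ⟨hnP, hnT⟩
      exact ⟨P.mul_mem (P.mul_mem hg hnP) (P.inv_mem hg), stronglyClosed_conj_mem hT (hP hg) hnT⟩
    · rintro ⟨hnP, hnT⟩
      have h1 : g⁻¹ * (g * n * g⁻¹) * g⁻¹⁻¹ ∈ P := P.mul_mem (P.mul_mem (P.inv_mem hg) hnP) (P.inv_mem (P.inv_mem hg))
      have h2 : g⁻¹ * (g * n * g⁻¹) * g⁻¹⁻¹ ∈ T := stronglyClosed_conj_mem hT (S.inv_mem (hP hg)) hnT
      have h3 : g⁻¹ * (g * n * g⁻¹) * g⁻¹⁻¹ = n := by group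
      rw [h3] at h1 h2
      exact ⟨h1, h2⟩
  have hfP : Mor F P f := hf.restrict hPN
  have hfP₀ : Mor F (P ⊓ T) f := hfP.restrict inf_le_left
  -- P* ⊓ T = Q₀
  have hQ₀T : Q₀ ≤ T := by
    rw [← hfimg]
    intro y hy
    obtain ⟨x, hx, rfl⟩ := hfP₀.mem_imgS.1 hy
    exact (stronglyClosed_iff.1 hT).2 (P ⊓ T) f inf_le_right hfP₀ x hx
  have hQ₀P : Q₀ ≤ imgS P f := by
    rw [← hfimg]
    exact hfP.imgS_mono inf_le_left
  have hinter : imgS P f ⊓ T ≤ Q₀ := by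
    rintro y ⟨hyP, hyT⟩
    obtain ⟨x, hx, rfl⟩ := hfP.mem_imgS.1 hyP
    have hinv : Mor F (imgS P f ⊓ T) (invOn P f) := hfP.inv.restrict inf_le_left
    have h1 := (stronglyClosed_iff.1 hT).2 (imgS P f ⊓ T) _ inf_le_right hinv (f x) ⟨hyP, hyT⟩
    rw [invOn_apply hfP.injOn hx] at h1
    rw [← hfimg]
    exact hfP₀.mem_imgS_of_mem ⟨hx, h1⟩
  -- C_T(Q₀) ≰ Q₀
  have hQ₀C : ∃ c ∈ centralizerIn T Q₀, c ∉ Q₀ := by
    have hQ₀r : F.IsReceptive Q₀ :=
      saturated_receptive_of_fullyCentralized hS hF (saturated_fullyNormalized hS hF hQ₀n).1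
    obtain ⟨g, hg, hgimg⟩ := isConj_iff.1 (Cfsg.Agent.H86.isConj_trans (Cfsg.Agent.H86.isConj_symm hR₀F) hQ₀c)
    obtain ⟨g', hg', hg'g⟩ := receptive_extend' hQ₀r hg hgimg
    have hCle : centralizerIn S R₀ ≤ extSub S R₀ g := centralizerIn_le_extSub hg
    have hRle : R₀ ≤ extSub S R₀ g := le_extSub hg
    obtain ⟨c, hc, hcR⟩ := Set.not_subset.1 hR₀C
    obtain ⟨hcT, hcC⟩ := mem_centralizerIn_iff.1 hc
    have hcS : c ∈ centralizerIn S R₀ := mem_centralizerIn_iff.2 ⟨hTS hcT, hcC⟩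
    have hcX : c ∈ extSub S R₀ g := hCle hcS
    refine ⟨g' c, ?_, ?_⟩
    · rw [mem_centralizerIn_iff]
      refine ⟨(stronglyClosed_iff.1 hT).2 (extSub S R₀ g ⊓ T) g' inf_le_right (hg'.restrict inf_le_left)
        c ⟨hcX, hcT⟩, ?_⟩
      intro y hy
      rw [← hgimg] at hy
      obtain ⟨x, hx, rfl⟩ := hg.mem_imgS.1 hy
      rw [← hg'g x hx, ← hg'.map_mul (hRle hx) hcX, ← hg'.map_mul hcX (hRle hx), hcC x hx]
    · intro hmem
      rw [← hgimg] at hmem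
      obtain ⟨x, hx, hxc⟩ := hg.mem_imgS.1 hmem
      rw [← hg'g x hx] at hxc
      have := hg'.injOn (hRle hx) hcX hxc
      exact hcR (this ▸ hx)
  obtain ⟨c, hc, hcQ⟩ := hQ₀C
  have hDU : ¬ centralizerIn T Q₀ ≤ imgS P f := by
    intro hle
    exact hcQ (hinter ⟨hle hc, (mem_centralizerIn_iff.1 hc).1⟩)
  -- apply the normalizer lemma inside N_S(Q₀)
  have hNS : normalizerIn S Q₀ ≤ S := inf_le_left
  have hfinN : Finite (normalizerIn S Q₀) := finite_of_le hNS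
  have hU : imgS P f ≤ normalizerIn S Q₀ := by
    intro y hy
    obtain ⟨x, hx, rfl⟩ := hfP.mem_imgS.1 hy
    exact hfN x (hPN hx)
  have hD : centralizerIn T Q₀ ≤ normalizerIn S Q₀ := by
    intro y hy
    obtain ⟨hyT, hyC⟩ := mem_centralizerIn_iff.1 hy
    exact centralizerIn_le_normalizerIn S Q₀ (mem_centralizerIn_iff.2 ⟨hTS hyT, hyC⟩)
  have hnorm : ∀ s ∈ normalizerIn S Q₀, ∀ d ∈ centralizerIn T Q₀, s * d * s⁻¹ ∈ centralizerIn T Q₀ := by
    intro s hs d hd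
    obtain ⟨hsS, hsN⟩ := mem_normalizerIn_iff.1 hs
    obtain ⟨hdT, hdC⟩ := mem_centralizerIn_iff.1 hd
    rw [mem_centralizerIn_iff]
    refine ⟨stronglyClosed_conj_mem hT hsS hdT, fun y hy => ?_⟩
    have h1 : s⁻¹ * y * s⁻¹⁻¹ ∈ Q₀ :=
      (Subgroup.mem_normalizer_iff.1 (Subgroup.inv_mem _ hsN) y).1 hy
    have h2 := hdC _ h1
    calc y * (s * d * s⁻¹) = s * ((s⁻¹ * y * s⁻¹⁻¹) * d) * s⁻¹ := by group
      _ = s * (d * (s⁻¹ * y * s⁻¹⁻¹)) * s⁻¹ := by rw [h2]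
      _ = s * d * s⁻¹ * y := by group
  obtain ⟨d, hdD, hdN, hdU⟩ := exists_mem_normalizer_not_mem (S := normalizerIn S Q₀) (hS.to_le hNS) hU hD hnorm hDU
  obtain ⟨hdT, hdC⟩ := mem_centralizerIn_iff.1 hdD
  exact ⟨f, hfP, d, hdT, fun y hy => hdC y (hinter hy), hdN, hdU⟩

end Cfsg.Agent.H89
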