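import Cfsg.Agent.H87.PrimeIdx
import Cfsg.Agent.H87.CentricExt
import Cfsg.Agent.H87.BCExt

/-!
# helper89: piece S5243-DETECT of helper87's project (Oliver's lemma)

An automorphism of `T` in `F` that restricts to a map of `E` on an `E`-centric subgroup lies in `K`.
-/

set_option autoImplicit false

namespace Cfsg.Agent.H89.Oliver

open Cfsg Cfsg.FusionSystem Cfsg.Agent.H86 Cfsg.Agent.H87

variable {Ω : Type*} [Group Ω] {S T : Subgroup Ω}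

/-- `f` on `P` is the automorphism `γ` of `T` after a map of `E`. -/
def AMor (E : FusionSystem T) (γ : MulAut T) (P : Subgroup Ω) (f : Ω → Ω) : Prop :=
  ∃ f₀, Mor E P f₀ ∧ ∀ x ∈ P, f x = autFun T γ (f₀ x)

theorem AMor.congr {E : FusionSystem T} {γ : MulAut T} {P : Subgroup Ω} {f f' : Ω → Ω}
    (h : AMor E γ P f) (hff' : ∀ x ∈ P, f x = f' x) : AMor E γ P f' := by
  obtain ⟨f₀, hf₀, hfa⟩ := h
  exact ⟨f₀, hf₀, fun x hx => by rw [← hff' x hx]; exact hfa x hx⟩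

theorem AMor.of_mor {E : FusionSystem T} {P : Subgroup Ω} {f : Ω → Ω} (hf : Mor E P f) :
    AMor E 1 P f :=
  ⟨f, hf, fun _ hx => (autFun_one (hf.mem hx)).symm⟩

theorem AMor.comp {E : FusionSystem T} {F : FusionSystem S} (hTS : T ≤ S) (hI : AutInv E F)
    {γ₁ γ₂ : MulAut T} (hγ₁ : γ₁ ∈ F.autGroup T) {P Q : Subgroup Ω} {f g : Ω → Ω}
    (hf : AMor E γ₁ P f) (hg : AMor E γ₂ Q g) (hPQ : ∀ x ∈ P, f x ∈ Q) (hQT : Q ≤ T) :
    AMor E (γ₂ * γ₁) P (g ∘ f) := by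
  obtain ⟨f₀, hf₀, hfa⟩ := hf
  obtain ⟨g₀, hg₀, hgb⟩ := hg
  have hainv : Mor F T (autFun T γ₁⁻¹) := (mem_autGroup_iff hTS _).1 (Subgroup.inv_mem _ hγ₁)
  have hainvT : imgS T (autFun T γ₁⁻¹) = T := imgS_autFun hainv
  obtain ⟨χ, hχ, hχeq⟩ := hI Q g₀ (autFun T γ₁⁻¹) hQT hg₀ hainv hainvT
  have hf₀T : ∀ x ∈ P, f₀ x ∈ T := fun x hx => hf₀.mem hx
  have haQ : ∀ x ∈ P, autFun T γ₁ (f₀ x) ∈ Q := fun x hx => by
    rw [← hfa x hx]; exact hPQ x hx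
  have hmaps : ∀ x ∈ P, f₀ x ∈ imgS Q (autFun T γ₁⁻¹) := by
    intro x hx
    have h2 : autFun T γ₁⁻¹ (autFun T γ₁ (f₀ x)) = f₀ x := autFun_inv_apply γ₁ (hf₀T x hx)
    rw [← h2]
    exact (hainv.restrict hQT).mem_imgS_of_mem (haQ x hx)
  refine ⟨χ ∘ f₀, hf₀.comp hχ hmaps, fun x hx => ?_⟩
  show g (f x) = autFun T (γ₂ * γ₁) (χ (f₀ x))
  have h1 := haQ x hx
  have h2 : autFun T γ₁⁻¹ (autFun T γ₁ (f₀ x)) = f₀ x := autFun_inv_apply γ₁ (hf₀T x hx)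
  have h3 := hχeq _ h1
  rw [h2] at h3
  have h4 : g₀ (autFun T γ₁ (f₀ x)) ∈ T := hg₀.mem h1
  have h5 : χ (f₀ x) ∈ T := hχ.mem (hmaps x hx)
  rw [autFun_mul _ _ h5, h3, autFun_apply_inv γ₁ h4, hfa x hx, hgb _ h1]

theorem iterate_mem {P : Subgroup Ω} {f : Ω → Ω} (hmaps : ∀ x ∈ P, f x ∈ P) (n : ℕ) :
    ∀ x ∈ P, f^[n] x ∈ P := by
  induction n with
  | zero => intro x hx; exact hx
  | succ n ih =>
    intro x hx
    rw [Function.iterate_succ_apply']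
    exact hmaps _ (ih x hx)

theorem AMor.iter {E : FusionSystem T} {F : FusionSystem S} (hTS : T ≤ S) (hI : AutInv E F)
    {γ : MulAut T} (hγ : γ ∈ F.autGroup T) {P : Subgroup Ω} {f : Ω → Ω} (hPT : P ≤ T)
    (hf : AMor E γ P f) (hmaps : ∀ x ∈ P, f x ∈ P) (n : ℕ) : AMor E (γ ^ n) P (f^[n]) := by
  induction n with
  | zero =>
    rw [pow_zero]
    exact (AMor.of_mor (Mor.id E hPT)).congr (fun x _ => rfl)
  | succ n ih =>
    rw [pow_succ']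
    have h := AMor.comp hTS hI (Subgroup.pow_mem _ hγ n) ih hf (iterate_mem hmaps n) hPT
    exact h.congr (fun x _ => (Function.iterate_succ_apply' f n x).symm)

/-- A map of `F` on `P ≤ N_T(Q)`, with values in `T`, fixing the `E`-centric subgroup `Q`
elementwise moves every element of `P` by an element of `Q`. -/
theorem fix_diff_mem {E : FusionSystem T} {F : FusionSystem S} {P Q : Subgroup Ω}
    (hQP : Q ≤ P) (hPT : P ≤ T) (hPN : P ≤ Subgroup.normalizer (Q : Set Ω)) (hQ : E.IsCentric Q)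
    {f : Ω → Ω} (hf : Mor F P f) (hfT : ∀ x ∈ P, f x ∈ T) (hfQ : ∀ x ∈ Q, f x = x) :
    ∀ x ∈ P, x⁻¹ * f x ∈ Q := by
  intro x hx
  have hc : x⁻¹ * f x ∈ centralizerIn T Q := by
    refine mem_centralizerIn_iff.2 ⟨T.mul_mem (T.inv_mem (hPT hx)) (hfT x hx), ?_⟩
    intro q hq
    have hxq : x * q * x⁻¹ ∈ Q := conj_mem_of_mem_normalizer (hPN hx) hq
    have h1 : f (x * q * x⁻¹) = f x * q * (f x)⁻¹ := by
      rw [hf.map_mul (P.mul_mem hx (hQP hq)) (P.inv_mem hx), hf.map_mul hx (hQP hq),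
        hf.map_inv hx, hfQ q hq]
    rw [hfQ _ hxq] at h1
    calc q * (x⁻¹ * f x) = x⁻¹ * (x * q * x⁻¹) * f x := by group
      _ = x⁻¹ * (f x * q * (f x)⁻¹) * f x := by rw [h1]
      _ = x⁻¹ * f x * q := by group
  exact isCentric_self_le hQ hc

/-- Such a map has order dividing `|Q|`. -/
theorem iterate_card_eq {E : FusionSystem T} {F : FusionSystem S} [Finite S] {P Q : Subgroup Ω}
    (hQP : Q ≤ P) (hPT : P ≤ T) (hPN : P ≤ Subgroup.normalizer (Q : Set Ω)) (hQ : E.IsCentric Q)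
    {f : Ω → Ω} (hf : Mor F P f) (hfT : ∀ x ∈ P, f x ∈ T) (hfQ : ∀ x ∈ Q, f x = x) :
    (∀ x ∈ P, f x ∈ P) ∧ ∀ x ∈ P, f^[Nat.card Q] x = x := by
  have hz := fix_diff_mem hQP hPT hPN hQ hf hfT hfQ
  have hmaps : ∀ x ∈ P, f x ∈ P := by
    intro x hx
    have h1 : f x = x * (x⁻¹ * f x) := by group
    rw [h1]
    exact P.mul_mem hx (hQP (hz x hx))
  refine ⟨hmaps, ?_⟩
  have hpow : ∀ n : ℕ, ∀ x ∈ P, f^[n] x = x * (x⁻¹ * f x) ^ n := by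
    intro n
    induction n with
    | zero => intro x hx; simp
    | succ n ih =>
      intro x hx
      have hzn : (x⁻¹ * f x) ^ n ∈ Q := Q.pow_mem (hz x hx) n
      rw [Function.iterate_succ_apply', ih x hx, hf.map_mul hx (hQP hzn), hfQ _ hzn, pow_succ',
        ← mul_assoc x, mul_inv_cancel_left]
  intro x hx
  haveI : Finite Q := finite_of_le (hf.le.trans' (hQP))
  rw [hpow _ x hx]
  have h1 : (⟨x⁻¹ * f x, hz x hx⟩ : Q) ^ Nat.card Q = 1 := pow_card_eq_one'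
  have h2 := congrArg Subtype.val h1
  simp only [Subgroup.coe_pow, Subgroup.coe_one] at h2
  rw [h2, mul_one]

/-- The inductive step of `detect`. -/
theorem detect_step [Finite S] {p : ℕ} [Fact p.Prime] (hS : IsPGroup p S) {F : FusionSystem S}
    {T : Subgroup Ω} {E : FusionSystem T} (hEs : E.IsSaturated p) (hEF : E.IsSubsystemOf F)
    (hT : F.StronglyClosed T) (hI : AutInv E F) (hFr : Frat E F) {K : Subgroup (MulAut T)}
    (hKp : ∀ a ∈ F.autGroup T, ∀ n : ℕ, a ^ (p ^ n) ∈ K → a ∈ K)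
    {W : Subgroup Ω} (hW : E.IsCentric W) (hlt : W < T) {β : MulAut T} (hβ : β ∈ F.autGroup T)
    (hβW : Mor E W (autFun T β))
    (ih : ∀ W' : Subgroup Ω, E.IsCentric W' → Nat.card W < Nat.card W' →
      ∀ β' : MulAut T, β' ∈ F.autGroup T → Mor E W' (autFun T β') → β' ∈ K) : β ∈ K := by
  have hTS : T ≤ S := hT.1
  haveI : Finite T := finite_of_le hTS
  have hTp : IsPGroup p T := hS.to_le hTS
  have hWT : W ≤ T := hW.1
  have hb : Mor F T (autFun T β) := (mem_autGroup_iff hTS β).1 hβ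
  obtain ⟨Q, hconj, hfn⟩ := exists_fullyNormalized_conj E hWT
  obtain ⟨hfc, hfa⟩ := saturated_fullyNormalized hTp hEs hfn
  have hrec := saturated_receptive_of_fullyCentralized hTp hEs hfc
  have hQc : E.IsCentric Q := isCentric_of_isConj hW hconj
  have hQT : Q ≤ T := hQc.1
  haveI : Finite Q := finite_of_le (S := T) hQT
  have hconj₂ : E.IsConj (imgS W (autFun T β)) Q :=
    isConj_trans (isConj_symm (isConj_iff.2 ⟨autFun T β, hβW, rfl⟩)) hconj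
  obtain ⟨χ₁, hχ₁, hχ₁N, hχ₁img⟩ := exists_normalizer_map hTp hfa hrec hconj
  obtain ⟨χ₂, hχ₂, -, hχ₂img⟩ := exists_normalizer_map hTp hfa hrec hconj₂
  have hWR : W < normalizerIn T W := lt_normalizerIn hTp hlt
  have hRT : normalizerIn T W ≤ T := inf_le_left
  have hW₂T : imgS W (autFun T β) ≤ T := hβW.imgS_le
  haveI : Finite (imgS W (autFun T β)) := finite_of_le (S := T) hW₂T
  have hbR : ∀ g ∈ normalizerIn T W,
      autFun T β g ∈ normalizerIn T (imgS W (autFun T β)) := by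
    intro g hg
    refine ⟨autFun_mem β hg.1, ?_⟩
    apply Subgroup.mem_normalizer_fintype
    intro y hy
    obtain ⟨w, hw, rfl⟩ := hβW.mem_imgS.1 hy
    have h1 : autFun T β (g * w * g⁻¹) = autFun T β g * autFun T β w * (autFun T β g)⁻¹ := by
      rw [hb.map_mul (T.mul_mem hg.1 (hWT hw)) (T.inv_mem hg.1), hb.map_mul hg.1 (hWT hw),
        hb.map_inv hg.1]
    rw [← h1]
    exact hβW.mem_imgS_of_mem (conj_mem_of_mem_normalizer hg.2 hw)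
  have hW₂V : imgS W (autFun T β) ≤ normalizerIn T (imgS W (autFun T β)) :=
    Cfsg.Agent.H86.le_normalizerIn hW₂T
  -- generalize the long terms
  obtain ⟨b, hbdef⟩ : ∃ b : Ω → Ω, b = autFun T β := ⟨_, rfl⟩
  rw [← hbdef] at hb hβW hχ₂ hχ₂img hbR hW₂V
  obtain ⟨R, hRdef⟩ : ∃ R, R = normalizerIn T W := ⟨_, rfl⟩
  rw [← hRdef] at hχ₁ hχ₁N hWR hRT hbR
  obtain ⟨V, hVdef⟩ : ∃ V, V = normalizerIn T (imgS W b) := ⟨_, rfl⟩
  rw [← hVdef] at hχ₂ hbR hW₂V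
  haveI : Finite R := finite_of_le (S := T) hRT
  obtain ⟨R₂, hR₂def⟩ : ∃ R₂, R₂ = imgS R χ₁ := ⟨_, rfl⟩
  have hQR₂ : Q ≤ R₂ := by
    rw [hR₂def, ← hχ₁img]; exact hχ₁.imgS_mono hWR.le
  have hR₂T : R₂ ≤ T := by rw [hR₂def]; exact hχ₁.imgS_le
  have hR₂N : R₂ ≤ Subgroup.normalizer (Q : Set Ω) := by
    rw [hR₂def]
    intro y hy
    obtain ⟨g, hg, rfl⟩ := hχ₁.mem_imgS.1 hy
    exact (hχ₁N g hg).2
  have hcardR₂ : Nat.card R₂ = Nat.card R := by rw [hR₂def]; exact hχ₁.card_imgS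
  have hinv : Mor E R₂ (invOn R χ₁) := by rw [hR₂def]; exact hχ₁.inv
  have hinvmem : ∀ y ∈ R₂, invOn R χ₁ y ∈ R := by
    intro y hy; rw [hR₂def] at hy; exact hχ₁.invOn_mem hy
  have h1 : Mor F R₂ (b ∘ invOn R χ₁) :=
    (mor_of_subsystem hEF hinv).comp hb (fun y hy => hRT (hinvmem y hy))
  have h2 : Mor F R₂ (χ₂ ∘ (b ∘ invOn R χ₁)) :=
    h1.comp (mor_of_subsystem hEF hχ₂) (fun y hy => hbR _ (hinvmem y hy))
  obtain ⟨β₂, hβ₂def⟩ : ∃ β₂ : Ω → Ω, β₂ = χ₂ ∘ (b ∘ invOn R χ₁) := ⟨_, rfl⟩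
  rw [← hβ₂def] at h2
  have hβ₂app : ∀ y, β₂ y = χ₂ (b (invOn R χ₁ y)) := fun y => by rw [hβ₂def]; rfl
  have hβ₂T : ∀ y ∈ R₂, β₂ y ∈ T := fun y hy => by
    rw [hβ₂app]; exact hχ₂.mem (hbR _ (hinvmem y hy))
  have hinvQ : ∀ y ∈ Q, invOn R χ₁ y ∈ W := by
    intro y hy
    rw [← hχ₁img] at hy
    obtain ⟨w, hw, rfl⟩ := (hχ₁.restrict hWR.le).mem_imgS.1 hy
    rw [invOn_apply hχ₁.injOn (hWR.le hw)]
    exact hw
  have hβ₂Q : Mor E Q β₂ := by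
    have e1 : Mor E Q (b ∘ invOn R χ₁) := (hinv.restrict hQR₂).comp hβW hinvQ
    have e2 : Mor E Q (χ₂ ∘ (b ∘ invOn R χ₁)) :=
      e1.comp (hχ₂.restrict hW₂V) (fun y hy => hβW.mem_imgS_of_mem (hinvQ y hy))
    rw [hβ₂def]; exact e2
  have hβ₂QQ : ∀ y ∈ Q, β₂ y ∈ Q := by
    intro y hy
    rw [hβ₂app, ← hχ₂img]
    exact (hχ₂.restrict hW₂V).mem_imgS_of_mem (hβW.mem_imgS_of_mem (hinvQ y hy))
  have himgQ : imgS Q β₂ = Q := imgS_eq_of_maps hβ₂Q hβ₂QQ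
  have hext : ∀ g ∈ R₂, g ∈ T ∧ g ∈ Subgroup.normalizer (Q : Set Ω) ∧
      ∃ h ∈ T, ∀ x ∈ Q, β₂ (g * x * g⁻¹) = h * β₂ x * h⁻¹ := by
    intro g hg
    refine ⟨hR₂T hg, hR₂N hg, β₂ g, hβ₂T g hg, fun x hx => ?_⟩
    rw [h2.map_mul (R₂.mul_mem hg (hQR₂ hx)) (R₂.inv_mem hg), h2.map_mul hg (hQR₂ hx),
      h2.map_inv hg]
  obtain ⟨β', hβ', hβ'eq⟩ := receptive_extend hrec hβ₂Q himgQ hQR₂ hext
  obtain ⟨R₃, hR₃def⟩ : ∃ R₃, R₃ = imgS R₂ β' := ⟨_, rfl⟩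
  have hβ'Q : imgS Q β' = Q := ((hβ'.restrict hQR₂).imgS_congr hβ'eq).trans himgQ
  have hQR₃ : Q ≤ R₃ := by
    rw [hR₃def, ← hβ'Q]; exact hβ'.imgS_mono hQR₂
  have hR₃T : R₃ ≤ T := by rw [hR₃def]; exact hβ'.imgS_le
  have hR₃c : E.IsCentric R₃ := isCentric_of_le hQc hQR₃ hR₃T
  have hcardR₃ : Nat.card R₃ = Nat.card R₂ := by rw [hR₃def]; exact hβ'.card_imgS
  have hR₃N : R₃ ≤ Subgroup.normalizer (Q : Set Ω) := by
    rw [hR₃def]
    intro y hy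
    obtain ⟨g, hg, rfl⟩ := hβ'.mem_imgS.1 hy
    apply Subgroup.mem_normalizer_fintype
    intro q hq
    have hq' := hq
    rw [← hβ'Q] at hq'
    obtain ⟨x, hx, rfl⟩ := (hβ'.restrict hQR₂).mem_imgS.1 hq'
    have e1 : β' (g * x * g⁻¹) = β' g * β' x * (β' g)⁻¹ := by
      rw [hβ'.map_mul (R₂.mul_mem hg (hQR₂ hx)) (R₂.inv_mem hg), hβ'.map_mul hg (hQR₂ hx),
        hβ'.map_inv hg]
    have e2 : β' (g * x * g⁻¹) ∈ imgS Q β' :=
      (hβ'.restrict hQR₂).mem_imgS_of_mem (conj_mem_of_mem_normalizer (hR₂N hg) hx)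
    rw [hβ'Q, e1] at e2
    exact e2
  have hβ'inv : Mor E R₃ (invOn R₂ β') := by rw [hR₃def]; exact hβ'.inv
  have hβ'invmem : ∀ y ∈ R₃, invOn R₂ β' y ∈ R₂ := by
    intro y hy; rw [hR₃def] at hy; exact hβ'.invOn_mem hy
  have hθ : Mor F R₃ (β₂ ∘ invOn R₂ β') := (mor_of_subsystem hEF hβ'inv).comp h2 hβ'invmem
  obtain ⟨θ, hθdef⟩ : ∃ θ : Ω → Ω, θ = β₂ ∘ invOn R₂ β' := ⟨_, rfl⟩
  rw [← hθdef] at hθ
  have hθapp : ∀ y, θ y = β₂ (invOn R₂ β' y) := fun y => by rw [hθdef]; rfl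
  have hθT : ∀ y ∈ R₃, θ y ∈ T := fun y hy => by
    rw [hθapp]; exact hβ₂T _ (hβ'invmem y hy)
  have hθQ : ∀ y ∈ Q, θ y = y := by
    intro y hy
    have hy' := hy
    rw [← hβ'Q] at hy'
    obtain ⟨x, hx, rfl⟩ := (hβ'.restrict hQR₂).mem_imgS.1 hy'
    rw [hθapp, invOn_apply hβ'.injOn (hQR₂ hx), hβ'eq x hx]
  obtain ⟨hθmaps, hθiter⟩ := iterate_card_eq (E := E) hQR₃ hR₃T hR₃N hQc hθ hθT hθQ
  -- Frattini decomposition of `θ`
  obtain ⟨a, θ₀, ha, haT, hθ₀, hθa⟩ := hFr R₃ θ hR₃T hθ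
  have hγ : mkAut ha haT ∈ F.autGroup T := mkAut_mem ha haT
  have hAθ : AMor E (mkAut ha haT) R₃ θ :=
    ⟨θ₀, hθ₀, fun x hx => by rw [hθa x hx, autFun_mkAut ha haT (hθ₀.mem hx)]⟩
  obtain ⟨γ, hγdef⟩ : ∃ γ : MulAut T, γ = mkAut ha haT := ⟨_, rfl⟩
  rw [← hγdef] at hγ hAθ
  obtain ⟨ε, hε, hεeq⟩ := AMor.iter hTS hI hγ hR₃T hAθ hθmaps (Nat.card Q)
  have hγN : γ ^ Nat.card Q ∈ K := by
    have hW'c : E.IsCentric (imgS R₃ ε) := isCentric_of_isConj hR₃c (isConj_iff.2 ⟨ε, hε, rfl⟩)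
    have hcard : Nat.card W < Nat.card (imgS R₃ ε) := by
      rw [hε.card_imgS, hcardR₃, hcardR₂]; exact card_lt_card_of_lt hWR
    refine ih _ hW'c hcard _ (Subgroup.pow_mem _ hγ _) ?_
    refine hε.inv.congr (fun y hy => ?_)
    obtain ⟨x, hx, rfl⟩ := hε.mem_imgS.1 hy
    rw [invOn_apply hε.injOn hx, ← hεeq x hx, hθiter x hx]
  obtain ⟨j, hj⟩ := IsPGroup.iff_card.mp (hTp.to_le hQT)
  rw [hj] at hγN
  have hγK : γ ∈ K := hKp γ hγ j hγN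
  -- `β₂ = θ ∘ β'` on `R₂`
  have hAβ₂ : AMor E (γ * 1) R₂ β₂ := by
    have h := AMor.comp hTS hI (Subgroup.one_mem _) (AMor.of_mor hβ') hAθ
      (fun x hx => by rw [hR₃def]; exact hβ'.mem_imgS_of_mem hx) hR₃T
    refine h.congr (fun x hx => ?_)
    show θ (β' x) = β₂ x
    rw [hθapp, invOn_apply hβ'.injOn hx]
  -- `b` on `R`
  have hmaps4 : ∀ x ∈ R, (β₂ ∘ χ₁) x ∈ imgS V χ₂ := by
    intro x hx
    show β₂ (χ₁ x) ∈ imgS V χ₂
    rw [hβ₂app, invOn_apply hχ₁.injOn hx]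
    exact hχ₂.mem_imgS_of_mem (hbR x hx)
  have h3 := AMor.comp hTS hI (Subgroup.one_mem _) (AMor.of_mor hχ₁) hAβ₂
    (fun x hx => by rw [hR₂def]; exact hχ₁.mem_imgS_of_mem hx) hR₂T
  have h4 := AMor.comp hTS hI
    (Subgroup.mul_mem _ (Subgroup.mul_mem _ hγ (Subgroup.one_mem _)) (Subgroup.one_mem _)) h3
    (AMor.of_mor hχ₂.inv) hmaps4 hχ₂.imgS_le
  have hAb : AMor E (1 * ((γ * 1) * 1)) R b := by
    refine h4.congr (fun x hx => ?_)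
    show invOn V χ₂ (β₂ (χ₁ x)) = b x
    rw [hβ₂app, invOn_apply hχ₁.injOn hx, invOn_apply hχ₂.injOn (hbR x hx)]
  obtain ⟨ε', hε', hbε⟩ := hAb
  have hγ' : (1 * ((γ * 1) * 1) : MulAut T) = γ := by rw [one_mul, mul_one, mul_one]
  rw [hγ'] at hbε
  have hfin : γ⁻¹ * β ∈ K := by
    have hRc : E.IsCentric R := isCentric_of_le hW hWR.le hRT
    refine ih R hRc (card_lt_card_of_lt hWR) _
      (Subgroup.mul_mem _ (Subgroup.inv_mem _ hγ) hβ) ?_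
    refine hε'.congr (fun x hx => ?_)
    rw [autFun_mul _ _ (hRT hx), ← hbdef, hbε x hx, autFun_inv_apply γ (hε'.mem hx)]
  have hfinal : β = γ * (γ⁻¹ * β) := by group
  rw [hfinal]
  exact K.mul_mem hγK hfin

/-- **S5243-DETECT**: an automorphism of `T` in `F` that is a map of `E` on an `E`-centric
subgroup lies in `K`. -/
theorem detect [Finite S] {p : ℕ} [Fact p.Prime] (hS : IsPGroup p S) {F : FusionSystem S}
    {T : Subgroup Ω} {E : FusionSystem T} (hEs : E.IsSaturated p) (hEF : E.IsSubsystemOf F)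
    (hT : F.StronglyClosed T) (hI : AutInv E F) (hFr : Frat E F) {K : Subgroup (MulAut T)}
    (hKF : K ≤ F.autGroup T) (hKn : ∀ a ∈ F.autGroup T, ∀ k ∈ K, a * k * a⁻¹ ∈ K)
    (hKE : E.autGroup T ≤ K) (hKp : ∀ a ∈ F.autGroup T, ∀ n : ℕ, a ^ (p ^ n) ∈ K → a ∈ K)
    {W : Subgroup Ω} (hW : E.IsCentric W) {b : Ω → Ω} (hb : Mor F T b) (hbT : imgS T b = T)
    (hbW : Mor E W b) : ∃ k ∈ K, ∀ t ∈ T, b t = autFun T k t := by
  have hTS : T ≤ S := hT.1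
  haveI : Finite T := finite_of_le hTS
  have main : ∀ n : ℕ, ∀ W : Subgroup Ω, Nat.card T - Nat.card W = n → E.IsCentric W →
      ∀ β : MulAut T, β ∈ F.autGroup T → Mor E W (autFun T β) → β ∈ K := by
    intro n
    induction n using Nat.strong_induction_on with
    | _ n ih =>
      intro W hn hW β hβ hβW
      have hWT : W ≤ T := hW.1
      by_cases hWeq : W = T
      · apply hKE
        rw [mem_autGroup_iff le_rfl]
        rw [hWeq] at hβW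
        exact hβW
      · have hlt : W < T := lt_of_le_of_ne hWT hWeq
        refine detect_step hS hEs hEF hT hI hFr hKp hW hlt hβ hβW ?_
        intro W' hW'c hcard β' hβ' hβ'W'
        have h1 : Nat.card W' ≤ Nat.card T := Subgroup.card_le_of_le hW'c.1
        exact ih (Nat.card T - Nat.card W') (by omega) W' rfl hW'c β' hβ' hβ'W'
  have hβ := mkAut_mem hb hbT
  have hmor : Mor E W (autFun T (mkAut hb hbT)) :=
    hbW.congr (fun x hx => (autFun_mkAut hb hbT (hW.1 hx)).symm)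
  exact ⟨mkAut hb hbT, main _ W rfl hW _ hβ hmor, fun t ht => (autFun_mkAut hb hbT ht).symm⟩

end Cfsg.Agent.H89.Oliver
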