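import Cfsg.Agent.H87.RedDefs
import Cfsg.Agent.H87.RedKernel

/-!
# S5202, piece PCHAIN in conditional form (helper89 for helper87): index prime to `p` passes to
the subsystems of `p`-power index over a common subgroup, given the statement of piece PSTEP.
-/

set_option autoImplicit false

namespace Cfsg.Agent.H89.Red

open Cfsg Cfsg.FusionSystem Cfsg.Agent.H86 Cfsg.Agent.H87

universe u

variable {Ω : Type u} [Group Ω] {S T : Subgroup Ω}

/-- The statement of piece PSTEP (`primeIdx_step`), with all binders explicit. -/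
def StPStep (Ω : Type u) [Group Ω] : Prop :=
  ∀ (S : Subgroup Ω) (_ : Finite S) (p : ℕ) (_ : Fact p.Prime) (_ : IsPGroup p S)
    (X R : FusionSystem S) (_ : X.IsSaturated p) (_ : R.IsSaturated p)
    (_ : R.HasPrimeToPIndexIn X p) (M : Subgroup Ω) (_ : M ≤ S)
    (_ : X.hyperfocalSubgroup p ≤ M)
    (XM RM : FusionSystem M) (_ : XM.IsSaturated p) (_ : PPow XM X p)
    (_ : ∀ P : Subgroup Ω, P ≤ M → X.IsReceptive P → ∀ t ∈ S,
      Mor XM P (fun x => t * x * t⁻¹) → ∃ m ∈ M, ∀ x ∈ P, m * x * m⁻¹ = t * x * t⁻¹)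
    (_ : RM.IsSaturated p) (_ : PPow RM R p),
    RM.HasPrimeToPIndexIn XM p

/-- A subsystem of `p`-power index in `F` that lies in an intermediate subsystem `E` of `F` has
`p`-power index in `E`. -/
theorem hasPPowerIndexIn_mid {p : ℕ} {F : FusionSystem S} {M H : Subgroup Ω}
    {E : FusionSystem M} {D : FusionSystem H} (hHM : H ≤ M) (hMS : M ≤ S)
    (hEF : E.IsSubsystemOf F) (hDE : D.IsSubsystemOf E) (hD : D.HasPPowerIndexIn F p) :
    D.HasPPowerIndexIn E p := by
  refine ⟨hDE, (hyperfocal_mono hEF hMS).trans hD.2.1, fun P hP => ?_⟩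
  rw [Subgroup.map_le_iff_le_comap]
  unfold pResidual
  rw [Subgroup.closure_le]
  intro β hβ
  have hβ' : Nat.Coprime (orderOf β) p := hβ
  have h1 : (β : MulAut P) ∈ F.autGroup P :=
    (Cfsg.Agent.H86.mem_autGroup_iff (hP.trans (hHM.trans hMS)) _).2
      (mor_of_subsystem hEF ((Cfsg.Agent.H86.mem_autGroup_iff (hP.trans hHM) _).1 β.2))
  have h2 : (⟨β, h1⟩ : F.autGroup P) ∈ pResidual p (F.autGroup P) := by
    apply Subgroup.subset_closure
    show Nat.Coprime (orderOf (⟨β, h1⟩ : F.autGroup P)) p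
    rw [← Subgroup.orderOf_coe] at hβ' ⊢
    exact hβ'
  exact hD.2.2 P hP (Subgroup.mem_map.2 ⟨⟨β, h1⟩, h2, rfl⟩)

theorem primeIdx_pPower_aux (hstp : StPStep Ω) {p : ℕ} [Fact p.Prime] :
    ∀ (n : ℕ) (S : Subgroup Ω) [Finite S],
    Nat.card S = n → IsPGroup p S → ∀ X R : FusionSystem S, X.IsSaturated p → R.IsSaturated p →
    R.HasPrimeToPIndexIn X p → ∀ H : Subgroup Ω, H ≤ S → ∀ XH RH : FusionSystem H,
    XH.IsSaturated p → XH.HasPPowerIndexIn X p → RH.IsSaturated p → RH.HasPPowerIndexIn R p →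
    RH.HasPrimeToPIndexIn XH p := by
  intro n
  induction n using Nat.strong_induction_on with
  | _ n ih =>
    intro S _ hn hS X R hX hR hRX H hHS XH RH hXH hXHp hRH hRHp
    rcases eq_or_lt_of_le hHS with rfl | hlt
    · have hXX : X.HasPPowerIndexIn X p := (PPow.refl X p).hasPPowerIndexIn hXHp.2.1
      have hRR : R.HasPPowerIndexIn R p := (PPow.refl R p).hasPPowerIndexIn hRHp.2.1
      have e1 : XH = X := pPowerIndex_unique hS le_rfl hX hXX hXH hXHp
      have e2 : RH = R := pPowerIndex_unique hS le_rfl hR hRR hRH hRHp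
      rw [e1, e2]
      exact hRX
    · obtain ⟨M, A, instA, lam, hHM, hMS, hcard, hA, hker⟩ := exists_index_p_hom hS hlt
      have hT : X.hyperfocalSubgroup p ≤ H := hXHp.2.1
      have hlam : ∀ (V : Subgroup Ω) (f : Ω → Ω), Mor X V f → ∀ (a b : S), (b : Ω) ∈ V →
          (a : Ω) = f b → lam a = lam b := by
        intro V f hf a b hb hab
        obtain ⟨s, hs, hsx⟩ := mor_mod_hyperfocal hS hX hf
        have h1 := hT (hsx b hb)
        have h2 : (⟨s, hs⟩ * b * ⟨s, hs⟩⁻¹ : S)⁻¹ * a ∈ H.subgroupOf S := by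
          rw [Subgroup.mem_subgroupOf]
          show (s * (b : Ω) * s⁻¹)⁻¹ * (a : Ω) ∈ H
          rw [hab]
          exact h1
        have h3 : lam ((⟨s, hs⟩ * b * ⟨s, hs⟩⁻¹ : S)⁻¹ * a) = 1 :=
          (hker _).2 (hHM (Subgroup.mem_subgroupOf.1 h2))
        rw [map_mul, map_inv, map_mul, map_mul, map_inv, inv_mul_eq_one] at h3
        rw [← h3, mul_comm, inv_mul_cancel_left]
      have hlamR : ∀ (V : Subgroup Ω) (f : Ω → Ω), Mor R V f → ∀ (a b : S), (b : Ω) ∈ V →
          (a : Ω) = f b → lam a = lam b :=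
        fun V f hf => hlam V f (mor_of_subsystem hRX.1 hf)
      obtain ⟨XM, hXMsat, hXMp, hTheta⟩ :=
        exists_kernel_subsystem' hS hX hA lam hlam M hMS hker
      obtain ⟨RM, hRMsat, hRMp⟩ := exists_kernel_subsystem hS hR hA lam hlamR M hMS hker
      have hhyp : X.hyperfocalSubgroup p ≤ M := hT.trans hHM
      have hstep : RM.HasPrimeToPIndexIn XM p :=
        hstp S inferInstance p inferInstance hS X R hX hR hRX M hMS hhyp XM RM hXMsat hXMp
          hTheta hRMsat hRMp
      haveI : Finite M := finite_of_le hMS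
      haveI : Finite H := finite_of_le hHS
      have hHp : IsPGroup p H := hS.to_le hHS
      have hXHXM : XH.IsSubsystemOf XM :=
        Cfsg.Agent.H88.subsystem_of_pPowerIndex hHp XH hXH hXHp.1 hHS XM hHM
          (hXMp.hasPPowerIndexIn hhyp)
      have hRHRM : RH.IsSubsystemOf RM :=
        Cfsg.Agent.H88.subsystem_of_pPowerIndex hHp RH hRH hRHp.1 hHS RM hHM
          (hRMp.hasPPowerIndexIn (hRHp.2.1.trans hHM))
      have hXH' : XH.HasPPowerIndexIn XM p := hasPPowerIndexIn_mid hHM hMS hXMp.1 hXHXM hXHp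
      have hRH' : RH.HasPPowerIndexIn RM p := hasPPowerIndexIn_mid hHM hMS hRMp.1 hRHRM hRHp
      exact ih (Nat.card M) (hn ▸ hcard) M rfl (hS.to_le hMS) XM RM hXMsat hRMsat hstep H hHM
        XH RH hXH hXH' hRH hRH'

/-- Piece PCHAIN in conditional form (given the statement of piece PSTEP). -/
theorem primeIdx_pPower_of (hstp : StPStep Ω) [Finite S] {p : ℕ} [Fact p.Prime]
    (hS : IsPGroup p S)
    {X R : FusionSystem S} (hX : X.IsSaturated p) (hR : R.IsSaturated p)
    (hRX : R.HasPrimeToPIndexIn X p) {H : Subgroup Ω} (hHS : H ≤ S)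
    {XH RH : FusionSystem H} (hXH : XH.IsSaturated p) (hXHp : XH.HasPPowerIndexIn X p)
    (hRH : RH.IsSaturated p) (hRHp : RH.HasPPowerIndexIn R p) :
    RH.HasPrimeToPIndexIn XH p :=
  primeIdx_pPower_aux hstp (Nat.card S) S rfl hS X R hX hR hRX H hHS XH RH hXH hXHp hRH hRHp

end Cfsg.Agent.H89.Red
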