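import Cfsg.Agent.H24.Ab2
import Cfsg.Agent.S0659
import Cfsg.Agent.H40.SecF
import Cfsg.Agent.H90.GTBasic
import Cfsg.Agent.H29.ZJ

set_option autoImplicit false
open Cfsg
open scoped commutatorElement

/-!
# Groups in which a Sylow `p`-subgroup is a maximal subgroup (`p` odd)

Such a group has abelian `2`-subgroups (`ab2_of_coatom_sylow`): modulo `O_p` it has a normal
`p`-complement (Glauberman–Thompson), which is a minimal normal subgroup.
-/

namespace Cfsg.Agent.H89

open Cfsg.Agent.H24 Cfsg.Agent.H14 Cfsg.Agent.H29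

section MaxSylow

universe u

variable {M : Type u} [Group M] [Finite M] {p : ℕ} [Fact p.Prime]

omit [Finite M] in
/-- An element of a `p`-subgroup and of a `2`-subgroup is trivial, `p` odd. -/
lemma eq_one_of_mem_pGroup_of_mem_twoGroup (hp : p ≠ 2) {P Q : Subgroup M} (hP : IsPGroup p P)
    (hQ : IsPGroup 2 Q) {x : M} (hxP : x ∈ P) (hxQ : x ∈ Q) : x = 1 := by
  obtain ⟨k, hk⟩ := hP ⟨x, hxP⟩
  obtain ⟨l, hl⟩ := hQ ⟨x, hxQ⟩
  have hk' : x ^ p ^ k = 1 := by simpa using congrArg Subtype.val hk
  have hl' : x ^ 2 ^ l = 1 := by simpa using congrArg Subtype.val hl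
  have h1 : orderOf x ∣ p ^ k := orderOf_dvd_of_pow_eq_one hk'
  have h2 : orderOf x ∣ 2 ^ l := orderOf_dvd_of_pow_eq_one hl'
  have hcop : Nat.Coprime (p ^ k) (2 ^ l) :=
    Nat.Coprime.pow _ _ ((Nat.coprime_primes Fact.out Nat.prime_two).2 hp)
  have h3 : orderOf x = 1 := (Nat.Coprime.coprime_dvd_left h1 hcop).eq_one_of_dvd h2
  exact orderOf_eq_one_iff.1 h3

/-- The case `O_p(M) = 1`. -/
theorem ab2_of_coatom_sylow_core (hp : p ≠ 2) (T : Sylow p M)
    (hmax : ∀ X : Subgroup M, (T : Subgroup M) ≤ X → X = T ∨ X = ⊤)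
    (hcore : pCore p M = ⊥) : Ab2 M := by
  haveI : Fact (Nat.Prime 2) := ⟨Nat.prime_two⟩
  by_cases hT : (T : Subgroup M) = ⊥
  · intro Q _ x _ y _
    rcases hmax (Subgroup.zpowers x) (by rw [hT]; exact bot_le) with h | h
    · have hx1 : x = 1 := by
        have h1 : x ∈ Subgroup.zpowers x := Subgroup.mem_zpowers x
        rw [h, hT] at h1
        exact Subgroup.mem_bot.1 h1
      rw [hx1, one_mul, mul_one]
    · have hy : y ∈ Subgroup.zpowers x := h ▸ Subgroup.mem_top y
      obtain ⟨n, rfl⟩ := Subgroup.mem_zpowers_iff.1 hy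
      exact (Commute.zpow_right (Commute.refl x) n).eq
  · have hTp : IsPGroup p (T : Subgroup M) := T.isPGroup'
    have hWne : centerThompsonAOf (T : Subgroup M) ≠ ⊥ :=
      Cfsg.Agent.H90.centerThompsonAOf_ne_bot hTp hT
    have hTN : (T : Subgroup M) ≤
        Subgroup.normalizer (centerThompsonAOf (T : Subgroup M) : Set M) :=
      Cfsg.Agent.H90.le_normalizer_centerThompsonAOf _
    have hNT : Subgroup.normalizer (centerThompsonAOf (T : Subgroup M) : Set M) = T := by
      rcases hmax _ hTN with h | h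
      · exact h
      · exfalso
        apply hWne
        have hWn : (centerThompsonAOf (T : Subgroup M)).Normal :=
          Subgroup.normalizer_eq_top_iff.1 h
        have hWp : IsPGroup p (centerThompsonAOf (T : Subgroup M)) :=
          hTp.to_le (Cfsg.Agent.H90.centerThompsonAOf_le _)
        have h1 := le_pCore hWn hWp
        rw [hcore] at h1
        exact le_bot_iff.1 h1
    have hHp : IsPGroup p
        ↥(Subgroup.normalizer (centerThompsonAOf (T : Subgroup M) : Set M)) := by
      rw [hNT]; exact hTp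
    have hN : HasNormalPComplement p
        ↥(Subgroup.normalizer (centerThompsonAOf (T : Subgroup M) : Set M)) :=
      ⟨⟨⊤, fun g => by
          obtain ⟨k, hk⟩ := hHp g
          exact ⟨k, Subtype.ext (by simpa using hk)⟩,
        fun _ hle => top_le_iff.1 hle⟩, ⊥, inferInstance, Subgroup.isComplement'_bot_top⟩
    obtain ⟨P', N', hN'n, hN'c⟩ := Cfsg.Agent.S0659.result hp T hN
    have hidx : N'.index = Nat.card (P' : Subgroup M) := hN'c.symm.index_eq_card
    obtain ⟨a, ha⟩ := IsPGroup.iff_card.1 P'.isPGroup'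
    -- Sylow 2-subgroups lie in `N'`
    have h2N : ∀ R : Sylow 2 M, (R : Subgroup M) ≤ N' := by
      intro R x hx
      obtain ⟨l, hl⟩ := R.isPGroup' ⟨x, hx⟩
      have hl' : x ^ 2 ^ l = 1 := by simpa using congrArg Subtype.val hl
      have h1 : (QuotientGroup.mk x : M ⧸ N') ^ 2 ^ l = 1 := by
        rw [← QuotientGroup.mk_pow, hl']; rfl
      have h2 : (QuotientGroup.mk x : M ⧸ N') ^ p ^ a = 1 := by
        rw [← ha, ← hidx, Subgroup.index_eq_card]
        exact pow_card_eq_one'
      have hcop : Nat.Coprime (p ^ a) (2 ^ l) :=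
        Nat.Coprime.pow _ _ ((Nat.coprime_primes Fact.out Nat.prime_two).2 hp)
      have h3 : orderOf (QuotientGroup.mk x : M ⧸ N') = 1 :=
        (Nat.Coprime.coprime_dvd_left (orderOf_dvd_of_pow_eq_one h2) hcop).eq_one_of_dvd
          (orderOf_dvd_of_pow_eq_one h1)
      exact (QuotientGroup.eq_one_iff x).1 (orderOf_eq_one_iff.1 h3)
    -- a `T`-invariant Sylow 2-subgroup
    have hfix : ∃ R : Sylow 2 M,
        (T : Subgroup M) ≤ Subgroup.normalizer ((R : Subgroup M) : Set M) := by
      obtain ⟨R₀⟩ : Nonempty (Sylow 2 M) := inferInstance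
      have hR₀N : (R₀ : Subgroup M) ≤ N' := h2N R₀
      have hF := Sylow.normalizer_sup_eq_top (R₀.subtype hR₀N)
      have e : ((R₀.subtype hR₀N : Sylow 2 ↥N') : Subgroup ↥N').map N'.subtype =
          (R₀ : Subgroup M) := by
        rw [Sylow.coe_subtype, Subgroup.subgroupOf_map_subtype, inf_eq_left.2 hR₀N]
      rw [e] at hF
      have hidxN : ¬ p ∣ (Subgroup.normalizer ((R₀ : Subgroup M) : Set M)).index := by
        have h1 : N'.relIndex (Subgroup.normalizer ((R₀ : Subgroup M) : Set M) ⊔ N') =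
            N'.relIndex (Subgroup.normalizer ((R₀ : Subgroup M) : Set M)) :=
          Subgroup.relIndex_sup_right _ _
        rw [hF, Subgroup.relIndex_top_right, hidx, ha] at h1
        have h2 : p ^ a ∣ Nat.card (Subgroup.normalizer ((R₀ : Subgroup M) : Set M)) :=
          h1 ▸ Subgroup.relIndex_dvd_card _ _
        intro hdvd
        have h3 : p ^ a * p ∣ Nat.card M := by
          rw [← Subgroup.card_mul_index (Subgroup.normalizer ((R₀ : Subgroup M) : Set M))]
          exact Nat.mul_dvd_mul h2 hdvd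
        have h4 : Nat.card M = p ^ a * (P' : Subgroup M).index := by
          rw [← ha, Subgroup.card_mul_index]
        rw [h4] at h3
        exact P'.not_dvd_index
          (Nat.dvd_of_mul_dvd_mul_left (pow_pos (Fact.out : p.Prime).pos a) h3)
      have hcard : ¬ p ∣ Nat.card (Sylow 2 M) := by
        rw [Sylow.card_eq_index_normalizer R₀]; exact hidxN
      obtain ⟨R, hR⟩ := hTp.nonempty_fixed_point_of_prime_not_dvd_card (Sylow 2 M) hcard
      refine ⟨R, fun t ht => ?_⟩
      have h5 : (⟨t, ht⟩ : (T : Subgroup M)) • R = R := hR ⟨t, ht⟩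
      exact Sylow.smul_eq_iff_mem_normalizer.1 h5
    obtain ⟨R, hTR⟩ := hfix
    by_cases hR0 : (R : Subgroup M) = ⊥
    · apply Ab2.of_sylow R
      refine ⟨⟨fun a b => Subtype.ext ?_⟩⟩
      have hle : (R : Subgroup M) ≤ ⊥ := hR0.le
      have ha' : (a : M) = 1 := Subgroup.mem_bot.1 (hle a.2)
      have hb' : (b : M) = 1 := Subgroup.mem_bot.1 (hle b.2)
      show (a : M) * b = b * a
      rw [ha', hb']
    · have hRT : ¬ (R : Subgroup M) ≤ T := by
        intro hle
        apply hR0
        rw [eq_bot_iff]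
        intro x hx
        exact Subgroup.mem_bot.2
          (eq_one_of_mem_pGroup_of_mem_twoGroup hp hTp R.isPGroup' (hle hx) hx)
      have hsup : (T : Subgroup M) ⊔ R = ⊤ := by
        rcases hmax _ le_sup_left with h | h
        · exact absurd (h ▸ le_sup_right) hRT
        · exact h
      have hRn : (R : Subgroup M).Normal := by
        rw [← Subgroup.normalizer_eq_top_iff, eq_top_iff, ← hsup]
        exact sup_le hTR Subgroup.le_normalizer
      have hDn : (⁅(R : Subgroup M), (R : Subgroup M)⁆).Normal :=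
        Subgroup.commutator_normal _ _
      have hDR : ⁅(R : Subgroup M), (R : Subgroup M)⁆ ≤ R := Subgroup.commutator_le_right _ _
      have hDlt : ⁅(R : Subgroup M), (R : Subgroup M)⁆ < R := by
        refine lt_of_le_of_ne hDR (fun e => hR0 ?_)
        exact eq_bot_of_le_commutator_of_isNilpotent _ _ R.isPGroup'.isNilpotent le_rfl e.ge
      rcases hmax ((T : Subgroup M) ⊔ ⁅(R : Subgroup M), (R : Subgroup M)⁆) le_sup_left
        with h | h
      · have hDT : ⁅(R : Subgroup M), (R : Subgroup M)⁆ ≤ T := h ▸ le_sup_right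
        have hD0 : ⁅(R : Subgroup M), (R : Subgroup M)⁆ = ⊥ := by
          rw [eq_bot_iff]
          intro x hx
          exact Subgroup.mem_bot.2
            (eq_one_of_mem_pGroup_of_mem_twoGroup hp hTp R.isPGroup' (hDT hx) (hDR hx))
        apply Ab2.of_sylow R
        refine ⟨⟨fun a b => Subtype.ext ?_⟩⟩
        show (a : M) * b = b * a
        have h1 : ⁅(a : M), (b : M)⁆ ∈ ⁅(R : Subgroup M), (R : Subgroup M)⁆ :=
          Subgroup.commutator_mem_commutator a.2 b.2
        rw [hD0, Subgroup.mem_bot] at h1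
        exact commutatorElement_eq_one_iff_mul_comm.1 h1
      · exfalso
        have h1 : (⁅(R : Subgroup M), (R : Subgroup M)⁆).relIndex
            ((T : Subgroup M) ⊔ ⁅(R : Subgroup M), (R : Subgroup M)⁆) =
            (⁅(R : Subgroup M), (R : Subgroup M)⁆).relIndex T := Subgroup.relIndex_sup_right _ _
        rw [h, Subgroup.relIndex_top_right] at h1
        have h2 : (⁅(R : Subgroup M), (R : Subgroup M)⁆).index ∣ Nat.card (T : Subgroup M) :=
          h1 ▸ Subgroup.relIndex_dvd_card _ _
        have h3 : 2 ∣ (⁅(R : Subgroup M), (R : Subgroup M)⁆).index := by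
          rw [← Subgroup.relIndex_mul_index hDR]
          apply dvd_mul_of_dvd_left
          have h4 : (⁅(R : Subgroup M), (R : Subgroup M)⁆).relIndex R ∣
              Nat.card (R : Subgroup M) := Subgroup.relIndex_dvd_card _ _
          obtain ⟨c, hc⟩ := IsPGroup.iff_card.1 R.isPGroup'
          rw [hc] at h4
          obtain ⟨i, -, hi⟩ := (Nat.dvd_prime_pow Nat.prime_two).1 h4
          rcases Nat.eq_zero_or_pos i with h0 | hpos
          · exfalso
            rw [h0, pow_zero] at hi
            exact hDlt.not_ge (Subgroup.relIndex_eq_one.1 hi)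
          · rw [hi]; exact dvd_pow_self 2 hpos.ne'
        obtain ⟨b, hb⟩ := IsPGroup.iff_card.1 hTp
        rw [hb] at h2
        have h5 : 2 ∣ p ^ b := h3.trans h2
        have h6 : 2 ∣ p := Nat.Prime.dvd_of_dvd_pow Nat.prime_two h5
        exact hp ((Nat.prime_dvd_prime_iff_eq Nat.prime_two Fact.out).1 h6).symm

/-- If a Sylow `p`-subgroup of `M` is a maximal subgroup (or all of `M`) and `p` is odd, then the
`2`-subgroups of `M` are abelian. -/
theorem ab2_of_coatom_sylow (hp : p ≠ 2) (T : Sylow p M)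
    (hmax : ∀ X : Subgroup M, (T : Subgroup M) ≤ X → X = T ∨ X = ⊤) : Ab2 M := by
  haveI : Fact (Nat.Prime 2) := ⟨Nat.prime_two⟩
  have hQp : IsPGroup p (pCore p M) := Cfsg.Agent.H14.pCore_isPGroup p M
  have hπ : Function.Surjective (QuotientGroup.mk' (pCore p M)) := QuotientGroup.mk'_surjective _
  have hbar : Ab2 (M ⧸ pCore p M) := by
    apply ab2_of_coatom_sylow_core hp (T.mapSurjective hπ)
    · intro X hX
      have h1 : (T : Subgroup M) ≤ X.comap (QuotientGroup.mk' (pCore p M)) := by
        intro t ht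
        exact hX ⟨t, ht, rfl⟩
      rcases hmax _ h1 with h | h
      · left
        rw [← Subgroup.map_comap_eq_self_of_surjective hπ X, h]
        rfl
      · right
        rw [← Subgroup.map_comap_eq_self_of_surjective hπ X, h,
          Subgroup.map_top_of_surjective _ hπ]
    · exact Cfsg.Agent.H40.Sec.pCore_quotient_pCore_eq_bot
  obtain ⟨R⟩ : Nonempty (Sylow 2 M) := inferInstance
  apply Ab2.of_sylow R
  refine ⟨⟨fun a b => Subtype.ext ?_⟩⟩
  show (a : M) * b = b * a
  have h1 := hbar ((R : Subgroup M).map (QuotientGroup.mk' (pCore p M))) (R.isPGroup'.map _)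
    _ ⟨a, a.2, rfl⟩ _ ⟨b, b.2, rfl⟩
  have h2 : ⁅(a : M), (b : M)⁆ ∈ pCore p M := by
    rw [← QuotientGroup.eq_one_iff]
    show (QuotientGroup.mk' (pCore p M)) ⁅(a : M), (b : M)⁆ = 1
    rw [map_commutatorElement, commutatorElement_eq_one_iff_mul_comm]
    exact h1
  have h3 : ⁅(a : M), (b : M)⁆ ∈ (R : Subgroup M) := by
    rw [commutatorElement_def]
    exact mul_mem (mul_mem (mul_mem a.2 b.2) (inv_mem a.2)) (inv_mem b.2)
  exact commutatorElement_eq_one_iff_mul_comm.1
    (eq_one_of_mem_pGroup_of_mem_twoGroup hp hQp R.isPGroup' h2 h3)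

end MaxSylow

end Cfsg.Agent.H89
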