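import Cfsg.Agent.H89.ZJAx
import Cfsg.Agent.H89.MaxSylow
import Cfsg.Agent.H58.QStab

set_option autoImplicit false
open Cfsg
open scoped commutatorElement

/-!
# The group-theoretic step of the axiomatic Glauberman–Thompson criterion

`S` embedded by `j` as a Sylow `p`-subgroup of `L` (`p` odd), a normal `p`-subgroup of `L` containing
its centralizer, and a family `𝒜` of abelian subgroups of `S` with replacement and invariance.  If
every element of `L` normalizing the image of the intersection of `𝒜` is a `p`-element, then `L` is a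
`p`-group.  Proof: a subgroup `H` minimal over the Sylow subgroup has abelian `2`-subgroups, hence is
`p`-stable, so the axiomatic ZJ-theorem applies to it.
-/

namespace Cfsg.Agent.H89

open Cfsg.Agent.H14 Cfsg.Agent.H29 Cfsg.Agent.H24

section AxGroup

universe u

variable {S L : Type u} [Group S] [Group L]

theorem all_pElements_of_ax [Finite L] {p : ℕ} [Fact p.Prime] (hp : p ≠ 2)
    (j : S →* L) (hj : Function.Injective j) (T : Sylow p L) (hT : (T : Subgroup L) = j.range)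
    (Q : Subgroup S) (hQn : (Q.map j).Normal)
    (hQc : Subgroup.centralizer ((Q.map j : Subgroup L) : Set L) ≤ Q.map j)
    {𝒜 : Set (Subgroup S)} (h𝒜 : AxFam 𝒜) (hinv : InvIn j 𝒜)
    (hN : ∀ g : L, (∀ z ∈ famInf 𝒜 ⊤, ∃ z' ∈ famInf 𝒜 ⊤, j z' = g * j z * g⁻¹) →
      ∃ k : ℕ, g ^ p ^ k = 1) :
    ∀ g : L, ∃ k : ℕ, g ^ p ^ k = 1 := by
  by_contra hcon
  push Not at hcon
  obtain ⟨g₀, hg₀⟩ := hcon
  have hTtop : (⊤ : Subgroup L) ≠ T := by
    intro h
    have hg : g₀ ∈ (T : Subgroup L) := h ▸ Subgroup.mem_top g₀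
    obtain ⟨k, hk⟩ := T.isPGroup' ⟨g₀, hg⟩
    exact hg₀ k (by simpa using congrArg Subtype.val hk)
  haveI : Nonempty {H : Subgroup L // (T : Subgroup L) ≤ H ∧ H ≠ T} := ⟨⟨⊤, le_top, hTtop⟩⟩
  obtain ⟨⟨H, hTH, hHne⟩, hmin⟩ := Finite.exists_min
    (fun H : {H : Subgroup L // (T : Subgroup L) ≤ H ∧ H ≠ T} => Nat.card (H : Subgroup L))
  apply hHne
  refine T.is_maximal' ?_ hTH
  -- the embedding into `H`
  have hjH' : ∀ s : S, j s ∈ H := fun s => hTH (hT ▸ ⟨s, rfl⟩)
  obtain ⟨jH, hjHdef⟩ : ∃ jH : S →* ↥H, ∀ s, (jH s : L) = j s :=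
    ⟨j.codRestrict H hjH', fun _ => rfl⟩
  have hjHinj : Function.Injective jH := by
    intro a b hab
    apply hj
    rw [← hjHdef a, ← hjHdef b, hab]
  have hTHr : ((T.subtype hTH : Sylow p ↥H) : Subgroup ↥H) = jH.range := by
    ext x
    rw [Sylow.coe_subtype, Subgroup.mem_subgroupOf, hT]
    constructor
    · rintro ⟨s, hs⟩
      exact ⟨s, Subtype.ext ((hjHdef s).trans hs)⟩
    · rintro ⟨s, rfl⟩
      exact ⟨s, (hjHdef s).symm⟩
  have hmaxH : ∀ X : Subgroup ↥H, ((T.subtype hTH : Sylow p ↥H) : Subgroup ↥H) ≤ X →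
      X = (T.subtype hTH : Sylow p ↥H) ∨ X = ⊤ := by
    intro X hX
    have hXmem : ∀ x : ↥H, x ∈ X ↔ (x : L) ∈ X.map H.subtype := by
      intro x
      constructor
      · intro hx
        exact ⟨x, hx, rfl⟩
      · rintro ⟨y, hy, hyx⟩
        have : y = x := Subtype.ext hyx
        rw [← this]
        exact hy
    have hTX : (T : Subgroup L) ≤ X.map H.subtype := by
      intro t ht
      have h1 : (⟨t, hTH ht⟩ : ↥H) ∈ ((T.subtype hTH : Sylow p ↥H) : Subgroup ↥H) := by
        rw [Sylow.coe_subtype, Subgroup.mem_subgroupOf]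
        exact ht
      exact ⟨⟨t, hTH ht⟩, hX h1, rfl⟩
    have hXH : X.map H.subtype ≤ H := Subgroup.map_subtype_le X
    by_cases hXT : X.map H.subtype = T
    · left
      ext x
      rw [hXmem x, hXT, Sylow.coe_subtype, Subgroup.mem_subgroupOf]
    · right
      have h1 := hmin ⟨X.map H.subtype, hTX, hXT⟩
      have h2 : X.map H.subtype = H := Subgroup.eq_of_le_of_card_ge hXH h1
      rw [eq_top_iff]
      intro x _
      rw [hXmem x, h2]
      exact x.2
  have hab2 : Ab2 ↥H := ab2_of_coatom_sylow hp (T.subtype hTH) hmaxH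
  have hst : QStab p ↥H := Cfsg.Agent.H58.qstab_of_ab2 hp hab2
  -- the normal `p`-subgroup containing its centralizer
  have hQHn : (Q.map jH).Normal := by
    constructor
    rintro _ ⟨q, hq, rfl⟩ g
    obtain ⟨q', hq', hqq⟩ := hQn.conj_mem (j q) ⟨q, hq, rfl⟩ (g : L)
    refine ⟨q', hq', Subtype.ext ?_⟩
    rw [hjHdef q', hqq]
    simp [hjHdef q]
  have hQHp : IsPGroup p (Q.map jH) := by
    refine (T.subtype hTH).isPGroup'.to_le ?_
    rw [hTHr]
    rintro _ ⟨q, -, rfl⟩
    exact ⟨q, rfl⟩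
  have hQHc : Subgroup.centralizer ((Q.map jH : Subgroup ↥H) : Set ↥H) ≤ Q.map jH := by
    intro x hx
    have h1 : (x : L) ∈ Subgroup.centralizer ((Q.map j : Subgroup L) : Set L) := by
      rw [Subgroup.mem_centralizer_iff]
      rintro _ ⟨q, hq, rfl⟩
      have h2 := Subgroup.mem_centralizer_iff.mp hx (jH q) ⟨q, hq, rfl⟩
      have h3 := congrArg Subtype.val h2
      simpa [hjHdef q] using h3
    obtain ⟨q', hq', hqq⟩ := hQc h1
    exact ⟨q', hq', Subtype.ext ((hjHdef q').trans hqq)⟩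
  have hcH : Subgroup.centralizer (Cfsg.pCore p ↥H : Set ↥H) ≤ Cfsg.pCore p ↥H := by
    have h1 : Q.map jH ≤ Cfsg.pCore p ↥H := le_pCore hQHn hQHp
    exact (Subgroup.centralizer_le h1).trans (hQHc.trans h1)
  have hinvH : InvIn jH 𝒜 := by
    intro R hR g hg z hz
    obtain ⟨z', hz', h⟩ := hinv R hR (g : L) (fun x hx => by
      obtain ⟨y, hy, e⟩ := hg x hx
      refine ⟨y, hy, ?_⟩
      have e' := congrArg Subtype.val e
      simpa [hjHdef] using e') z hz
    refine ⟨z', hz', Subtype.ext ?_⟩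
    rw [hjHdef z', h]
    simp [hjHdef z]
  have hZn := zjax_normal jH hjHinj (T.subtype hTH) hTHr hst hcH h𝒜 hinvH
  -- every element of `H` is a `p`-element
  rintro ⟨h, hh⟩
  obtain ⟨k, hk⟩ := hN h (fun z hz => by
    obtain ⟨z', hz', e⟩ := hZn.conj_mem (jH z) ⟨z, hz, rfl⟩ ⟨h, hh⟩
    refine ⟨z', hz', ?_⟩
    have e' := congrArg Subtype.val e
    simpa [hjHdef] using e')
  exact ⟨k, Subtype.ext (by simpa using hk)⟩

end AxGroup

end Cfsg.Agent.H89
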