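import Mathlib
import Cfsg.Agent.H74.BTDefs
import Cfsg.Agent.H21.BRSplit
import Cfsg.Agent.H40.BRTBG2
import Cfsg.Agent.H81.Counting
import Cfsg.Agent.H81.Reg

/-!
# S0997-B1ORD (helper89 for helper74): the order formula in case B1

`p (p - 2) |C(τ₀)|² = |G| (p - 1)`: count the pairs `(a, b)` with
`a τ₀ a⁻¹ · b τ₀⁻¹ b⁻¹ = x` (`x ∈ P ∖ 1`) group-theoretically (`p |C(τ₀)|²`) and by characters.
-/

set_option autoImplicit false

namespace Cfsg.Agent.H89.BT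

open Cfsg Cfsg.Agent.H21.BR Cfsg.Agent.H74.BT
open scoped ComplexConjugate

universe u

theorem b1Ord : StB1Ord.{u} := by
  intro G _ _ p _ P hP hC X Y δ h hdegY hcolY τ₀ hτ hinv hX hY
  classical
  have : Fintype G := Fintype.ofFinite G
  have hp : p.Prime := Fact.out
  have hp3 : 3 ≤ p := by
    have h1 := h.cardY
    have h2 := hp.two_le
    omega
  have hp2 : p ≠ 2 := by omega
  -- a nontrivial element of `P`
  obtain ⟨x, hx, hx1⟩ : ∃ x ∈ (P : Subgroup G), x ≠ 1 := by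
    have hne : (P : Subgroup G) ≠ ⊥ := by
      intro hbot
      rw [hbot, Subgroup.card_bot] at hP
      omega
    obtain ⟨a, ha⟩ := (Subgroup.ne_bot_iff_exists_ne_one).mp hne
    exact ⟨a.1, a.2, fun h1 => ha (Subtype.ext h1)⟩
  have hτinv : τ₀⁻¹ = τ₀ := by
    have h2 : τ₀ ^ 2 = 1 := by rw [← hτ]; exact pow_orderOf_eq_one τ₀
    rw [inv_eq_iff_mul_eq_one, ← sq]; exact h2
  have hxinv : x⁻¹ ∈ (P : Subgroup G) := inv_mem hx
  have hxinv1 : x⁻¹ ≠ 1 := by simpa using hx1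
  have hcount := Cfsg.Agent.H40.BRG2.card_pairs_eq p hp2 P hP hC τ₀ hτ hinv x hx hx1
  obtain ⟨Z, hZ⟩ := exists_out X Y
  have h1 := Cfsg.Agent.H81.card_conj_pairs (Cfsg.Agent.H81.regIdentity G) τ₀ x
  have h2 : (Finset.univ.filter (fun ab : G × G =>
      ab.1 * τ₀ * ab.1⁻¹ * (ab.2 * τ₀⁻¹ * ab.2⁻¹) = x)).card
        = p * Nat.card (Subgroup.centralizer ({τ₀} : Set G)) ^ 2 := by
    rw [← hcount, Nat.card_eq_fintype_card, Fintype.card_subtype]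
  rw [h2, sum_split h Z hZ] at h1
  have e1 : ((one G : G → ℂ) τ₀ * (one G : G → ℂ) τ₀⁻¹ * (one G : G → ℂ) x⁻¹ /
      (one G : G → ℂ) 1) = 1 := by
    simp [Cfsg.Agent.H21.E2Block.triv_apply]
  have e2 : ∑ χ ∈ plusSet X δ, ((χ : G → ℂ) τ₀ * (χ : G → ℂ) τ₀⁻¹ * (χ : G → ℂ) x⁻¹ /
      (χ : G → ℂ) 1) = 0 := by
    apply Finset.sum_eq_zero
    intro χ hχ
    have hχX := mem_plusSet.1 hχ
    rw [hX χ hχX.1 hχX.2.1]
    simp
  have e3 : ∑ χ ∈ minusSet X δ, ((χ : G → ℂ) τ₀ * (χ : G → ℂ) τ₀⁻¹ * (χ : G → ℂ) x⁻¹ /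
      (χ : G → ℂ) 1) = 0 := by
    apply Finset.sum_eq_zero
    intro χ hχ
    have hχX := mem_minusSet.1 hχ
    have hne : χ ≠ one G := by
      intro h0
      have h3 := hχX.2
      rw [h0, h.δ_one] at h3
      norm_num at h3
    rw [hX χ hχX.1 hne]
    simp
  have hp2C : ((p : ℂ) - 2) ≠ 0 := by
    have h3 : ((p - 2 : ℕ) : ℂ) ≠ 0 := by exact_mod_cast (by omega : p - 2 ≠ 0)
    rw [Nat.cast_sub (by omega)] at h3
    exact_mod_cast h3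
  have e4 : ∑ θ ∈ Y, ((θ : G → ℂ) τ₀ * (θ : G → ℂ) τ₀⁻¹ * (θ : G → ℂ) x⁻¹ /
      (θ : G → ℂ) 1) = 1 / ((p : ℂ) - 2) := by
    have h3 : ∀ θ ∈ Y, ((θ : G → ℂ) τ₀ * (θ : G → ℂ) τ₀⁻¹ * (θ : G → ℂ) x⁻¹ /
        (θ : G → ℂ) 1) = 1 / ((p : ℂ) - 2) * (θ : G → ℂ) x⁻¹ := by
      intro θ hθ
      rw [hτinv, hY θ hθ, (Cfsg.Agent.H81.irr_charDegree θ).1, hdegY θ hθ,
        Nat.cast_sub (by omega : 2 ≤ p)]
      push_cast
      ring
    rw [Finset.sum_congr rfl h3, ← Finset.mul_sum, hcolY x⁻¹ hxinv hxinv1, mul_one]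
  have e5 : ∑ ψ ∈ Z, ((ψ : G → ℂ) τ₀ * (ψ : G → ℂ) τ₀⁻¹ * (ψ : G → ℂ) x⁻¹ /
      (ψ : G → ℂ) 1) = 0 := by
    apply Finset.sum_eq_zero
    intro ψ hψ
    rw [h.out_van ψ ((hZ ψ).1 hψ).1 ((hZ ψ).1 hψ).2 x⁻¹ hxinv hxinv1]
    simp
  rw [e1, e2, e3, e4, e5] at h1
  have h4 : ((p * (p - 2) * Nat.card (Subgroup.centralizer ({τ₀} : Set G)) ^ 2 : ℕ) : ℂ)
      = ((Nat.card G * (p - 1) : ℕ) : ℂ) := by
    push_cast [Nat.cast_sub (by omega : 2 ≤ p), Nat.cast_sub (by omega : 1 ≤ p)]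
    push_cast at h1
    have h5 : (p : ℂ) * ((p : ℂ) - 2) *
        (Nat.card (Subgroup.centralizer ({τ₀} : Set G)) : ℂ) ^ 2
        = ((p : ℂ) - 2) *
          ((p : ℂ) * (Nat.card (Subgroup.centralizer ({τ₀} : Set G)) : ℂ) ^ 2) := by ring
    rw [h5, h1]
    field_simp
    ring
  exact_mod_cast h4

example : StB1Ord.{u} := b1Ord

end Cfsg.Agent.H89.BT
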