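import Mathlib
import Cfsg.Agent.H74.BTDefs
import Cfsg.Agent.H79.CharBasic
import Cfsg.Agent.H79.GaloisAct
import Cfsg.Agent.H81.Lambda

/-!
# S0997-B2INT (helper89 for helper74): the exceptional characters are integral on `p`-regular
elements

For `k` coprime to `|G|` the Galois conjugate `θ₁ ∘ (· ^ k)` has degree `e + 1`, so lies in
`X ∪ Y`; it is not in `X` (values `±1` on `P ∖ 1` are impossible for `θ₁`), so it is in `Y` and
agrees with `θ₁` on `p`-regular elements.  Hence `θ₁ g` is fixed by the Galois group.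
-/

set_option autoImplicit false

namespace Cfsg.Agent.H89.BT

open Cfsg Cfsg.Agent.H21.BR Cfsg.Agent.H74.BT Polynomial
open scoped ComplexConjugate

universe u

theorem b2Int : StB2Int.{u} := by
  intro G _ _ p e _ P X Y δ θ₁ θ₂ hb g hg
  classical
  haveI : Fintype G := Fintype.ofFinite G
  have hp : p.Prime := Fact.out
  have he := hb.he
  have he1 : 1 ≤ e := by
    have := hp.two_le
    omega
  have hpe : p = 2 * e + 1 := by
    have := hp.two_le
    omega
  have hθ₁Y : θ₁ ∈ Y := (hb.hY θ₁).mpr (Or.inl rfl)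
  -- a nontrivial element of `P`
  obtain ⟨x, hx, hx1⟩ : ∃ x ∈ P, x ≠ 1 := by
    have hne : P ≠ ⊥ := by
      intro hbot
      have hP := hb.cardP
      rw [hbot, Subgroup.card_bot] at hP
      have := hp.two_le
      omega
    obtain ⟨a, ha⟩ := (Subgroup.ne_bot_iff_exists_ne_one).mp hne
    exact ⟨a.1, a.2, fun h1 => ha (Subtype.ext h1)⟩
  -- Galois invariance on `p`-regular elements
  have hgal : ∀ k : ℕ, k.Coprime (Nat.card G) → (θ₁ : G → ℂ) (g ^ k) = (θ₁ : G → ℂ) g := by
    intro k hk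
    obtain ⟨η, hη⟩ : ∃ η : IrrCharacter G, η = Cfsg.Agent.H79.irrPow k hk θ₁ := ⟨_, rfl⟩
    have hηapp : ∀ y : G, (η : G → ℂ) y = (θ₁ : G → ℂ) (y ^ k) := by
      intro y
      rw [hη]
      exact Cfsg.Agent.H79.irrPow_apply k hk θ₁ y
    have hηdeg : charDegree (η : G → ℂ) = e + 1 := by
      rw [hη, Cfsg.Agent.H79.charDegree_irrPow k hk θ₁, hb.deg₁]
    have hηnX : η ∉ X := by
      intro hηX
      have hval := hb.b0.val_X η hηX x hx hx1
      rw [hηapp] at hval
      have hxk : x ^ k ∈ P := pow_mem hx k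
      have hxk1 : x ^ k ≠ 1 := by
        intro h1
        have hd1 : orderOf x ∣ k := orderOf_dvd_of_pow_eq_one h1
        have hd2 : orderOf x ∣ Nat.card G := orderOf_dvd_natCard x
        have hd3 : orderOf x ∣ 1 := by
          have := Nat.dvd_gcd hd1 hd2
          rwa [Nat.Coprime.gcd_eq_one hk] at this
        exact hx1 (orderOf_eq_one_iff.mp (Nat.dvd_one.mp hd3))
      have hs := hb.hsum (x ^ k) hxk hxk1
      have hpr := hb.hprod (x ^ k) hxk hxk1
      rcases hb.b0.δ_pm η hηX with hδ | hδ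
      · rw [hδ] at hval
        push_cast at hval
        have h2 : (θ₂ : G → ℂ) (x ^ k) = 0 := by linear_combination hs - hval
        rw [hval, h2] at hpr
        have h3 : (e : ℂ) = 0 := by linear_combination hpr
        have h4 : e = 0 := by exact_mod_cast h3
        omega
      · rw [hδ] at hval
        push_cast at hval
        have h2 : (θ₂ : G → ℂ) (x ^ k) = 2 := by linear_combination hs - hval
        rw [hval, h2] at hpr
        have h3 : (e : ℂ) = 4 := by linear_combination hpr
        have h4 : e = 4 := by exact_mod_cast h3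
        have h5 : p = 9 := by omega
        rw [h5] at hp
        norm_num at hp
    have hηY : η ∈ Y := by
      by_contra hηnY
      have hdvd := hb.b0.out_dvd η hηnX hηnY
      rw [hηdeg] at hdvd
      have := Nat.le_of_dvd (by omega) hdvd
      omega
    have hag := hb.b0.agree_Y η hηY θ₁ hθ₁Y g hg
    rw [hηapp] at hag
    exact hag
  -- rationality
  have hn : 0 < Fintype.card G := Fintype.card_pos
  have hcard : Nat.card G = Fintype.card G := Nat.card_eq_fintype_card
  obtain ⟨ζ, hζdef⟩ : ∃ ζ : ℂ, ζ = Cfsg.Agent.H79.stdRoot (Fintype.card G) := ⟨_, rfl⟩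
  have hζ : IsPrimitiveRoot ζ (Fintype.card G) := by
    rw [hζdef]
    exact Cfsg.Agent.H79.stdRoot_spec hn
  obtain ⟨f, hf⟩ : ∃ f : ℤ[X], ∀ k : ℕ, (θ₁ : G → ℂ) (g ^ k) = aeval (ζ ^ k) f := by
    obtain ⟨m, ρ, -, hχ⟩ := θ₁.2
    obtain ⟨f, -, -, hf⟩ := Cfsg.Agent.H79.exists_poly_char ρ g
    refine ⟨f, fun k => ?_⟩
    rw [← hχ, hζdef]
    exact hf k
  have hinv : ∀ i : ℕ, i.Coprime (Fintype.card G) → aeval (ζ ^ i) f = aeval ζ f := by
    intro i hi
    have hi' : i.Coprime (Nat.card G) := by rw [hcard]; exact hi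
    have h1 := hf 1
    rw [pow_one, pow_one] at h1
    rw [← hf i, ← h1]
    exact hgal i hi'
  obtain ⟨z, hz⟩ := Cfsg.Agent.H81.exists_int_of_aeval_pow_invariant hn hζ f hinv
  refine ⟨z, ?_⟩
  have h1 := hf 1
  rw [pow_one, pow_one] at h1
  rw [h1, hz]

example : StB2Int.{u} := b2Int

end Cfsg.Agent.H89.BT
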