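import Mathlib
import Cfsg.Agent.H59.FRDefs

/-!
S4563-INDRES piece (team project S4563 + S4564 of helper59): if the fully ramified `χ` is induced
from a character `φ` of `K ⊵ Z`, then `φ_Z = f θ` and `e = |H : K| f`.
-/

set_option autoImplicit false

namespace Cfsg.Agent.H89.FR

open Cfsg Cfsg.Agent.Clifford Cfsg.Agent.H59.FR Cfsg.Agent.H4
open scoped ComplexConjugate

universe u

theorem indres : IndResStmt.{u} := by
  intro H _ _ Z hZn χ θ e he hres K _ hZK φ hφ hind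
  classical
  haveI : Fintype ↥Z := Fintype.ofFinite _
  letI := fintypeIrr ↥Z
  obtain ⟨ψ, hψdef⟩ : ∃ ψ : ↥Z → ℂ, ψ = fun z => φ (Subgroup.inclusion hZK z) := ⟨_, rfl⟩
  have hψ : IsCharacter ↥Z ψ := by
    rw [hψdef]
    exact isCharacter_comp (Subgroup.inclusion hZK) hφ
  have hKne : (Nat.card ↥K : ℂ) ≠ 0 := by
    exact_mod_cast Nat.card_pos.ne'
  -- restriction of the induced function to `Z`
  have hstar : ∀ z : ↥Z, (χ : H → ℂ) z = (Nat.card ↥K : ℂ)⁻¹ * ∑ x : H, conjChar Z ψ x z := by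
    intro z
    rw [← hind, indFun_apply]
    congr 1
    rw [← Equiv.sum_comp (Equiv.inv H) (fun x => conjChar Z ψ x z)]
    refine Finset.sum_congr rfl fun x _ => ?_
    have hx : x⁻¹ * (z : H) * x ∈ Z := by
      have := hZn.conj_mem z z.2 x⁻¹
      simpa using this
    rw [extendByZero_of_mem K φ (hZK hx)]
    simp only [conjChar, Equiv.inv_apply, hψdef]
    congr 1
    apply Subtype.ext
    simp
  have hfun : (fun z : ↥Z => (χ : H → ℂ) z) = (Nat.card ↥K : ℂ)⁻¹ • ∑ x : H, conjChar Z ψ x := by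
    funext z
    rw [hstar]
    simp [Finset.sum_apply]
  have hfun2 : (fun z : ↥Z => (χ : H → ℂ) z) = (e : ℂ) • (θ : ↥Z → ℂ) := by
    funext z
    rw [hres]
    rfl
  -- no other constituent
  have hzero : ∀ ϑ : IrrCharacter ↥Z, ϑ ≠ θ → classInner ψ ϑ.1 = 0 := by
    intro ϑ hne
    have h1 : classInner ((e : ℂ) • (θ : ↥Z → ℂ)) ϑ.1 = 0 := by
      rw [classInner_smul_left, irr_inner_ne (Ne.symm hne), mul_zero]
    rw [← hfun2, hfun, classInner_smul_left, classInner_sum_left] at h1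
    have h2 : ∀ x : H, ∃ n : ℕ, classInner (conjChar Z ψ x) ϑ.1 = n := fun x =>
      classInner_isCharacter_nat (isCharacter_conjChar Z hψ x) (isCharacter_of_isIrrCharacter ϑ.2)
    choose n hn using h2
    have h3 : ∑ x : H, classInner (conjChar Z ψ x) ϑ.1 = 0 := by
      rcases mul_eq_zero.mp h1 with h | h
      · exact absurd (inv_eq_zero.mp h) hKne
      · exact h
    have h4 : ∑ x : H, n x = 0 := by
      have h5 : ((∑ x : H, n x : ℕ) : ℂ) = 0 := by
        rw [Nat.cast_sum, ← h3]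
        exact Finset.sum_congr rfl fun x _ => (hn x).symm
      exact_mod_cast h5
    have h6 : n 1 = 0 := (Finset.sum_eq_zero_iff.mp h4) 1 (Finset.mem_univ 1)
    have h7 := hn 1
    rw [conjChar_one, h6] at h7
    simpa using h7
  obtain ⟨f, hf⟩ := classInner_isCharacter_nat hψ (isCharacter_of_isIrrCharacter θ.2)
  have hψeq : ψ = (f : ℂ) • (θ : ↥Z → ℂ) := by
    have h1 := classFunction_eq_finsum (isClassFunction_of_isCharacter hψ)
    rw [finsum_irr_eq_sum, Finset.sum_eq_single θ] at h1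
    · rw [hf] at h1
      exact h1
    · intro ϑ _ hne
      rw [hzero ϑ hne, zero_smul]
    · intro h
      exact absurd (Finset.mem_univ _) h
  have hψz : ∀ z : ↥Z, ψ z = (f : ℂ) * (θ : ↥Z → ℂ) z := by
    intro z
    rw [hψeq]
    rfl
  have he0 : (e : ℂ) ≠ 0 := by
    have h1 : e ≠ 0 := by
      intro h0
      rw [h0] at he
      have := Subgroup.index_ne_zero_of_finite (H := Z)
      exact this (by rw [← he]; norm_num)
    exact_mod_cast h1
  have hχc : IsClassFunction H (χ : H → ℂ) := irr_isClassFunction χ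
  -- invariance of θ
  have hinv : ∀ (x : H) (z : ↥Z), conjChar Z (θ : ↥Z → ℂ) x z = (θ : ↥Z → ℂ) z := by
    intro x z
    have h1 := hres ⟨x * z * x⁻¹, hZn.conj_mem z z.2 x⟩
    have h2 : (χ : H → ℂ) (x * (z : H) * x⁻¹) = (χ : H → ℂ) z := hχc z x
    have h3 : (e : ℂ) * (θ : ↥Z → ℂ) ⟨x * z * x⁻¹, hZn.conj_mem z z.2 x⟩ =
        (e : ℂ) * (θ : ↥Z → ℂ) z := by
      rw [← h1, ← hres z]
      exact h2
    exact mul_left_cancel₀ he0 h3
  refine ⟨f, ?_, fun z => ?_⟩
  swap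
  · have h0 := hψz z
    rw [hψdef] at h0
    exact h0
  have h1 := hstar 1
  have h2 : ∀ x : H, conjChar Z ψ x 1 = (f : ℂ) * (θ : ↥Z → ℂ) 1 := by
    intro x
    have h3 : conjChar Z ψ x 1 = (f : ℂ) * conjChar Z (θ : ↥Z → ℂ) x 1 := by
      simp only [conjChar]
      exact hψz _
    rw [h3, hinv]
  rw [Finset.sum_congr rfl (fun x _ => h2 x), Finset.sum_const, Finset.card_univ, hres 1,
    nsmul_eq_mul] at h1
  have hθ1 : (θ : ↥Z → ℂ) 1 ≠ 0 := irr_one_ne_zero θ
  have hcard : (Fintype.card H : ℂ) = (K.index : ℂ) * (Nat.card ↥K : ℂ) := by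
    rw [← Nat.cast_mul, Subgroup.index_mul_card, Nat.card_eq_fintype_card]
  have h4 : (e : ℂ) = (K.index : ℂ) * (f : ℂ) := by
    have h5 : (e : ℂ) * (θ : ↥Z → ℂ) 1 = ((K.index : ℂ) * (f : ℂ)) * (θ : ↥Z → ℂ) 1 := by
      rw [h1, hcard]
      field_simp
    exact mul_right_cancel₀ hθ1 h5
  exact_mod_cast h4

end Cfsg.Agent.H89.FR

namespace Cfsg.Agent.H89.FR
universe u
example : Cfsg.Agent.H59.FR.IndResStmt.{u} := indres
end Cfsg.Agent.H89.FR
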