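import Cfsg.Agent.H89.AxGroup
import Cfsg.Agent.H90.GTMain

set_option autoImplicit false

/-!
# An axiomatic Glauberman–Thompson criterion for fusion systems

`𝒜` is a nonempty family of abelian subgroups of `S` with the replacement property (`AxData`) whose
partial intersections are invariant under the automorphisms of the saturated system `F`
(`AxInv`), `p` odd.  If the automorphisms of `F` normalizing the intersection of `𝒜` have
`p`-power order, then all automorphism groups of `F` are `p`-groups (`autP_of_nautP_ax`).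

Reduction as in helper90's `H90.GTMain` (using the criterion for `Z(J(S))` in place of the
induction hypothesis), and in the constrained case the group-theoretic `all_pElements_of_ax`
applied to a model.
-/

namespace Cfsg.Agent.H89

open Cfsg Cfsg.FusionSystem Cfsg.Agent.H86 Cfsg.Agent.H90
open scoped commutatorElement

universe u

section GTAx

variable {Ω : Type u} [Group Ω] {S : Subgroup Ω}

/-- The family transported to subgroups of the type `S`. -/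
def famOf (S : Subgroup Ω) (𝒜 : Set (Subgroup Ω)) : Set (Subgroup ↥S) :=
  {A' | ∃ A ∈ 𝒜, A' = A.subgroupOf S}

/-- The axioms on the family, in the ambient group. -/
structure AxData (S : Subgroup Ω) (𝒜 : Set (Subgroup Ω)) : Prop where
  le : ∀ A ∈ 𝒜, A ≤ S ∧ IsMulCommutative ↥A
  ne : 𝒜.Nonempty
  rep : ∀ B : Subgroup Ω, B ≤ S → ⁅⁅B, B⁆, B⁆ = ⊥ → (∃ A ∈ 𝒜, ⁅B, B⁆ ≤ A ∧ ¬ B ≤ A) →
    ∃ A ∈ 𝒜, ⁅B, B⁆ ≤ A ∧ ¬ B ≤ A ∧ B ≤ Subgroup.normalizer (A : Set Ω)

/-- Invariance of the partial intersections under the automorphisms of the system. -/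
def AxInv (E : FusionSystem S) (𝒜 : Set (Subgroup Ω)) : Prop :=
  ∀ Q : Subgroup Ω, Q ≤ S → (∃ A ∈ 𝒜, A ≤ Q) → ∀ α ∈ E.autGroup Q, ∀ x : ↥Q,
    (x : Ω) ∈ (⨅ A ∈ {A : Subgroup Ω | A ∈ 𝒜 ∧ A ≤ Q}, A) →
    (((α : MulAut ↥Q) x : ↥Q) : Ω) ∈ (⨅ A ∈ {A : Subgroup Ω | A ∈ 𝒜 ∧ A ≤ Q}, A)

lemma mem_iInf_fam {𝒜 : Set (Subgroup Ω)} {Q : Subgroup Ω} {x : Ω} :
    x ∈ (⨅ A ∈ {A : Subgroup Ω | A ∈ 𝒜 ∧ A ≤ Q}, A) ↔ ∀ A ∈ 𝒜, A ≤ Q → x ∈ A := by
  simp only [Subgroup.mem_iInf, Set.mem_ofPred_eq, and_imp]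

lemma mem_iInf_all {𝒜 : Set (Subgroup Ω)} {x : Ω} :
    x ∈ (⨅ A ∈ 𝒜, A) ↔ ∀ A ∈ 𝒜, x ∈ A := by
  simp only [Subgroup.mem_iInf]

lemma axFam_famOf {𝒜 : Set (Subgroup Ω)} (h : AxData S 𝒜) : AxFam (famOf S 𝒜) := by
  refine ⟨?_, ?_, ?_⟩
  · obtain ⟨A, hA⟩ := h.ne
    exact ⟨_, A, hA, rfl⟩
  · rintro _ ⟨A, hA, rfl⟩ x hx y hy
    have hc := (h.le A hA).2
    have h1 := hc.is_comm.comm (⟨x, Subgroup.mem_subgroupOf.1 hx⟩ : A)
      ⟨y, Subgroup.mem_subgroupOf.1 hy⟩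
    exact Subtype.ext (show (x : Ω) * y = y * x from congrArg Subtype.val h1)
  · intro B' hcl hex
    obtain ⟨B, hBdef⟩ : ∃ B : Subgroup Ω, B = B'.map S.subtype := ⟨_, rfl⟩
    have hBS : B ≤ S := by rw [hBdef]; exact Subgroup.map_subtype_le B'
    have hBmem : ∀ x : ↥S, (x : Ω) ∈ B ↔ x ∈ B' := by
      intro x
      rw [hBdef]
      constructor
      · rintro ⟨y, hy, hyx⟩
        have : y = x := Subtype.ext hyx
        rw [← this]
        exact hy
      · intro hx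
        exact ⟨x, hx, rfl⟩
    have hcomm : ⁅B, B⁆ = (⁅B', B'⁆).map S.subtype := by
      rw [Subgroup.map_commutator, hBdef]
    have hclB : ⁅⁅B, B⁆, B⁆ = ⊥ := by
      rw [hcomm, hBdef, ← Subgroup.map_commutator, hcl, Subgroup.map_bot]
    have hexB : ∃ A ∈ 𝒜, ⁅B, B⁆ ≤ A ∧ ¬ B ≤ A := by
      obtain ⟨_, ⟨A, hA, rfl⟩, h1, h2⟩ := hex
      refine ⟨A, hA, ?_, fun hBA => h2 (fun x hx => Subgroup.mem_subgroupOf.2 (hBA ((hBmem x).2 hx)))⟩
      rw [hcomm]
      rintro _ ⟨y, hy, rfl⟩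
      exact Subgroup.mem_subgroupOf.1 (h1 hy)
    obtain ⟨A, hA, h1, h2, h3⟩ := h.rep B hBS hclB hexB
    refine ⟨A.subgroupOf S, ⟨A, hA, rfl⟩, ?_, ?_, ?_⟩
    · intro x hx
      rw [Subgroup.mem_subgroupOf]
      apply h1
      rw [hcomm]
      exact ⟨x, hx, rfl⟩
    · intro hle
      apply h2
      intro b hb
      have hb' : (⟨b, hBS hb⟩ : ↥S) ∈ B' := (hBmem _).1 hb
      exact Subgroup.mem_subgroupOf.1 (hle hb')
    · intro b hb
      rw [Subgroup.mem_normalizer_iff]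
      intro a
      rw [Subgroup.mem_subgroupOf, Subgroup.mem_subgroupOf]
      exact Subgroup.mem_normalizer_iff.mp (h3 ((hBmem b).2 hb)) (a : Ω)

lemma mem_famInf_famOf {𝒜 : Set (Subgroup Ω)} (h : AxData S 𝒜) {R' : Subgroup ↥S}
    {R : Subgroup Ω} (hR : R = R'.map S.subtype) (z : ↥S) :
    z ∈ famInf (famOf S 𝒜) R' ↔ ∀ A ∈ 𝒜, A ≤ R → (z : Ω) ∈ A := by
  have hRmem : ∀ x : ↥S, (x : Ω) ∈ R ↔ x ∈ R' := by
    intro x
    rw [hR]
    constructor
    · rintro ⟨y, hy, hyx⟩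
      have : y = x := Subtype.ext hyx
      rw [← this]
      exact hy
    · intro hx
      exact ⟨x, hx, rfl⟩
  rw [mem_famInf]
  constructor
  · intro hz A hA hAR
    have h1 : A.subgroupOf S ≤ R' := fun x hx => (hRmem x).1 (hAR (Subgroup.mem_subgroupOf.1 hx))
    exact Subgroup.mem_subgroupOf.1 (hz _ ⟨A, hA, rfl⟩ h1)
  · rintro hz _ ⟨A, hA, rfl⟩ hAR'
    have h1 : A ≤ R := fun a ha =>
      (hRmem ⟨a, (h.le A hA).1 ha⟩).2 (hAR' (Subgroup.mem_subgroupOf.2 ha))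
    exact Subgroup.mem_subgroupOf.2 (hz A hA h1)

/-- The intersection of the family is normalized by `S`. -/
lemma le_normalizer_iInf_of_axInv [Finite S] {E : FusionSystem S} {𝒜 : Set (Subgroup Ω)}
    (h𝒜 : AxData S 𝒜) (hinv : AxInv E 𝒜) :
    S ≤ Subgroup.normalizer (((⨅ A ∈ 𝒜, A : Subgroup Ω)) : Set Ω) := by
  obtain ⟨A₀, hA₀⟩ := h𝒜.ne
  have hZS : (⨅ A ∈ 𝒜, A : Subgroup Ω) ≤ S := fun x hx =>
    (h𝒜.le A₀ hA₀).1 (mem_iInf_all.1 hx A₀ hA₀)
  have key : ∀ s ∈ S, ∀ z ∈ (⨅ A ∈ 𝒜, A : Subgroup Ω), s * z * s⁻¹ ∈ (⨅ A ∈ 𝒜, A : Subgroup Ω) := by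
    intro s hs z hz
    have hf : Mor E S (fun x => s * x * s⁻¹) := Mor.conj E le_rfl hs
    have himg : imgS S (fun x => s * x * s⁻¹) = S :=
      imgS_eq_of_maps hf (fun x hx => S.mul_mem (S.mul_mem hs hx) (S.inv_mem hs))
    have h1 := hinv S le_rfl ⟨A₀, hA₀, (h𝒜.le A₀ hA₀).1⟩ (mkAut hf himg) (mkAut_mem hf himg)
      ⟨z, hZS hz⟩ (mem_iInf_fam.2 (fun A hA _ => mem_iInf_all.1 hz A hA))
    rw [mkAut_apply] at h1
    rw [mem_iInf_all]
    intro A hA
    exact mem_iInf_fam.1 h1 A hA (h𝒜.le A hA).1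
  intro s hs
  refine mem_normalizer_of_forall_conj_mem (key s hs) (fun y hy => ?_)
  have := key s⁻¹ (S.inv_mem hs) y hy
  rwa [inv_inv] at this

/-- The constrained case. -/
theorem autP_of_centric_normal_ax [Finite S] {p : ℕ} [Fact p.Prime] (hp : p ≠ 2)
    (hS : IsPGroup p S) {E : FusionSystem S} (hE : E.IsSaturated p) {P : Subgroup Ω}
    (hPn : E.IsNormal P) (hPc : centralizerIn S P ≤ P) {𝒜 : Set (Subgroup Ω)}
    (h𝒜 : AxData S 𝒜) (hinv : AxInv E 𝒜) (hZ : NAutP p E (⨅ A ∈ 𝒜, A)) : AutP p E := by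
  have hPsc := IsNormal.stronglyClosed hPn
  have hPcen : E.IsCentric P :=
    ⟨hPn.1, fun Q hQ => by
      rw [Cfsg.Agent.H87.isConj_eq_of_stronglyClosed hPsc hQ]; exact hPc⟩
  obtain ⟨L, _, ι, ⟨hfin, hreal, ⟨T, hT⟩, -⟩, hPLn, hPLc⟩ := exists_model hS hE hPn hPcen
  have hinj := hreal.1
  obtain ⟨Z, hZdef⟩ : ∃ Z : Subgroup Ω, Z = ⨅ A ∈ 𝒜, A := ⟨_, rfl⟩
  rw [← hZdef] at hZ
  have hZmem : ∀ x : Ω, x ∈ Z ↔ ∀ A ∈ 𝒜, x ∈ A := fun x => by
    rw [hZdef]; exact mem_iInf_all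
  obtain ⟨A₀, hA₀⟩ := h𝒜.ne
  have hZS : Z ≤ S := fun x hx => (h𝒜.le A₀ hA₀).1 ((hZmem x).1 hx A₀ hA₀)
  -- `S` normalizes `Z`
  have hSZ : S ≤ Subgroup.normalizer (Z : Set Ω) := by
    rw [hZdef]; exact le_normalizer_iInf_of_axInv h𝒜 hinv
  have hLp : ∀ g : L, ∃ k : ℕ, g ^ p ^ k = 1 := by
    haveI := hfin
    refine all_pElements_of_ax hp ι hinj T hT (P.subgroupOf S) hPLn hPLc (axFam_famOf h𝒜) ?_ ?_
    · -- invariance in the model
      intro R' hR' g hg z hz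
      obtain ⟨R, hRdef⟩ : ∃ R : Subgroup Ω, R = R'.map S.subtype := ⟨_, rfl⟩
      have hRS : R ≤ S := by rw [hRdef]; exact Subgroup.map_subtype_le R'
      haveI : Finite R := finite_of_le hRS
      have hRmem : ∀ x : ↥S, (x : Ω) ∈ R ↔ x ∈ R' := by
        intro x
        rw [hRdef]
        constructor
        · rintro ⟨y, hy, hyx⟩
          have : y = x := Subtype.ext hyx
          rw [← this]
          exact hy
        · intro hx
          exact ⟨x, hx, rfl⟩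
      obtain ⟨_, ⟨A, hA, rfl⟩, hA'R⟩ := hR'
      have hAR : A ≤ R := fun a ha =>
        (hRmem ⟨a, (h𝒜.le A hA).1 ha⟩).2 (hA'R (Subgroup.mem_subgroupOf.2 ha))
      obtain ⟨α, hα, hαg⟩ := exists_aut_of_realized hreal hRS g (fun x => by
        obtain ⟨y, hy, hyx⟩ := hg (Subgroup.inclusion hRS x) ((hRmem _).1 x.2)
        refine ⟨⟨y, (hRmem y).2 hy⟩, ?_⟩
        rw [← hyx]
        rfl)
      have hzA := (mem_famInf_famOf h𝒜 hRdef z).1 hz
      have hzR : (z : Ω) ∈ R := hAR (hzA A hA hAR)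
      have h1 := hinv R hRS ⟨A, hA, hAR⟩ α hα ⟨z, hzR⟩ (mem_iInf_fam.2 hzA)
      refine ⟨Subgroup.inclusion hRS (α ⟨z, hzR⟩), ?_, ?_⟩
      · exact (mem_famInf_famOf h𝒜 hRdef _).2 (mem_iInf_fam.1 h1)
      · have h2 := hαg ⟨z, hzR⟩
        have e : Subgroup.inclusion hRS ⟨(z : Ω), hzR⟩ = z := Subtype.ext rfl
        rw [e] at h2
        exact h2
    · -- the normalizer of the intersection consists of `p`-elements
      intro g hg
      obtain ⟨Z₀, hZ₀def⟩ : ∃ Z₀ : Subgroup ↥S, Z₀ = famInf (famOf S 𝒜) ⊤ := ⟨_, rfl⟩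
      have hZ₀mem : ∀ x : ↥S, x ∈ Z₀ ↔ (x : Ω) ∈ Z := by
        intro x
        rw [hZ₀def, hZmem, mem_famInf_famOf h𝒜 rfl x]
        constructor
        · intro h A hA
          exact h A hA (fun a ha => ⟨⟨a, (h𝒜.le A hA).1 ha⟩, Subgroup.mem_top _, rfl⟩)
        · intro h A hA _
          exact h A hA
      obtain ⟨D₀, hD₀def⟩ : ∃ D₀ : Subgroup ↥S, D₀ = P.subgroupOf S ⊔ Z₀ := ⟨_, rfl⟩
      obtain ⟨D, hDdef⟩ : ∃ D : Subgroup Ω, D = D₀.map S.subtype := ⟨_, rfl⟩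
      have hDS : D ≤ S := by rw [hDdef]; exact Subgroup.map_subtype_le D₀
      have hZD : Z ≤ D := by
        intro x hx
        rw [hDdef]
        refine ⟨⟨x, hZS hx⟩, ?_, rfl⟩
        rw [hD₀def]
        exact Subgroup.mem_sup_right ((hZ₀mem _).2 hx)
      have hPD : P ≤ D := by
        intro x hx
        rw [hDdef]
        refine ⟨⟨x, hPn.1 hx⟩, ?_, rfl⟩
        rw [hD₀def]
        exact Subgroup.mem_sup_left (Subgroup.mem_subgroupOf.2 hx)
      haveI : Finite D := finite_of_le hDS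
      have hDmem : ∀ y : Ω, y ∈ D → y ∈ D₀.map S.subtype := fun y hy => by
        rw [hDdef] at hy; exact hy
      have hDmem' : ∀ y₀ : ↥S, y₀ ∈ D₀ → (y₀ : Ω) ∈ D := fun y₀ hy₀ => by
        rw [hDdef]; exact ⟨y₀, hy₀, rfl⟩
      have hconj : ∀ x₀ ∈ D₀, ∃ y₀ ∈ D₀, ι y₀ = g * ι x₀ * g⁻¹ := by
        have hle : D₀ ≤ (D₀.map ι).comap ((MulAut.conj g).toMonoidHom.comp ι) := by
          rw [hD₀def]
          refine sup_le ?_ ?_
          · intro a ha
            show g * ι a * g⁻¹ ∈ (P.subgroupOf S ⊔ Z₀).map ι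
            have h1 : g * ι a * g⁻¹ ∈ (P.subgroupOf S).map ι :=
              hPLn.conj_mem _ ⟨a, ha, rfl⟩ g
            exact Subgroup.map_mono le_sup_left h1
          · intro z hz
            show g * ι z * g⁻¹ ∈ (P.subgroupOf S ⊔ Z₀).map ι
            rw [hZ₀def] at hz
            obtain ⟨z', hz', hzz⟩ := hg z hz
            rw [← hzz]
            exact Subgroup.map_mono le_sup_right ⟨z', hZ₀def ▸ hz', rfl⟩
        intro x₀ hx₀
        obtain ⟨y₀, hy₀, hy⟩ := hle hx₀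
        exact ⟨y₀, hy₀, hy⟩
      obtain ⟨α, hα, hαh⟩ := exists_aut_of_realized hreal hDS g (fun x => by
        obtain ⟨x₀, hx₀, hxx⟩ := hDmem _ x.2
        obtain ⟨y₀, hy₀, hy⟩ := hconj x₀ hx₀
        refine ⟨⟨y₀, hDmem' y₀ hy₀⟩, ?_⟩
        have e1 : Subgroup.inclusion hDS x = x₀ := Subtype.ext hxx.symm
        rw [e1, ← hy]
        rfl)
      have hαZ : ∀ u ∈ Z, autFun D α u ∈ Z := by
        intro u hu
        rw [autFun_of_mem _ (hZD hu)]
        have hu₀ : (⟨u, hZS hu⟩ : ↥S) ∈ famInf (famOf S 𝒜) ⊤ := hZ₀def ▸ (hZ₀mem _).2 hu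
        obtain ⟨z₀, hz₀, hz⟩ := hg _ hu₀
        have h2 := hαh ⟨u, hZD hu⟩
        have e1 : Subgroup.inclusion hDS ⟨u, hZD hu⟩ = (⟨u, hZS hu⟩ : ↥S) := Subtype.ext rfl
        rw [e1, ← hz] at h2
        have h3 := hinj h2
        have h4 : ((α ⟨u, hZD hu⟩ : D) : Ω) = (z₀ : Ω) := congrArg Subtype.val h3
        rw [h4]
        exact (hZ₀mem z₀).1 (hZ₀def ▸ hz₀)
      have hDN : D ≤ normalizerIn S Z := fun x hx => ⟨hDS hx, hSZ (hDS hx)⟩
      obtain ⟨k, hk⟩ := hZ D hZD hDN α hα hαZ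
      have hpow := realized_pow hDS hαh (p ^ k)
      rw [hk] at hpow
      have hPLp : IsPGroup p ((P.subgroupOf S).map ι) := (hS.to_subgroup _).map ι
      have hcen : g ^ p ^ k ∈
          Subgroup.centralizer (((P.subgroupOf S).map ι : Subgroup L) : Set L) := by
        rw [Subgroup.mem_centralizer_iff]
        rintro _ ⟨a, ha, rfl⟩
        have h1 := hpow ⟨a, hPD (Subgroup.mem_subgroupOf.1 ha)⟩
        have e1 : Subgroup.inclusion hDS
            ((1 : MulAut D) ⟨a, hPD (Subgroup.mem_subgroupOf.1 ha)⟩) = a := Subtype.ext rfl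
        have e2 : Subgroup.inclusion hDS ⟨a, hPD (Subgroup.mem_subgroupOf.1 ha)⟩ = a :=
          Subtype.ext rfl
        rw [e1, e2] at h1
        calc ι a * g ^ p ^ k = g ^ p ^ k * ι a * (g ^ p ^ k)⁻¹ * g ^ p ^ k := by rw [← h1]
          _ = g ^ p ^ k * ι a := by group
      obtain ⟨i, hi⟩ := hPLp ⟨_, hPLc hcen⟩
      have hi' : (g ^ p ^ k) ^ p ^ i = 1 := by simpa using congrArg Subtype.val hi
      exact ⟨k + i, by rw [pow_add, pow_mul, hi']⟩
  intro T₁ hT₁ α hα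
  obtain ⟨g, hαg⟩ := exists_conj_of_mem_autGroup hreal hT₁ hα
  obtain ⟨k, hk⟩ := hLp g
  refine ⟨k, ?_⟩
  ext x
  have h1 := realized_pow hT₁ hαg (p ^ k) x
  rw [hk] at h1
  simp only [one_mul, inv_one, mul_one] at h1
  exact congrArg Subtype.val (Subgroup.inclusion_injective hT₁ (hinj h1))

/-- The case of a nontrivial normal subgroup, maximal among the normal subgroups `M` of `S`
violating the condition `NAutP` (compare `H90.autP_of_normal`). -/
theorem autP_of_normal_ax [Finite S] {p : ℕ} [Fact p.Prime] (hp : p ≠ 2) (hS : IsPGroup p S)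
    {E : FusionSystem S} (hE : E.IsSaturated p) {P : Subgroup Ω} (hPn : E.IsNormal P)
    {𝒜 : Set (Subgroup Ω)} (h𝒜 : AxData S 𝒜) (hinv : AxInv E 𝒜)
    (hZ : NAutP p E (⨅ A ∈ 𝒜, A))
    (hmax : ∀ M : Subgroup Ω, P < M → M ≤ S → S ≤ Subgroup.normalizer (M : Set Ω) →
      NAutP p E M) : AutP p E := by
  have hPsc := IsNormal.stronglyClosed hPn
  have hPS : P ≤ S := hPn.1
  by_cases hc : centralizerIn S P ≤ P
  · exact autP_of_centric_normal_ax hp hS hE hPn hc h𝒜 hinv hZ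
  · have hPneS : P ≠ S := fun h => hc ((inf_le_left : centralizerIn S P ≤ S).trans h.ge)
    haveI hnormal : (P.subgroupOf S).Normal :=
      ⟨fun n hn g => Subgroup.mem_subgroupOf.2
        (Cfsg.Agent.H88.stronglyClosed_conj_mem hPsc g.2 (Subgroup.mem_subgroupOf.1 hn))⟩
    obtain ⟨E', hfs⟩ := Cfsg.Agent.H88.exists_factorSystem E P hPsc
    have hE'sat := Cfsg.Agent.H88.factor_saturated hS hE hPsc hfs
    have hS'p : IsPGroup p ↥(⊤ : Subgroup (S ⧸ P.subgroupOf S)) :=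
      (hS.to_quotient (P.subgroupOf S)).to_subgroup ⊤
    have hS'ne : (⊤ : Subgroup (S ⧸ P.subgroupOf S)) ≠ ⊥ := by
      intro h
      apply hPneS
      refine le_antisymm hPS (fun x hx => ?_)
      have h1 : QuotientGroup.mk' (P.subgroupOf S) ⟨x, hx⟩ ∈ (⊤ : Subgroup (S ⧸ P.subgroupOf S)) :=
        Subgroup.mem_top _
      rw [h] at h1
      exact (hfs.2.1 ⟨x, hx⟩).1 (Subgroup.mem_bot.1 h1)
    have hZne := centerThompsonAOf_ne_bot hS'p hS'ne
    have hPM : P ≤ preimageAlong (QuotientGroup.mk' (P.subgroupOf S))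
        (centerThompsonAOf (⊤ : Subgroup (S ⧸ P.subgroupOf S))) :=
      Cfsg.Agent.H88.le_preimageAlong hfs _
    have hMS : preimageAlong (QuotientGroup.mk' (P.subgroupOf S))
        (centerThompsonAOf (⊤ : Subgroup (S ⧸ P.subgroupOf S))) ≤ S :=
      Cfsg.Agent.H88.preimageAlong_le _ _
    have himgM : imageAlong (QuotientGroup.mk' (P.subgroupOf S))
        (preimageAlong (QuotientGroup.mk' (P.subgroupOf S))
          (centerThompsonAOf (⊤ : Subgroup (S ⧸ P.subgroupOf S)))) =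
        centerThompsonAOf (⊤ : Subgroup (S ⧸ P.subgroupOf S)) :=
      Cfsg.Agent.H88.imageAlong_preimageAlong hfs (centerThompsonAOf_le _)
    have hMne : P ≠ preimageAlong (QuotientGroup.mk' (P.subgroupOf S))
        (centerThompsonAOf (⊤ : Subgroup (S ⧸ P.subgroupOf S))) := by
      intro h
      apply hZne
      rw [← himgM, ← h, eq_bot_iff]
      intro y hy
      obtain ⟨x, hx, rfl⟩ := (Cfsg.Agent.H88.mem_imageAlong_iff hPS).1 hy
      exact Subgroup.mem_bot.2 ((Cfsg.Agent.H88.tot_eq_one_iff hfs (hPS hx)).2 hx)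
    have hMN : S ≤ Subgroup.normalizer
        ((preimageAlong (QuotientGroup.mk' (P.subgroupOf S))
          (centerThompsonAOf (⊤ : Subgroup (S ⧸ P.subgroupOf S))) : Subgroup Ω) : Set Ω) := by
      intro g hg
      refine Cfsg.Agent.H88.mem_normalizer_of_tot hfs hPM hMS hg ?_
      rw [himgM]
      exact le_normalizer_centerThompsonAOf _ (Cfsg.Agent.H88.tot_mem hfs g)
    have hNM := hmax _ (lt_of_le_of_ne hPM hMne) hMS hMN
    have hZ' := nautP_factor hfs hPsc hNM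
    have hE'P : AutP p E' := autP_of_nautP_centerThompson hp _ hS'p E' hE'sat rfl hZ'
    have hPC : P < P ⊔ centralizerIn S P :=
      lt_of_le_of_ne le_sup_left (fun h => hc (le_sup_right.trans h.ge))
    exact autP_of_noncentric hS hE hPn
      (fun D hPD hDS α hα => factor_trivial hfs hPsc hE'P hPD hDS hα)
      (hmax _ hPC (sup_le hPS inf_le_left)
        (le_normalizer_sup_centralizerIn (Cfsg.Agent.H88.stronglyClosed_le_normalizer hPsc)))

/-- **Axiomatic Glauberman–Thompson criterion for fusion systems** (`p` odd), automorphism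
form. -/
theorem autP_of_nautP_ax [Finite S] {p : ℕ} [Fact p.Prime] (hp : p ≠ 2) (hS : IsPGroup p S)
    {F : FusionSystem S} (hF : F.IsSaturated p) {𝒜 : Set (Subgroup Ω)} (h𝒜 : AxData S 𝒜)
    (hinv : AxInv F 𝒜) (hZ : NAutP p F (⨅ A ∈ 𝒜, A)) : AutP p F := by
  by_contra hnot
  have IH' : ∀ m < Nat.card S, ∀ {Ω' : Type u} [Group Ω'] {S' : Subgroup Ω'} [Finite S'],
      IsPGroup p S' → ∀ F' : FusionSystem S', F'.IsSaturated p → Nat.card S' = m →
        NAutP p F' (centerThompsonAOf S') → AutP p F' :=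
    fun m _ => autP_of_nautP_centerThompson hp m
  obtain ⟨P₀, hP₀⟩ := exists_normal_not_nautP hS IH' hF hnot
  obtain ⟨s, hsdef⟩ : ∃ s : Set ℕ, s = {k | ∃ P : Subgroup Ω,
      (P ≠ ⊥ ∧ P ≤ S ∧ normalizerIn S P = S ∧ ¬ NAutP p F P) ∧ Nat.card P = k} := ⟨_, rfl⟩
  have hsne : s.Nonempty := by
    rw [hsdef]
    exact ⟨_, P₀, hP₀, rfl⟩
  have hbdd : BddAbove s := ⟨Nat.card S, by
    rintro k hk
    rw [hsdef] at hk
    obtain ⟨P, ⟨-, hPS, -, -⟩, rfl⟩ := hk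
    exact Subgroup.card_le_of_le hPS⟩
  have hmem := Nat.sSup_mem hsne hbdd
  rw [hsdef] at hmem
  obtain ⟨P, ⟨hPne, hPS, hPN, hPnot⟩, hPcard⟩ := hmem
  rw [← hsdef] at hPcard
  have hmaxP : ∀ M : Subgroup Ω, M ≠ ⊥ → M ≤ S → normalizerIn S M = S →
      Nat.card P < Nat.card M → NAutP p F M := by
    intro M h1 h2 h3 h4
    by_contra h5
    have h6 : Nat.card M ≤ sSup s := le_csSup hbdd (by
      rw [hsdef]
      exact ⟨M, ⟨h1, h2, h3, h5⟩, rfl⟩)
    rw [hPcard] at h4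
    omega
  have hPfn : F.IsFullyNormalized P := ⟨hPS, fun Q _ => by
    rw [hPN]
    exact Subgroup.card_le_of_le inf_le_left⟩
  haveI : Finite ↥(normalizerIn S P) := finite_of_le (S := S) inf_le_left
  have hRp : IsPGroup p ↥(normalizerIn S P) := hS.to_le inf_le_left
  have hEn : F.IsNormalizerSystem P (Cfsg.Agent.H89.normalizerSystem F P hPS) :=
    Cfsg.Agent.H89.normalizerSystem_isNormalizerSystem F P hPS
  have hEsat : (Cfsg.Agent.H89.normalizerSystem F P hPS).IsSaturated p :=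
    Cfsg.Agent.H88.normalizerSystem_saturated hS hF hPfn _ hEn
  have hEnormal : (Cfsg.Agent.H89.normalizerSystem F P hPS).IsNormal P :=
    Cfsg.Agent.H88.normalizerSystem_isNormal hPS hEn
  have hEP : AutP p (Cfsg.Agent.H89.normalizerSystem F P hPS) := by
    refine autP_of_normal_ax hp hRp hEsat hEnormal (𝒜 := 𝒜) ?_ ?_
      (nautP_normalizerSystem hEn hZ) ?_
    · exact ⟨fun A hA => ⟨((h𝒜.le A hA).1).trans hPN.ge, (h𝒜.le A hA).2⟩, h𝒜.ne,
        fun B hB => h𝒜.rep B (hB.trans inf_le_left)⟩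
    · intro Q hQ hex α hα x hx
      have hQS : Q ≤ S := hQ.trans inf_le_left
      refine hinv Q hQS hex α ?_ x hx
      rw [Cfsg.Agent.H86.mem_autGroup_iff hQS]
      exact mor_of_normalizerSystem hEn ((Cfsg.Agent.H86.mem_autGroup_iff hQ α).1 hα)
    · intro M hPM hMR hMN
      apply nautP_normalizerSystem hEn
      have hMS : M ≤ S := hMR.trans inf_le_left
      haveI : Finite M := finite_of_le hMS
      refine hmaxP M (ne_bot_of_gt hPM) hMS ?_ (card_lt_card_of_lt hPM)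
      refine le_antisymm inf_le_left (le_inf le_rfl ?_)
      intro g hg
      exact hMN (hPN.ge hg)
  exact hPnot (nautP_of_autP_normalizerSystem hPS hEn hEP)

end GTAx

end Cfsg.Agent.H89
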