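import Cfsg.Agent.H90.GTMain
import Cfsg.Agent.H90.GTFactor
import Cfsg.Agent.H88.Puig
import Cfsg.Agent.H87.PPowerExist

set_option autoImplicit false

/-!
The Glauberman–Thompson criterion for fusion systems relative to a strongly closed subgroup `D`:
if the automorphisms of the system normalizing `Z(J(D))` have `p`-power order, then all the
automorphism groups of the system are `p`-groups (`p` odd).  Reduction to the case `D = S` through
the subsystem of `p`-power index over `D`.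
-/

namespace Cfsg.Agent.H89

open Cfsg Cfsg.FusionSystem Cfsg.Agent.H86 Cfsg.Agent.H90

universe u

section GTStrong

variable {Ω : Type u} [Group Ω] {S : Subgroup Ω}

/-- An automorphism of `D` maps `Z(J(D))` into itself. -/
lemma autFun_mem_centerThompsonAOf {D : Subgroup Ω} (δ : MulAut D) {x : Ω}
    (hx : x ∈ centerThompsonAOf D) : autFun D δ x ∈ centerThompsonAOf D := by
  rw [centerThompsonAOf_eq_map] at hx ⊢
  obtain ⟨y, hy, rfl⟩ := hx
  have h1 : δ y ∈ (Cfsg.Agent.H38.zjFun ↥D).map δ.toMonoidHom := ⟨y, hy, rfl⟩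
  rw [Cfsg.Agent.H38.zjFun_map δ] at h1
  refine ⟨δ y, h1, ?_⟩
  show ((δ y : D) : Ω) = autFun D δ (y : Ω)
  rw [autFun_apply]

/-- Powers of an automorphism leaving `D` invariant leave `D` invariant. -/
lemma autFun_pow_mem {T D : Subgroup Ω} (hDT : D ≤ T) {α : MulAut T}
    (hD : ∀ d ∈ D, autFun T α d ∈ D) (n : ℕ) : ∀ d ∈ D, autFun T (α ^ n) d ∈ D := by
  induction n with
  | zero =>
    intro d hd
    rw [pow_zero, autFun_one (hDT hd)]
    exact hd
  | succ n ih =>
    intro d hd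
    rw [pow_succ, autFun_mul _ _ (hDT hd)]
    exact ih _ (hD d hd)

/-- Powers of two automorphisms agreeing modulo an invariant subgroup agree modulo it. -/
lemma autFun_pow_mod {P T D : Subgroup Ω} (hPT : P ≤ T) (hDT : D ≤ T) {α : MulAut P}
    {α' : MulAut T} (hD : ∀ d ∈ D, autFun T α' d ∈ D)
    (h : ∀ x ∈ P, (autFun P α x)⁻¹ * autFun T α' x ∈ D) (n : ℕ) :
    ∀ x ∈ P, (autFun P (α ^ n) x)⁻¹ * autFun T (α' ^ n) x ∈ D := by
  induction n with
  | zero =>
    intro x hx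
    rw [pow_zero, pow_zero, autFun_one hx, autFun_one (hPT hx), inv_mul_cancel]
    exact D.one_mem
  | succ n ih =>
    intro x hx
    have hy : autFun P α x ∈ P := autFun_mem α hx
    have hd : (autFun P α x)⁻¹ * autFun T α' x ∈ D := h x hx
    have e : autFun T α' x = autFun P α x * ((autFun P α x)⁻¹ * autFun T α' x) := by group
    rw [pow_succ, pow_succ, autFun_mul _ _ hx, autFun_mul _ _ (hPT hx)]
    have e2 : autFun T (α' ^ n) (autFun T α' x) =
        autFun T (α' ^ n) (autFun P α x) *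
          autFun T (α' ^ n) ((autFun P α x)⁻¹ * autFun T α' x) := by
      conv_lhs => rw [e]
      rw [autFun_map_mul _ (hPT hy) (hDT hd)]
    rw [e2, ← mul_assoc]
    exact D.mul_mem (ih _ hy) (autFun_pow_mem hDT hD n _ hd)

/-- Under the hypothesis on the normalizer of `Z(J(D))`, a `p`-power of every automorphism of the
system acts trivially modulo the strongly closed subgroup `D`. -/
theorem exists_pow_mem_modAuts [Finite S] {p : ℕ} [Fact p.Prime] (hS : IsPGroup p S)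
    {F : FusionSystem S} (hF : F.IsSaturated p) {D : Subgroup Ω} (hD : F.StronglyClosed D)
    (hZ : NAutP p F (centerThompsonAOf D)) {P : Subgroup Ω} (hP : P ≤ S) (α : F.autGroup P) :
    ∃ k : ℕ, α ^ p ^ k ∈ Cfsg.Agent.H88.modAuts F D P := by
  have hDS : D ≤ S := hD.1
  haveI : Finite D := finite_of_le hDS
  have hα : Mor F P (autFun P (α : MulAut P)) := (Cfsg.Agent.H86.mem_autGroup_iff hP _).1 α.2
  obtain ⟨f', hf', hmod⟩ := Cfsg.Agent.H88.exists_extension_mod hS hF hD hα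
  have hTS : P ⊔ D ≤ S := sup_le hP hDS
  haveI : Finite ↥(P ⊔ D) := finite_of_le hTS
  have hfD : ∀ x ∈ D, f' x ∈ D := fun x hx =>
    Cfsg.Agent.H88.map_mem_stronglyClosed hD hf' (Subgroup.mem_sup_right hx) hx
  have hfP : ∀ x ∈ P, f' x ∈ P ⊔ D := by
    intro x hx
    have h1 := hmod x hx
    have e : f' x = autFun P (α : MulAut P) x * ((autFun P (α : MulAut P) x)⁻¹ * f' x) := by
      group
    rw [e]
    exact Subgroup.mul_mem_sup (autFun_mem _ hx) h1
  have hfT : ∀ x ∈ P ⊔ D, f' x ∈ P ⊔ D :=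
    Cfsg.Agent.H88.mor_sup_maps hf' hfP (fun x hx => Subgroup.mem_sup_right (hfD x hx))
  have himg : imgS (P ⊔ D) f' = P ⊔ D := imgS_eq_of_maps hf' hfT
  have himgD : imgS D f' = D := imgS_eq_of_maps (hf'.restrict le_sup_right) hfD
  have hα' : mkAut hf' himg ∈ F.autGroup (P ⊔ D) := mkAut_mem hf' himg
  have hUD : centerThompsonAOf D ≤ D := centerThompsonAOf_le D
  have hSN : S ≤ Subgroup.normalizer (centerThompsonAOf D : Set Ω) :=
    (Cfsg.Agent.H88.stronglyClosed_le_normalizer hD).trans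
      (normalizer_le_normalizer_centerThompsonAOf D)
  have hU : ∀ u ∈ centerThompsonAOf D,
      autFun (P ⊔ D) (mkAut hf' himg) u ∈ centerThompsonAOf D := by
    intro u hu
    rw [autFun_mkAut hf' himg (Subgroup.mem_sup_right (hUD hu))]
    have h1 := autFun_mem_centerThompsonAOf (mkAut (hf'.restrict le_sup_right) himgD) hu
    rwa [autFun_mkAut (hf'.restrict le_sup_right) himgD (hUD hu)] at h1
  obtain ⟨k, hk⟩ := hZ (P ⊔ D) (hUD.trans le_sup_right) (le_inf hTS (hTS.trans hSN)) _ hα' hU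
  refine ⟨k, ?_⟩
  intro x
  have hD' : ∀ d ∈ D, autFun (P ⊔ D) (mkAut hf' himg) d ∈ D := by
    intro d hd
    rw [autFun_mkAut hf' himg (Subgroup.mem_sup_right hd)]
    exact hfD d hd
  have hmod' : ∀ x ∈ P, (autFun P (α : MulAut P) x)⁻¹ * autFun (P ⊔ D) (mkAut hf' himg) x ∈ D := by
    intro x hx
    rw [autFun_mkAut hf' himg (Subgroup.mem_sup_left hx)]
    exact hmod x hx
  have h1 := autFun_pow_mod (le_sup_left : P ≤ P ⊔ D) le_sup_right hD' hmod' (p ^ k) x x.2
  rw [hk, autFun_one (Subgroup.mem_sup_left x.2), autFun_apply] at h1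
  have h2 := D.inv_mem h1
  rw [mul_inv_rev, inv_inv] at h2
  have e : (((α ^ p ^ k : F.autGroup P) : MulAut P) x : P) = ((α : MulAut P) ^ p ^ k) x := by
    rw [Subgroup.coe_pow]
  rw [e]
  exact h2

/-- Automorphisms of order prime to `p` act trivially modulo `D`. -/
theorem mem_modAuts_of_coprime [Finite S] {p : ℕ} [Fact p.Prime] (hS : IsPGroup p S)
    {F : FusionSystem S} (hF : F.IsSaturated p) {D : Subgroup Ω} (hD : F.StronglyClosed D)
    (hZ : NAutP p F (centerThompsonAOf D)) {P : Subgroup Ω} (hP : P ≤ S) (α : F.autGroup P)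
    (hα : (orderOf α).Coprime p) : α ∈ Cfsg.Agent.H88.modAuts F D P := by
  obtain ⟨k, hk⟩ := exists_pow_mem_modAuts hS hF hD hZ hP α
  have hcop : (p ^ k).Coprime (orderOf α) := (Nat.Coprime.pow_right k hα).symm
  obtain ⟨m, hm⟩ := exists_pow_eq_self_of_coprime hcop
  rw [← hm]
  exact Subgroup.pow_mem _ hk m

/-- Under the hypothesis on the normalizer of `Z(J(D))`, the hyperfocal subgroup lies in `D`. -/
theorem hyperfocal_le_of_nautP [Finite S] {p : ℕ} [Fact p.Prime] (hS : IsPGroup p S)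
    {F : FusionSystem S} (hF : F.IsSaturated p) {D : Subgroup Ω} (hD : F.StronglyClosed D)
    (hZ : NAutP p F (centerThompsonAOf D)) : F.hyperfocalSubgroup p ≤ D := by
  unfold hyperfocalSubgroup
  rw [Subgroup.closure_le]
  rintro y ⟨P, α, x, hP, hα, rfl⟩
  have hle : pResidual p (F.autGroup P) ≤ Cfsg.Agent.H88.modAuts F D P := by
    unfold pResidual
    rw [Subgroup.closure_le]
    intro β hβ
    exact mem_modAuts_of_coprime hS hF hD hZ hP β hβ
  exact hle hα x

/-- **Glauberman–Thompson for fusion systems relative to a strongly closed subgroup** (`p` odd),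
automorphism form. -/
theorem autP_of_nautP_stronglyClosed [Finite S] {p : ℕ} [Fact p.Prime] (hp : p ≠ 2)
    (hS : IsPGroup p S) {F : FusionSystem S} (hF : F.IsSaturated p) {D : Subgroup Ω}
    (hD : F.StronglyClosed D) (hZ : NAutP p F (centerThompsonAOf D)) : AutP p F := by
  have hDS : D ≤ S := hD.1
  haveI : Finite D := finite_of_le hDS
  have hDp : IsPGroup p D := hS.to_le hDS
  have hhyp := hyperfocal_le_of_nautP hS hF hD hZ
  obtain ⟨E, hE, hsub, hcop, -⟩ := Cfsg.Agent.H87.exists_pPow hS hF hDS hhyp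
  have hZE : NAutP p E (centerThompsonAOf D) := by
    intro T hUT hTN α hα hαU
    have hTD : T ≤ D := hTN.trans inf_le_left
    have hTS : T ≤ S := hTD.trans hDS
    refine hZ T hUT (fun x hx => ⟨hTS hx, (hTN hx).2⟩) α ?_ hαU
    rw [Cfsg.Agent.H86.mem_autGroup_iff hTS]
    obtain ⟨φ, hφ, hφf⟩ := (Cfsg.Agent.H86.mem_autGroup_iff hTD α).1 hα
    exact ⟨φ, hsub T hφ, hφf⟩
  have hEP : AutP p E := autP_of_nautP_centerThompson hp (Nat.card D) hDp E hE rfl hZE
  intro T hT α hα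
  haveI : Finite T := finite_of_le hT
  have hpos : 0 < orderOf α := orderOf_pos α
  obtain ⟨k, m, hm, hkm⟩ := Nat.exists_eq_pow_mul_and_not_dvd hpos.ne' p
    (Fact.out : p.Prime).ne_one
  refine ⟨k, ?_⟩
  have hmcop : m.Coprime p := ((Nat.Prime.coprime_iff_not_dvd Fact.out).2 hm).symm
  obtain ⟨β, hβdef⟩ : ∃ β : MulAut T, β = α ^ p ^ k := ⟨_, rfl⟩
  rw [← hβdef]
  have hβm : β ^ m = 1 := by
    rw [hβdef, ← pow_mul, ← hkm, pow_orderOf_eq_one]
  have hβmem : β ∈ F.autGroup T := hβdef ▸ Subgroup.pow_mem _ hα _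
  have hβcop : (orderOf β).Coprime p :=
    Nat.Coprime.coprime_dvd_left (orderOf_dvd_of_pow_eq_one hβm) hmcop
  -- trivial modulo `D`
  have hmodD : ∀ x ∈ T, x⁻¹ * autFun T β x ∈ T ⊓ D := by
    intro x hx
    have h1 : (⟨β, hβmem⟩ : F.autGroup T) ∈ Cfsg.Agent.H88.modAuts F D T := by
      apply mem_modAuts_of_coprime hS hF hD hZ hT
      have : orderOf (⟨β, hβmem⟩ : F.autGroup T) = orderOf β := by
        rw [← Subgroup.orderOf_coe]
      rw [this]
      exact hβcop
    have h2 := h1 ⟨x, hx⟩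
    refine ⟨T.mul_mem (T.inv_mem hx) (autFun_mem β hx), ?_⟩
    rw [autFun_of_mem β hx]
    exact h2
  -- trivial on `T ⊓ D`
  have hβmor : Mor F T (autFun T β) := (Cfsg.Agent.H86.mem_autGroup_iff hT β).1 hβmem
  have hRS : T ⊓ D ≤ S := inf_le_left.trans hT
  haveI : Finite ↥(T ⊓ D) := finite_of_le hRS
  have hβR : ∀ x ∈ T ⊓ D, autFun T β x ∈ T ⊓ D := fun x hx =>
    ⟨autFun_mem β hx.1, Cfsg.Agent.H88.map_mem_stronglyClosed hD hβmor hx.1 hx.2⟩
  have himgR : imgS (T ⊓ D) (autFun T β) = T ⊓ D :=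
    imgS_eq_of_maps (hβmor.restrict inf_le_left) hβR
  obtain ⟨β₀, hβ₀def⟩ : ∃ β₀ : MulAut ↥(T ⊓ D),
      β₀ = mkAut (hβmor.restrict inf_le_left) himgR := ⟨_, rfl⟩
  have hβ₀F : β₀ ∈ F.autGroup (T ⊓ D) := hβ₀def ▸ mkAut_mem _ himgR
  have hβ₀β : ∀ x ∈ T ⊓ D, autFun (T ⊓ D) β₀ x = autFun T β x := by
    intro x hx
    rw [hβ₀def, autFun_mkAut _ himgR hx]
  have hβ₀m : β₀ ^ m = 1 := pow_eq_one_of_restrict (inf_le_left : T ⊓ D ≤ T) hβ₀β hβm
  have hβ₀cop : (orderOf β₀).Coprime p :=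
    Nat.Coprime.coprime_dvd_left (orderOf_dvd_of_pow_eq_one hβ₀m) hmcop
  have hβ₀E : β₀ ∈ E.autGroup (T ⊓ D) := hcop (T ⊓ D) inf_le_right β₀ hβ₀F hβ₀cop
  obtain ⟨j, hj⟩ := hEP (T ⊓ D) inf_le_right β₀ hβ₀E
  have hβ₀one : β₀ = 1 := by
    have h1 : orderOf β₀ ∣ p ^ j := orderOf_dvd_of_pow_eq_one hj
    have h2 : orderOf β₀ = 1 :=
      Nat.Coprime.eq_one_of_dvd (Nat.Coprime.pow_right j hβ₀cop) h1
    exact orderOf_eq_one_iff.1 h2
  have htriv : ∀ x ∈ T ⊓ D, autFun T β x = x := by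
    intro x hx
    rw [← hβ₀β x hx, hβ₀one, autFun_one hx]
  have hcardpow := pow_card_eq_one_of_triv (inf_le_left : T ⊓ D ≤ T) htriv hmodD
  obtain ⟨i, hi⟩ := (IsPGroup.iff_card.1 (hS.to_le hRS))
  rw [hi] at hcardpow
  have h1 : orderOf β ∣ p ^ i := orderOf_dvd_of_pow_eq_one hcardpow
  have h2 : orderOf β = 1 := Nat.Coprime.eq_one_of_dvd (Nat.Coprime.pow_right i hβcop) h1
  exact orderOf_eq_one_iff.1 h2

end GTStrong

end Cfsg.Agent.H89
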