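import Mathlib
import Cfsg.Agent.H51.Qd
import Cfsg.Agent.H38.QdNat2
import Cfsg.Agent.H52.ThS4
import Cfsg.Agent.H39.Tower

set_option autoImplicit false
set_option linter.unusedVariables false

/-!
# Natural `SL₂(p)`-configurations (helper89)

A *natural configuration* `NatCfg p X T ψ` in a group `Γ`: a subgroup `X` normalizing a subgroup `T`,
and a map `ψ` which is additive and onto `F_p²` on `T`, such that `X` acts on `T` modulo the kernel
of `ψ` as `SL₂(p)` acts on its natural module (every element of `X` acts through some matrix, every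
matrix is realized).  A finite group involving `Qd(p)` has such a configuration with `T` a `p`-group
(`exists_natCfg_of_involves`); conversely for `p` odd such a configuration yields a section `Qd(p)`,
even modulo a normal `p'`-subgroup centralizing `T` (`involves_of_natCfg`).  Configurations can be
conjugated (`NatCfg.conj`) and moved, by a Frattini argument, into the normalizer of a Sylow
`p`-subgroup of `T C(T)` (`NatCfg.frattini`).
-/

namespace Cfsg.Agent.H89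

open Cfsg Cfsg.Agent.H51 Matrix

variable {Γ : Type*} [Group Γ]

local notation "cj(" g ", " Q ")" => Subgroup.map (MulEquiv.toMonoidHom (MulAut.conj g)) Q
local notation "SL2(" p ")" => Matrix.SpecialLinearGroup (Fin 2) (ZMod p)

/-- the action of `m ∈ SL₂(p)` on column vectors -/
def slAct {p : ℕ} (m : Matrix.SpecialLinearGroup (Fin 2) (ZMod p)) (v : Fin 2 → ZMod p) :
    Fin 2 → ZMod p :=
  (m : Matrix (Fin 2) (Fin 2) (ZMod p)).mulVec v

theorem slAct_mul {p : ℕ} (a b : SL2(p)) (v : Fin 2 → ZMod p) :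
    slAct (a * b) v = slAct a (slAct b v) := by
  unfold slAct
  rw [Matrix.mulVec_mulVec]; rfl

theorem slAct_one {p : ℕ} (v : Fin 2 → ZMod p) : slAct (1 : SL2(p)) v = v := by
  unfold slAct
  have : ((1 : SL2(p)) : Matrix (Fin 2) (Fin 2) (ZMod p)) = 1 := rfl
  rw [this, Matrix.one_mulVec]

theorem slAct_zero {p : ℕ} (a : SL2(p)) : slAct a 0 = 0 := by
  unfold slAct; exact Matrix.mulVec_zero _

theorem slAct_ext {p : ℕ} {a b : SL2(p)} (h : ∀ v, slAct a v = slAct b v) : a = b := by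
  apply Subtype.ext
  exact Matrix.mulVec_injective (funext h)

theorem eq_one_of_isPGroup_of_coprime {p : ℕ} {T : Subgroup Γ} (hT : IsPGroup p T) {z : Γ}
    (hz : z ∈ T) (hc : (orderOf z).Coprime p) : z = 1 := by
  obtain ⟨k, hk⟩ := hT ⟨z, hz⟩
  have hk' : z ^ p ^ k = 1 := congrArg Subtype.val hk
  have hdvd : orderOf z ∣ p ^ k := orderOf_dvd_of_pow_eq_one hk'
  have := Nat.Coprime.eq_one_of_dvd (Nat.Coprime.pow_right k hc) hdvd
  exact orderOf_eq_one_iff.1 this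

/-- A natural `SL₂(p)`-configuration. -/
structure NatCfg (p : ℕ) (X T : Subgroup Γ) (ψ : Γ → Fin 2 → ZMod p) : Prop where
  norm : X ≤ Subgroup.normalizer (T : Set Γ)
  add : ∀ t ∈ T, ∀ t' ∈ T, ψ (t * t') = ψ t + ψ t'
  surj : ∀ v : Fin 2 → ZMod p, ∃ t ∈ T, ψ t = v
  act : ∀ x ∈ X, ∃ m : SL2(p), ∀ t ∈ T, ψ (x * t * x⁻¹) = slAct m (ψ t)
  full : ∀ m : SL2(p), ∃ x ∈ X, ∀ t ∈ T, ψ (x * t * x⁻¹) = slAct m (ψ t)

/-- elements normalizing `T` and acting on `T` modulo the kernel of `ψ` through `SL₂(p)` -/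
def actStab (p : ℕ) (T : Subgroup Γ) (ψ : Γ → Fin 2 → ZMod p) : Subgroup Γ where
  carrier := {x | x ∈ Subgroup.normalizer (T : Set Γ) ∧
    ∃ m : SL2(p), ∀ t ∈ T, ψ (x * t * x⁻¹) = slAct m (ψ t)}
  mul_mem' := by
    rintro a b ⟨ha, m, hm⟩ ⟨hb, m', hm'⟩
    refine ⟨Subgroup.mul_mem _ ha hb, m * m', fun t ht => ?_⟩
    have hbt : b * t * b⁻¹ ∈ T := (Subgroup.mem_normalizer_iff.1 hb t).1 ht
    have e : a * b * t * (a * b)⁻¹ = a * (b * t * b⁻¹) * a⁻¹ := by group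
    rw [e, hm _ hbt, hm' t ht, slAct_mul]
  one_mem' := ⟨Subgroup.one_mem _, 1, fun t _ => by rw [one_mul, inv_one, mul_one, slAct_one]⟩
  inv_mem' := by
    rintro a ⟨ha, m, hm⟩
    refine ⟨Subgroup.inv_mem _ ha, m⁻¹, fun t ht => ?_⟩
    have hat : a⁻¹ * t * a ∈ T := by
      have := (Subgroup.mem_normalizer_iff.1 (Subgroup.inv_mem _ ha) t).1 ht
      rwa [inv_inv] at this
    have h1 := hm _ hat
    have e : a * (a⁻¹ * t * a) * a⁻¹ = t := by group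
    rw [e] at h1
    rw [inv_inv, h1, ← slAct_mul, inv_mul_cancel, slAct_one]

/-- elements normalizing `T` and acting trivially on `T` modulo the kernel of `ψ` -/
def actKer (p : ℕ) (T : Subgroup Γ) (ψ : Γ → Fin 2 → ZMod p) : Subgroup Γ where
  carrier := {x | x ∈ Subgroup.normalizer (T : Set Γ) ∧ ∀ t ∈ T, ψ (x * t * x⁻¹) = ψ t}
  mul_mem' := by
    rintro a b ⟨ha, hm⟩ ⟨hb, hm'⟩
    refine ⟨Subgroup.mul_mem _ ha hb, fun t ht => ?_⟩
    have hbt : b * t * b⁻¹ ∈ T := (Subgroup.mem_normalizer_iff.1 hb t).1 ht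
    have e : a * b * t * (a * b)⁻¹ = a * (b * t * b⁻¹) * a⁻¹ := by group
    rw [e, hm _ hbt, hm' t ht]
  one_mem' := ⟨Subgroup.one_mem _, fun t _ => by rw [one_mul, inv_one, mul_one]⟩
  inv_mem' := by
    rintro a ⟨ha, hm⟩
    refine ⟨Subgroup.inv_mem _ ha, fun t ht => ?_⟩
    have hat : a⁻¹ * t * a ∈ T := by
      have := (Subgroup.mem_normalizer_iff.1 (Subgroup.inv_mem _ ha) t).1 ht
      rwa [inv_inv] at this
    have h1 := hm _ hat
    have e : a * (a⁻¹ * t * a) * a⁻¹ = t := by group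
    rw [e] at h1
    rw [inv_inv, h1]

theorem centralizer_le_actKer (p : ℕ) (T : Subgroup Γ) (ψ : Γ → Fin 2 → ZMod p) :
    Subgroup.centralizer (T : Set Γ) ≤ actKer p T ψ := by
  intro x hx
  refine ⟨Subgroup.centralizer_le_normalizer _ hx, fun t ht => ?_⟩
  have := Subgroup.mem_centralizer_iff.1 hx t ht
  rw [← this, mul_inv_cancel_right]

namespace NatCfg

variable {p : ℕ} {X T : Subgroup Γ} {ψ : Γ → Fin 2 → ZMod p}

theorem conj_mem (h : NatCfg p X T ψ) {x t : Γ} (hx : x ∈ X) (ht : t ∈ T) : x * t * x⁻¹ ∈ T :=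
  (Subgroup.mem_normalizer_iff.1 (h.norm hx) t).1 ht

theorem map_one (h : NatCfg p X T ψ) : ψ 1 = 0 := by
  have := h.add 1 T.one_mem 1 T.one_mem
  rw [mul_one] at this
  simpa using this

theorem map_inv (h : NatCfg p X T ψ) {t : Γ} (ht : t ∈ T) : ψ t⁻¹ = - ψ t := by
  have := h.add t ht t⁻¹ (T.inv_mem ht)
  rw [mul_inv_cancel, h.map_one] at this
  exact (neg_eq_of_add_eq_zero_right this.symm).symm

theorem map_conj (h : NatCfg p X T ψ) {s t : Γ} (hs : s ∈ T) (ht : t ∈ T) :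
    ψ (s * t * s⁻¹) = ψ t := by
  rw [h.add _ (T.mul_mem hs ht) _ (T.inv_mem hs), h.add _ hs _ ht, h.map_inv hs]
  abel

theorem map_pow (h : NatCfg p X T ψ) {t : Γ} (ht : t ∈ T) (n : ℕ) : ψ (t ^ n) = n • ψ t := by
  induction n with
  | zero => rw [pow_zero, zero_smul]; exact h.map_one
  | succ k ih => rw [pow_succ, h.add _ (T.pow_mem ht k) _ ht, ih, succ_nsmul]

theorem le_actStab (h : NatCfg p X T ψ) : X ≤ actStab p T ψ :=
  fun x hx => ⟨h.norm hx, h.act x hx⟩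

theorem le_actKer (h : NatCfg p X T ψ) : T ≤ actKer p T ψ :=
  fun x hx => ⟨Subgroup.le_normalizer hx, fun t ht => h.map_conj hx ht⟩

/-- Conjugating a natural configuration. -/
theorem conj (h : NatCfg p X T ψ) (g : Γ) :
    NatCfg p (cj(g, X)) (cj(g, T)) (fun y => ψ (g⁻¹ * y * g)) := by
  have hmem : ∀ {H : Subgroup Γ} {y : Γ}, y ∈ cj(g, H) ↔ g⁻¹ * y * g ∈ H := by
    intro H y
    constructor
    · rintro ⟨a, ha, rfl⟩
      have e : g⁻¹ * (MulAut.conj g).toMonoidHom a * g = a := by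
        show g⁻¹ * (g * a * g⁻¹) * g = a
        group
      rwa [e]
    · intro hy
      refine ⟨g⁻¹ * y * g, hy, ?_⟩
      show g * (g⁻¹ * y * g) * g⁻¹ = y
      group
  refine ⟨?_, ?_, ?_, ?_, ?_⟩
  · intro x hx
    rw [hmem] at hx
    rw [Subgroup.mem_normalizer_iff]
    intro y
    rw [hmem, hmem]
    have := Subgroup.mem_normalizer_iff.1 (h.norm hx) (g⁻¹ * y * g)
    have e : g⁻¹ * (x * y * x⁻¹) * g = (g⁻¹ * x * g) * (g⁻¹ * y * g) * (g⁻¹ * x * g)⁻¹ := by group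
    rw [e]; exact this
  · intro t ht t' ht'
    rw [hmem] at ht ht'
    have e : g⁻¹ * (t * t') * g = (g⁻¹ * t * g) * (g⁻¹ * t' * g) := by group
    show ψ (g⁻¹ * (t * t') * g) = _
    rw [e]; exact h.add _ ht _ ht'
  · intro v
    obtain ⟨t, ht, rfl⟩ := h.surj v
    have e : g⁻¹ * (g * t * g⁻¹) * g = t := by group
    refine ⟨g * t * g⁻¹, hmem.2 (by rwa [e]), ?_⟩
    show ψ (g⁻¹ * (g * t * g⁻¹) * g) = ψ t
    rw [e]
  · intro x hx
    rw [hmem] at hx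
    obtain ⟨m, hm⟩ := h.act _ hx
    refine ⟨m, fun t ht => ?_⟩
    rw [hmem] at ht
    show ψ (g⁻¹ * (x * t * x⁻¹) * g) = slAct m (ψ (g⁻¹ * t * g))
    rw [← hm _ ht]
    congr 1; group
  · intro m
    obtain ⟨x, hx, hxm⟩ := h.full m
    have e : g⁻¹ * (g * x * g⁻¹) * g = x := by group
    refine ⟨g * x * g⁻¹, hmem.2 (by rwa [e]), fun t ht => ?_⟩
    rw [hmem] at ht
    show ψ (g⁻¹ * (g * x * g⁻¹ * t * (g * x * g⁻¹)⁻¹) * g) = slAct m (ψ (g⁻¹ * t * g))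
    rw [← hxm _ ht]
    congr 1; group

/-- Passing to a Sylow `p`-subgroup of `T` and its normalizer in `X`. -/
theorem sylow_reduce [Finite Γ] [Fact p.Prime] (h : NatCfg p X T ψ) (hTX : T ≤ X) :
    ∃ (X' T' : Subgroup Γ), NatCfg p X' T' ψ ∧ IsPGroup p T' ∧ T' ≤ X' := by
  obtain ⟨T', hsyl, -⟩ := Cfsg.Agent.H39.exists_sylIn_ge (p := p) (Q := (⊥ : Subgroup Γ)) (K := T)
    IsPGroup.of_bot bot_le
  obtain ⟨hT'T, hT'p, hidx⟩ := id hsyl
  refine ⟨X ⊓ Subgroup.normalizer (T' : Set Γ), T', ⟨inf_le_right, ?_, ?_, ?_, ?_⟩, hT'p,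
    le_inf (hT'T.trans hTX) Subgroup.le_normalizer⟩
  · exact fun t ht t' ht' => h.add t (hT'T ht) t' (hT'T ht')
  · -- surj
    intro v
    obtain ⟨t₁, ht₁, rfl⟩ := h.surj v
    have hn0 : orderOf t₁ ≠ 0 := (orderOf_pos t₁).ne'
    obtain ⟨a, b, hb, hn⟩ := Nat.exists_eq_pow_mul_and_not_dvd hn0 p (Fact.out : p.Prime).ne_one
    have hb0 : (b : ZMod p) ≠ 0 := by
      rw [Ne, ZMod.natCast_eq_zero_iff]; exact hb
    obtain ⟨c, hc⟩ : ∃ c : ℕ, ((b * c : ℕ) : ZMod p) = 1 := by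
      refine ⟨((b : ZMod p)⁻¹).val, ?_⟩
      rw [Nat.cast_mul, ZMod.natCast_val, ZMod.cast_id', id, mul_inv_cancel₀ hb0]
    have ht' : t₁ ^ (b * c) ∈ T := T.pow_mem ht₁ _
    have hψt' : ψ (t₁ ^ (b * c)) = ψ t₁ := by
      rw [h.map_pow ht₁, ← Nat.cast_smul_eq_nsmul (ZMod p), hc, one_smul]
    have hpow : (t₁ ^ (b * c)) ^ (p ^ a) = 1 := by
      rw [← pow_mul, show b * c * p ^ a = (p ^ a * b) * c by ring, ← hn, pow_mul,
        pow_orderOf_eq_one, one_pow]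
    have hZp : IsPGroup p (Subgroup.zpowers (t₁ ^ (b * c))) := by
      rintro ⟨y, hy⟩
      obtain ⟨i, rfl⟩ := Subgroup.mem_zpowers_iff.1 hy
      refine ⟨a, Subtype.ext ?_⟩
      show ((t₁ ^ (b * c)) ^ i) ^ (p ^ a) = 1
      have e : ((t₁ ^ (b * c)) ^ i) ^ (p ^ a) = ((t₁ ^ (b * c)) ^ (p ^ a)) ^ i := by
        rw [← zpow_natCast, ← _root_.zpow_mul, mul_comm i, _root_.zpow_mul, zpow_natCast]
      rw [e, hpow, _root_.one_zpow]
    have hZT : Subgroup.zpowers (t₁ ^ (b * c)) ≤ T := by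
      rw [Subgroup.zpowers_le]; exact ht'
    obtain ⟨y, hy, hyc⟩ := Cfsg.Agent.H39.exists_conj_mem_of_isPGroup hT'T hT'p hidx hZT hZp
    refine ⟨y * t₁ ^ (b * c) * y⁻¹, hyc _ (Subgroup.mem_zpowers _), ?_⟩
    rw [h.map_conj hy ht', hψt']
  · -- act
    intro x hx
    obtain ⟨m, hm⟩ := h.act x hx.1
    exact ⟨m, fun t ht => hm t (hT'T ht)⟩
  · -- full
    intro m
    obtain ⟨x, hx, hxm⟩ := h.full m
    have hxN : x ∈ Subgroup.normalizer (T : Set Γ) := h.norm hx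
    have h1 : Cfsg.Agent.H39.SylIn p (cj(x, T')) T := by
      have := Cfsg.Agent.H39.sylIn_conjMap hsyl x
      rwa [Cfsg.Agent.H39.conjMap_of_mem_normalizer hxN] at this
    obtain ⟨y, hy, hyT⟩ := Cfsg.Agent.H39.sylIn_conj_eq h1 hsyl
    have hyx : y * x ∈ Subgroup.normalizer (T' : Set Γ) := by
      apply Cfsg.Agent.H39.mem_normalizer_of_conjMap_le
      rw [Cfsg.Agent.H39.conjMap_mul, hyT]
    refine ⟨y * x, ⟨X.mul_mem (hTX hy) hx, hyx⟩, fun t ht => ?_⟩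
    have hxt : x * t * x⁻¹ ∈ T := (Subgroup.mem_normalizer_iff.1 hxN t).1 (hT'T ht)
    have e : y * x * t * (y * x)⁻¹ = y * (x * t * x⁻¹) * y⁻¹ := by group
    rw [e, h.map_conj hy hxt, hxm t (hT'T ht)]

/-- Frattini argument: a natural configuration can be moved into the normalizer of a Sylow
`p`-subgroup `Q` of `T C(T)`. -/
theorem frattini [Finite Γ] [Fact p.Prime] (h : NatCfg p X T ψ) {Q : Subgroup Γ}
    (hQ : Cfsg.Agent.H39.SylIn p Q (T ⊔ Subgroup.centralizer (T : Set Γ))) :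
    NatCfg p (actStab p T ψ ⊓ Subgroup.normalizer (Q : Set Γ)) T ψ := by
  refine ⟨fun x hx => hx.1.1, h.add, h.surj, fun x hx => hx.1.2, fun m => ?_⟩
  obtain ⟨x, hx, hxm⟩ := h.full m
  have hxN : x ∈ Subgroup.normalizer (T : Set Γ) := h.norm hx
  have hC : cj(x, Subgroup.centralizer (T : Set Γ)) = Subgroup.centralizer (T : Set Γ) := by
    apply Cfsg.Agent.H39.conjMap_eq_of_le
    rw [Cfsg.Agent.H39.conjMap_le_iff]
    intro c hc
    rw [Subgroup.mem_centralizer_iff] at hc ⊢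
    intro t ht
    have ht' : x⁻¹ * t * x ∈ T := by
      have := (Subgroup.mem_normalizer_iff.1 (Subgroup.inv_mem _ hxN) t).1 ht
      rwa [inv_inv] at this
    have := hc _ ht'
    calc t * (x * c * x⁻¹) = x * ((x⁻¹ * t * x) * c) * x⁻¹ := by group
      _ = x * (c * (x⁻¹ * t * x)) * x⁻¹ := by rw [this]
      _ = x * c * x⁻¹ * t := by group
  have hE : cj(x, T ⊔ Subgroup.centralizer (T : Set Γ)) = T ⊔ Subgroup.centralizer (T : Set Γ) := by
    rw [Subgroup.map_sup, Cfsg.Agent.H39.conjMap_of_mem_normalizer hxN, hC]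
  have h1 : Cfsg.Agent.H39.SylIn p (cj(x, Q)) (T ⊔ Subgroup.centralizer (T : Set Γ)) := by
    have := Cfsg.Agent.H39.sylIn_conjMap hQ x
    rwa [hE] at this
  obtain ⟨y, hy, hyQ⟩ := Cfsg.Agent.H39.sylIn_conj_eq h1 hQ
  have hyK : y ∈ actKer p T ψ := (sup_le h.le_actKer (centralizer_le_actKer p T ψ)) hy
  have hyx : y * x ∈ Subgroup.normalizer (Q : Set Γ) := by
    apply Cfsg.Agent.H39.mem_normalizer_of_conjMap_le
    rw [Cfsg.Agent.H39.conjMap_mul, hyQ]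
  have hact : ∀ t ∈ T, ψ (y * x * t * (y * x)⁻¹) = slAct m (ψ t) := by
    intro t ht
    have hxt : x * t * x⁻¹ ∈ T := (Subgroup.mem_normalizer_iff.1 hxN t).1 ht
    have e : y * x * t * (y * x)⁻¹ = y * (x * t * x⁻¹) * y⁻¹ := by group
    rw [e, hyK.2 _ hxt, hxm t ht]
  exact ⟨y * x, ⟨⟨Subgroup.mul_mem _ hyK.1 hxN, m, hact⟩, hyx⟩, hact⟩

end NatCfg

theorem transl_conj {R : Type*} [CommRing R] (M N : affSub R) (hN : N ∈ (blockHom R).ker) :
    transl (M * N * M⁻¹) = (blockA M : Matrix (Fin 2) (Fin 2) R).mulVec (transl N) := by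
  have hN' : blockA N = 1 := by rwa [MonoidHom.mem_ker, blockHom_apply] at hN
  have h1 := transl_mul (M * N) M⁻¹
  have h2 := transl_mul M N
  have h3 := transl_mul M M⁻¹
  rw [mul_inv_cancel, transl_one] at h3
  have h4 : blockA (M * N) = blockA M := by rw [blockA_mul, hN', mul_one]
  have h5 : (blockA M : Matrix (Fin 2) (Fin 2) R).mulVec (transl M⁻¹) = - transl M :=
    eq_neg_of_add_eq_zero_left h3.symm
  rw [h1, h4, h2, h5]; abel

/-- A subgroup with a quotient `Qd(p)` (in affine form) carries a natural configuration. -/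
theorem natCfg_of_surj {p : ℕ} (K : Subgroup Γ) (π : K →* affSub (ZMod p))
    (hπ : Function.Surjective π) :
    ∃ (T : Subgroup Γ) (ψ : Γ → Fin 2 → ZMod p), T ≤ K ∧ NatCfg p K T ψ := by
  classical
  obtain ⟨ψ, hψ⟩ : ∃ ψ : Γ → Fin 2 → ZMod p, ∀ (g : Γ) (hg : g ∈ K), ψ g = transl (π ⟨g, hg⟩) :=
    ⟨fun g => if hg : g ∈ K then transl (π ⟨g, hg⟩) else 0, fun g hg => dif_pos hg⟩
  obtain ⟨N, hN⟩ : ∃ N : Subgroup K, ∀ k : K, k ∈ N ↔ blockA (π k) = 1 :=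
    ⟨((blockHom (ZMod p)).comp π).ker, fun k => by rw [MonoidHom.mem_ker]; rfl⟩
  have hNn : ∀ (k : K), k ∈ N → ∀ x : K, x * k * x⁻¹ ∈ N := by
    intro k hk x
    rw [hN] at hk ⊢
    rw [map_mul, map_mul, map_inv, blockA_mul, blockA_mul, hk, mul_one, ← blockA_mul,
      mul_inv_cancel, blockA_one]
  have hmem : ∀ g : Γ, g ∈ N.map K.subtype ↔ ∃ hg : g ∈ K, (⟨g, hg⟩ : K) ∈ N := by
    intro g
    constructor
    · rintro ⟨k, hk, rfl⟩; exact ⟨k.2, hk⟩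
    · rintro ⟨hg, hk⟩; exact ⟨⟨g, hg⟩, hk, rfl⟩
  have hker : ∀ k : K, k ∈ N → π k ∈ (blockHom (ZMod p)).ker := by
    intro k hk
    rw [MonoidHom.mem_ker, blockHom_apply]; exact (hN k).1 hk
  refine ⟨N.map K.subtype, ψ, ?_, ?_, ?_, ?_, ?_, ?_⟩
  · rintro _ ⟨k, -, rfl⟩; exact k.2
  · -- norm
    intro x hx
    rw [Subgroup.mem_normalizer_iff]
    intro g
    rw [hmem, hmem]
    constructor
    · rintro ⟨hg, hk⟩
      exact ⟨K.mul_mem (K.mul_mem hx hg) (K.inv_mem hx), hNn _ hk ⟨x, hx⟩⟩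
    · rintro ⟨hg, hk⟩
      have hgK : g ∈ K := by
        have := K.mul_mem (K.mul_mem (K.inv_mem hx) hg) hx
        have e : x⁻¹ * (x * g * x⁻¹) * x = g := by group
        rwa [e] at this
      refine ⟨hgK, ?_⟩
      have := hNn _ hk (⟨x, hx⟩ : K)⁻¹
      have e : (⟨x, hx⟩ : K)⁻¹ * ⟨x * g * x⁻¹, hg⟩ * ((⟨x, hx⟩ : K)⁻¹)⁻¹ = ⟨g, hgK⟩ := by
        apply Subtype.ext
        show x⁻¹ * (x * g * x⁻¹) * (x⁻¹)⁻¹ = g
        group
      rwa [e] at this
  · -- add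
    intro t ht t' ht'
    obtain ⟨htK, hk⟩ := (hmem t).1 ht
    obtain ⟨htK', hk'⟩ := (hmem t').1 ht'
    rw [hψ _ (K.mul_mem htK htK'), hψ _ htK, hψ _ htK']
    have e : (⟨t * t', K.mul_mem htK htK'⟩ : K) = ⟨t, htK⟩ * ⟨t', htK'⟩ := rfl
    rw [e, map_mul, transl_mul_of_ker (hker _ hk), add_comm]
  · -- surj
    intro v
    obtain ⟨k, hk⟩ := hπ (mkAff 1 v)
    refine ⟨k, (hmem _).2 ⟨k.2, (hN _).2 (by rw [hk, blockA_mkAff])⟩, ?_⟩
    rw [hψ _ k.2, Subtype.coe_eta, hk, transl_mkAff]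
  · -- act
    intro x hx
    refine ⟨blockA (π ⟨x, hx⟩), fun t ht => ?_⟩
    obtain ⟨htK, hk⟩ := (hmem t).1 ht
    rw [hψ _ (K.mul_mem (K.mul_mem hx htK) (K.inv_mem hx)), hψ _ htK]
    have e : (⟨x * t * x⁻¹, K.mul_mem (K.mul_mem hx htK) (K.inv_mem hx)⟩ : K) =
        ⟨x, hx⟩ * ⟨t, htK⟩ * (⟨x, hx⟩ : K)⁻¹ := rfl
    rw [e, map_mul, map_mul, map_inv, transl_conj _ _ (hker _ hk)]
    rfl
  · -- full
    intro m
    obtain ⟨k, hk⟩ := hπ (mkAff m 0)
    refine ⟨k, k.2, fun t ht => ?_⟩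
    obtain ⟨htK, hkt⟩ := (hmem t).1 ht
    rw [hψ _ (K.mul_mem (K.mul_mem k.2 htK) (K.inv_mem k.2)), hψ _ htK]
    have e : (⟨(k : Γ) * t * (k : Γ)⁻¹, K.mul_mem (K.mul_mem k.2 htK) (K.inv_mem k.2)⟩ : K) =
        k * ⟨t, htK⟩ * k⁻¹ := rfl
    rw [e, map_mul, map_mul, map_inv, transl_conj _ _ (hker _ hkt), hk, blockA_mkAff]
    rfl

/-- A finite group involving `Qd(p)` has a natural configuration on a `p`-subgroup. -/
theorem exists_natCfg_of_involves [Finite Γ] {p : ℕ} [Fact p.Prime]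
    (h : Cfsg.Involves ↥(Cfsg.qd p) Γ) :
    ∃ (X T : Subgroup Γ) (ψ : Γ → Fin 2 → ZMod p), NatCfg p X T ψ ∧ IsPGroup p T ∧ T ≤ X := by
  obtain ⟨K, R, hn, ⟨e⟩⟩ := h
  haveI := hn
  obtain ⟨T₁, ψ, hT₁K, hcfg⟩ := natCfg_of_surj K
    ((MulEquiv.subgroupCongr (qd_eq p)).toMonoidHom.comp
      (e.toMonoidHom.comp (QuotientGroup.mk' (R.subgroupOf K))))
    ((MulEquiv.subgroupCongr (qd_eq p)).surjective.comp
      (e.surjective.comp (QuotientGroup.mk'_surjective _)))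
  obtain ⟨X', T', h', hp, hle⟩ := hcfg.sylow_reduce hT₁K
  exact ⟨X', T', ψ, h', hp, hle⟩

end Cfsg.Agent.H89
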