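import Cfsg.Agent.H89.QdInv
import Cfsg.Agent.H89.Normalizer
import Cfsg.Agent.H87.Syl
import Cfsg.Agent.H87.ModelUnique
import Cfsg.Agent.H29.FacModel
import Cfsg.Agent.H89.RealQuot

set_option autoImplicit false
set_option linter.unusedVariables false
set_option maxHeartbeats 1000000

/-!
# `Qd(p)`-freeness of the fusion system of a group (helper89)

For a finite group `G` with Sylow `p`-subgroup `P` and a fully normalized centric subgroup `Q` of
`F_P(G)`, the group `N_G(Q)/O_{p'}(N_G(Q))` is a model of `N_F(Q)` (`exists_group_model`).  Hence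
`F_P(G)` is `H`-free when `G` is (`sectionFree_of_not_involves`), and for `p` odd a group involving
`Qd(p)` has a fusion system that is not `Qd(p)`-free (`not_sectionFree_of_involves`).
-/

namespace Cfsg.Agent.H89

open Cfsg Cfsg.FusionSystem

universe u

local notation "cj(" g ", " Q ")" => Subgroup.map (MulEquiv.toMonoidHom (MulAut.conj g)) Q

theorem actKer_le_actStab {Γ : Type*} [Group Γ] (p : ℕ) (T : Subgroup Γ) (ψ : Γ → Fin 2 → ZMod p) :
    actKer p T ψ ≤ actStab p T ψ :=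
  fun x hx => ⟨hx.1, 1, fun t ht => by rw [hx.2 t ht, slAct_one]⟩

section general

variable {Ω : Type*} [Group Ω] {S : Subgroup Ω}

/-- Realization passes to a quotient by a normal `p'`-subgroup, in the form of a surjection. -/
theorem isRealizedBy_of_surjective {F : FusionSystem S} {p : ℕ} [Fact p.Prime] (hS : IsPGroup p S)
    {L : Type*} [Group L] [Finite L] {ι : S →* L} (h : F.IsRealizedBy ι) {M : Type*} [Group M]
    (π : L →* M) (hπ : Function.Surjective π) (hK : (Nat.card π.ker).Coprime p) :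
    F.IsRealizedBy (π.comp ι) := by
  have h1 := rq_isRealizedBy_quotient hS h π.ker hK
  obtain ⟨e, he⟩ : ∃ e : L ⧸ π.ker ≃* M, ∀ x : L, e (QuotientGroup.mk' π.ker x) = π x :=
    ⟨QuotientGroup.quotientKerEquivOfSurjective π hπ, fun x => rfl⟩
  refine ⟨?_, fun P hP φ hφ => ?_⟩
  · intro a b hab
    apply h1.1
    apply e.injective
    show e (QuotientGroup.mk' π.ker (ι a)) = e (QuotientGroup.mk' π.ker (ι b))
    rw [he, he]; exact hab
  · rw [h1.2 P hP φ hφ]
    constructor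
    · rintro ⟨g, hg⟩
      refine ⟨e g, fun x => ?_⟩
      have := congrArg e (hg x)
      rw [map_mul, map_mul, map_inv] at this
      simp only [MonoidHom.comp_apply, he] at this ⊢
      exact this
    · rintro ⟨m, hm⟩
      refine ⟨e.symm m, fun x => ?_⟩
      apply e.injective
      rw [map_mul, map_mul, map_inv, e.apply_symm_apply]
      have := hm x
      simp only [MonoidHom.comp_apply, he] at this ⊢
      exact this

/-- A homomorphism injective on a Sylow `p`-subgroup has kernel of order prime to `p`. -/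
theorem card_ker_coprime_of_inj_sylow {L : Type*} [Group L] [Finite L] {p : ℕ} [Fact p.Prime]
    (TL : Sylow p L) {M : Type*} [Group M] (π : L →* M)
    (hinj : ∀ t ∈ (TL : Subgroup L), π t = 1 → t = 1) : (Nat.card π.ker).Coprime p := by
  rw [Nat.coprime_comm, Nat.Prime.coprime_iff_not_dvd Fact.out]
  intro hdvd
  obtain ⟨x, hx⟩ := exists_prime_orderOf_dvd_card' p hdvd
  have hxL : orderOf (x : L) = p := by rw [Subgroup.orderOf_coe, hx]
  have hxp : IsPGroup p (Subgroup.zpowers (x : L)) := by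
    apply IsPGroup.of_card (n := 1)
    rw [Nat.card_zpowers, hxL, pow_one]
  obtain ⟨R, hR⟩ := hxp.exists_le_sylow
  obtain ⟨g, hg⟩ := MulAction.exists_smul_eq L R TL
  have h1 : g * (x : L) * g⁻¹ ∈ (TL : Subgroup L) := by
    rw [← hg, Sylow.coe_subgroup_smul]
    exact ⟨x, hR (Subgroup.mem_zpowers _), rfl⟩
  have h2 : π (g * (x : L) * g⁻¹) = 1 := by
    rw [map_mul, map_mul, map_inv, MonoidHom.mem_ker.1 x.2, mul_one, mul_inv_cancel]
  have h3 := hinj _ h1 h2
  have h4 : (x : L) = 1 := by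
    have : (x : L) = g⁻¹ * (g * x * g⁻¹) * g := by group
    rw [this, h3]; group
  rw [h4, orderOf_one] at hxL
  exact (Fact.out : p.Prime).one_lt.ne hxL

end general

variable {G : Type u} [Group G]

/-- `N_G(Q)` realizes `N_F(Q)` on `N_S(Q)`, for `F = F_S(G)`. -/
theorem normalizer_realizes {S Q : Subgroup G} (hQS : Q ≤ S)
    {N : FusionSystem (normalizerIn S Q)} (hN : (groupFusionSystem S).IsNormalizerSystem Q N) :
    N.IsRealizedBy (Subgroup.inclusion
      (inf_le_right : normalizerIn S Q ≤ Subgroup.normalizer (Q : Set G))) := by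
  refine ⟨Subgroup.inclusion_injective _, fun A hA φ hφ => ?_⟩
  rw [hN A]
  constructor
  · rintro ⟨-, -, -, ψ, ⟨hAQ, hψS, g, hg⟩, hψφ, hψQ⟩
    have hgN : g ∈ Subgroup.normalizer (Q : Set G) := by
      rw [Subgroup.mem_normalizer_iff]
      intro q
      constructor
      · intro hq
        have h1 : ψ ⟨q, Subgroup.mem_sup_right hq⟩ ∈ (Q.subgroupOf (A ⊔ Q)).map ψ :=
          ⟨_, Subgroup.mem_subgroupOf.2 hq, rfl⟩
        rw [hψQ, hg] at h1
        exact h1
      · intro hq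
        rw [← hψQ] at hq
        obtain ⟨y, hy, hyq⟩ := hq
        rw [hg] at hyq
        have : (y : G) = q := mul_left_cancel (mul_right_cancel hyq)
        rw [← this]; exact Subgroup.mem_subgroupOf.1 hy
    refine ⟨⟨g, hgN⟩, fun x => Subtype.ext ?_⟩
    show φ x = g * (x : G) * g⁻¹
    rw [← hψφ x, hg]
    rfl
  · rintro ⟨g, hg⟩
    have hg' : ∀ x : A, φ x = (g : G) * (x : G) * (g : G)⁻¹ :=
      fun x => congrArg Subtype.val (hg x)
    have hgN := g.2
    have hgQ : ∀ q ∈ Q, (g : G) * q * (g : G)⁻¹ ∈ Q :=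
      fun q hq => (Subgroup.mem_normalizer_iff.1 hgN q).1 hq
    refine ⟨⟨hA.trans inf_le_left, fun x => (hφ x).1, g, hg'⟩, hA, hφ, conjHom (A ⊔ Q) (g : G),
      ⟨sup_le (hA.trans inf_le_left) hQS, ?_, g, fun x => rfl⟩, fun x => (hg' x).symm, ?_⟩
    · exact sup_values_mem _ S
        (fun x => by
          show (g : G) * (x : G) * (g : G)⁻¹ ∈ S
          rw [← hg' x]; exact (hφ x).1)
        (fun x => hQS (hgQ x x.2))
    · rw [map_subgroupOf_eq_iff le_sup_right]
      refine ⟨fun q => hgQ q q.2, fun y hy => ?_⟩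
      have hy' : (g : G)⁻¹ * y * (g : G) ∈ Q := by
        have := (Subgroup.mem_normalizer_iff.1 (Subgroup.inv_mem _ hgN) y).1 hy
        rwa [inv_inv] at this
      refine ⟨⟨_, hy'⟩, ?_⟩
      show (g : G) * ((g : G)⁻¹ * y * (g : G)) * (g : G)⁻¹ = y
      group

/-- In `F_P(G)`, a fully normalized subgroup `Q` has `N_P(Q)` Sylow in `N_G(Q)`. -/
theorem isSylIn_normalizerIn_of_fullyNormalized [Finite G] {p : ℕ} [Fact p.Prime] (P : Sylow p G)
    {Q : Subgroup G} (hQ : (groupFusionSystem (P : Subgroup G)).IsFullyNormalized Q) :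
    Cfsg.Agent.H87.IsSylIn p (normalizerIn (P : Subgroup G) Q)
      (Subgroup.normalizer (Q : Set G)) := by
  obtain ⟨g, hgS, hsyl⟩ := Cfsg.Agent.H87.exists_conj_normalizerIn_sylow P Q hQ.1
  have hconj : (groupFusionSystem (P : Subgroup G)).IsConj Q (cj(g, Q)) :=
    Cfsg.Agent.H87.groupFusionSystem_isConj_iff.2 ⟨hQ.1, hgS, g, rfl⟩
  have hle := hQ.2 _ hconj
  have hcard := (Cfsg.Agent.H87.isSylIn_iff_card
    (Cfsg.Agent.H87.normalizerIn_le_normalizer _ _)).1 hsyl
  rw [Cfsg.Agent.H87.normalizer_map_conj, Cfsg.Agent.H87.card_map_conj] at hcard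
  have hNp : IsPGroup p (normalizerIn (P : Subgroup G) Q) := P.isPGroup'.to_le inf_le_left
  refine Cfsg.Agent.H87.isSylIn_of_card_le (Cfsg.Agent.H87.normalizerIn_le_normalizer _ _) hNp ?_
  obtain ⟨k, hk⟩ := IsPGroup.iff_card.mp hNp
  rw [hcard, hk] at hle
  rw [hk]
  exact pow_dvd_pow p ((Nat.pow_le_pow_iff_right (Fact.out : p.Prime).one_lt).1 hle)

/-- In `F_P(G)`, a subgroup `Q ≤ P` with `N_P(Q)` Sylow in `N_G(Q)` is fully normalized. -/
theorem fullyNormalized_of_isSylIn [Finite G] {p : ℕ} [Fact p.Prime] (P : Sylow p G)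
    {Q : Subgroup G} (hQP : Q ≤ (P : Subgroup G))
    (h : Cfsg.Agent.H87.IsSylIn p (normalizerIn (P : Subgroup G) Q)
      (Subgroup.normalizer (Q : Set G))) :
    (groupFusionSystem (P : Subgroup G)).IsFullyNormalized Q := by
  refine ⟨hQP, fun Q' hconj => ?_⟩
  obtain ⟨-, hQ'S, g, rfl⟩ := Cfsg.Agent.H87.groupFusionSystem_isConj_iff.1 hconj
  have hcard := (Cfsg.Agent.H87.isSylIn_iff_card
    (Cfsg.Agent.H87.normalizerIn_le_normalizer _ _)).1 h
  have hNp : IsPGroup p (normalizerIn (P : Subgroup G) (cj(g, Q))) :=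
    P.isPGroup'.to_le inf_le_left
  have hdvd := Cfsg.Agent.H87.card_dvd_of_isPGroup_le
    (Cfsg.Agent.H87.normalizerIn_le_normalizer (P : Subgroup G) (cj(g, Q))) hNp
  rw [Cfsg.Agent.H87.normalizer_map_conj, Cfsg.Agent.H87.card_map_conj, ← hcard] at hdvd
  exact Nat.le_of_dvd Nat.card_pos hdvd

/-- In `F_P(G)`, a Sylow `p`-subgroup `Q ≤ P` of `T C_G(T)` is centric. -/
theorem isCentric_of_sylIn [Finite G] {p : ℕ} [Fact p.Prime] (P : Sylow p G) {T Q : Subgroup G}
    (hQP : Q ≤ (P : Subgroup G)) (hTQ : T ≤ Q)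
    (hQ : Cfsg.Agent.H39.SylIn p Q (T ⊔ Subgroup.centralizer (T : Set G))) :
    (groupFusionSystem (P : Subgroup G)).IsCentric Q := by
  refine ⟨hQP, fun Q' hconj => ?_⟩
  obtain ⟨-, hQ'S, g, rfl⟩ := Cfsg.Agent.H87.groupFusionSystem_isConj_iff.1 hconj
  intro c hc
  have hcS : c ∈ (P : Subgroup G) := hc.1
  have hcC : c ∈ Subgroup.centralizer ((cj(g, Q) : Subgroup G) : Set G) := hc.2
  have hc₀ : g⁻¹ * c * g ∈ Subgroup.centralizer (Q : Set G) := by
    rw [Subgroup.mem_centralizer_iff]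
    intro q hq
    have h1 := Subgroup.mem_centralizer_iff.1 hcC (g * q * g⁻¹) ⟨q, hq, rfl⟩
    calc q * (g⁻¹ * c * g) = g⁻¹ * ((g * q * g⁻¹) * c) * g := by group
      _ = g⁻¹ * (c * (g * q * g⁻¹)) * g := by rw [h1]
      _ = g⁻¹ * c * g * q := by group
  have hZp : IsPGroup p (Subgroup.zpowers (g⁻¹ * c * g)) := by
    have h1 : IsPGroup p (cj(g⁻¹, (P : Subgroup G))) := P.isPGroup'.map _
    refine h1.to_le ?_
    rw [Subgroup.zpowers_le]
    refine ⟨c, hcS, ?_⟩
    show g⁻¹ * c * g⁻¹⁻¹ = g⁻¹ * c * g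
    rw [inv_inv]
  have hZC : Subgroup.zpowers (g⁻¹ * c * g) ≤ Subgroup.centralizer (Q : Set G) := by
    rw [Subgroup.zpowers_le]; exact hc₀
  have hRp : IsPGroup p (Q ⊔ Subgroup.zpowers (g⁻¹ * c * g) : Subgroup G) :=
    IsPGroup.to_sup_of_normal_left' hQ.2.1 hZp
      (hZC.trans (Subgroup.centralizer_le_normalizer _))
  have hRE : Q ⊔ Subgroup.zpowers (g⁻¹ * c * g) ≤ T ⊔ Subgroup.centralizer (T : Set G) :=
    sup_le hQ.1 ((hZC.trans (Subgroup.centralizer_le hTQ)).trans le_sup_right)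
  have hReq := hQ.eq_of_le le_sup_left hRE hRp
  have hc₀Q : g⁻¹ * c * g ∈ Q := by
    rw [← hReq]
    exact Subgroup.mem_sup_right (Subgroup.mem_zpowers _)
  exact Cfsg.Agent.H87.mem_map_conj.2 hc₀Q

/-- The kernel of a homomorphism from `N_G(Q)` with `p'`-kernel consists of `p'`-elements
centralizing the `p`-group `Q`. -/
theorem ker_coprime_centralizes {p : ℕ} {Q : Subgroup G} (hQp : IsPGroup p Q)
    {M : Type*} [Group M] (π : ↥(Subgroup.normalizer (Q : Set G)) →* M)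
    (hK : (Nat.card π.ker).Coprime p) (x : ↥(Subgroup.normalizer (Q : Set G))) (hx : π x = 1) :
    (orderOf (x : G)).Coprime p ∧ ∀ t ∈ Q, (x : G) * t = t * x := by
  have key : ∀ y : ↥(Subgroup.normalizer (Q : Set G)), π y = 1 → (orderOf (y : G)).Coprime p := by
    intro y hy
    have h1 : orderOf (⟨y, MonoidHom.mem_ker.2 hy⟩ : π.ker) ∣ Nat.card π.ker :=
      orderOf_dvd_natCard _
    have h2 : orderOf (⟨y, MonoidHom.mem_ker.2 hy⟩ : π.ker) = orderOf (y : G) := by
      rw [← Subgroup.orderOf_coe, ← Subgroup.orderOf_coe]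
    rw [h2] at h1
    exact Nat.Coprime.coprime_dvd_left h1 hK
  refine ⟨key x hx, fun t ht => ?_⟩
  have htN : t ∈ Subgroup.normalizer (Q : Set G) := Subgroup.le_normalizer ht
  have hc1 : π (x * ((⟨t, htN⟩ : ↥(Subgroup.normalizer (Q : Set G))) * x⁻¹ * ⟨t, htN⟩⁻¹)) = 1 := by
    rw [map_mul, map_mul, map_mul, map_inv, map_inv, hx]; group
  have hc2 := key _ hc1
  have hcQ : (x : G) * (t * (x : G)⁻¹ * t⁻¹) ∈ Q := by
    have h3 : (x : G) * t * (x : G)⁻¹ ∈ Q := (Subgroup.mem_normalizer_iff.1 x.2 t).1 ht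
    have e : (x : G) * (t * (x : G)⁻¹ * t⁻¹) = ((x : G) * t * (x : G)⁻¹) * t⁻¹ := by group
    rw [e]; exact Q.mul_mem h3 (Q.inv_mem ht)
  have hc3 : (x : G) * (t * (x : G)⁻¹ * t⁻¹) = 1 := eq_one_of_isPGroup_of_coprime hQp hcQ hc2
  calc (x : G) * t = ((x : G) * (t * (x : G)⁻¹ * t⁻¹)) * (t * x) := by group
    _ = t * x := by rw [hc3, one_mul]

/-- The model of `N_F(Q)` for a fully normalized centric subgroup `Q` of `F = F_P(G)`: a quotient
of `N_G(Q)` by a normal `p'`-subgroup. -/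
theorem exists_group_model [Finite G] {p : ℕ} [Fact p.Prime] (P : Sylow p G) {Q : Subgroup G}
    (hfn : (groupFusionSystem (P : Subgroup G)).IsFullyNormalized Q)
    (hc : (groupFusionSystem (P : Subgroup G)).IsCentric Q) :
    ∃ (M : Type u) (_ : Group M) (π : ↥(Subgroup.normalizer (Q : Set G)) →* M),
      Function.Surjective π ∧ (Nat.card π.ker).Coprime p ∧
      ∀ N : FusionSystem (normalizerIn (P : Subgroup G) Q),
        (groupFusionSystem (P : Subgroup G)).IsNormalizerSystem Q N →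
        N.IsModel p M (π.comp (Subgroup.inclusion
          (inf_le_right : normalizerIn (P : Subgroup G) Q ≤ Subgroup.normalizer (Q : Set G)))) := by
  have hQS : Q ≤ (P : Subgroup G) := hfn.1
  obtain ⟨TL, hTL⟩ := isSylIn_normalizerIn_of_fullyNormalized P hfn
  have hmemTL : ∀ t : ↥(Subgroup.normalizer (Q : Set G)),
      t ∈ (TL : Subgroup _) ↔ (t : G) ∈ (P : Subgroup G) := by
    intro t
    rw [hTL, Subgroup.mem_subgroupOf]
    exact ⟨fun h => h.1, fun h => ⟨h, t.2⟩⟩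
  have hA : (Q.subgroupOf (Subgroup.normalizer (Q : Set G))).Normal :=
    Subgroup.normal_in_normalizer
  have hB : (⊥ : Subgroup ↥(Subgroup.normalizer (Q : Set G))).Normal := inferInstance
  have hAT : Q.subgroupOf (Subgroup.normalizer (Q : Set G)) ≤ (TL : Subgroup _) := by
    intro t ht
    rw [hmemTL]
    exact hQS (Subgroup.mem_subgroupOf.1 ht)
  have hQQ : (groupFusionSystem (P : Subgroup G)).IsConj Q Q :=
    Cfsg.Agent.H87.groupFusionSystem_isConj_iff.2 ⟨hQS, hQS, 1, by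
      ext y
      rw [Cfsg.Agent.H87.mem_map_conj]
      simp⟩
  have hcen : ∀ t ∈ (TL : Subgroup ↥(Subgroup.normalizer (Q : Set G))),
      (∀ a ∈ Q.subgroupOf (Subgroup.normalizer (Q : Set G)),
        t * a * t⁻¹ * a⁻¹ ∈ (⊥ : Subgroup ↥(Subgroup.normalizer (Q : Set G)))) →
      t ∈ Q.subgroupOf (Subgroup.normalizer (Q : Set G)) := by
    intro t ht hta
    rw [Subgroup.mem_subgroupOf]
    apply hc.2 Q hQQ
    refine Cfsg.Agent.H87.mem_centralizerIn.2 ⟨(hmemTL t).1 ht, ?_⟩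
    rw [Subgroup.mem_centralizer_iff]
    intro q hq
    have h1 := hta ⟨q, Subgroup.le_normalizer hq⟩ (Subgroup.mem_subgroupOf.2 hq)
    rw [Subgroup.mem_bot] at h1
    have h2 : (t : G) * q * (t : G)⁻¹ * q⁻¹ = 1 := congrArg Subtype.val h1
    calc q * (t : G) = ((t : G) * q * (t : G)⁻¹ * q⁻¹)⁻¹ * ((t : G) * q) := by group
      _ = (t : G) * q := by rw [h2, inv_one, one_mul]
  obtain ⟨M, _, hMf, π, hπs, -, hπinj, hchar⟩ :=
    Cfsg.Agent.H29.MS.quotient_model_aux TL (Q.subgroupOf (Subgroup.normalizer (Q : Set G))) ⊥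
      hA hB hAT hcen
  have hK : (Nat.card π.ker).Coprime p := card_ker_coprime_of_inj_sylow TL π (fun t ht h1 => by
    have := hπinj t ht h1
    rwa [Subgroup.mem_bot] at this)
  refine ⟨M, inferInstance, π, hπs, hK, fun N hN => ?_⟩
  have hNp : IsPGroup p ↥(normalizerIn (P : Subgroup G) Q) := P.isPGroup'.to_le inf_le_left
  refine ⟨hMf, isRealizedBy_of_surjective hNp (normalizer_realizes hQS hN) π hπs hK,
    ⟨TL.mapSurjective hπs, ?_⟩, hchar⟩
  rw [Sylow.coe_mapSurjective, MonoidHom.range_comp, hTL]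
  congr 1
  ext y
  rw [Subgroup.mem_subgroupOf]
  constructor
  · intro hy
    exact ⟨⟨y, hy⟩, rfl⟩
  · rintro ⟨z, rfl⟩
    exact z.2

/-- If `G` does not involve `H`, neither does any model of a local subsystem of `F_P(G)`. -/
theorem sectionFree_of_not_involves [Finite G] {p : ℕ} [Fact p.Prime] (P : Sylow p G)
    {H : Type*} [Group H] (h : ¬ Cfsg.Involves H G) :
    (groupFusionSystem (P : Subgroup G)).IsSectionFree p H := by
  intro Q hfn hc N hN L _ ι hL hinv
  obtain ⟨M, _, π, hπs, hK, hmodel⟩ := exists_group_model P hfn hc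
  have hM := hmodel N hN
  have hNp : IsPGroup p ↥(normalizerIn (P : Subgroup G) Q) := P.isPGroup'.to_le inf_le_left
  obtain ⟨e, -⟩ := Cfsg.Agent.H87.model_unique p hNp N (Cfsg.Agent.H87.constrained_of_model hM)
    ι _ hL hM
  have h1 : Cfsg.Involves H M :=
    Cfsg.Agent.H52.involves_of_injective e.toMonoidHom e.injective hinv
  have h2 : Cfsg.Involves H ↥(Subgroup.normalizer (Q : Set G)) :=
    Cfsg.Agent.H52.involves_of_surjective π hπs h1
  exact h (Cfsg.Agent.H52.involves_of_injective (Subgroup.normalizer (Q : Set G)).subtype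
    (Subgroup.subtype_injective _) h2)

/-- For `p` odd, the fusion system of a group involving `Qd(p)` is not `Qd(p)`-free. -/
theorem not_sectionFree_of_involves [Finite G] {p : ℕ} [Fact p.Prime] (hp2 : p ≠ 2)
    (P : Sylow p G) (hinv : Cfsg.Involves ↥(Cfsg.qd p) G)
    (hfree : (groupFusionSystem (P : Subgroup G)).IsSectionFree p ↥(Cfsg.qd p)) : False := by
  obtain ⟨X, T, ψ, hcfg, hTp, hTX⟩ := exists_natCfg_of_involves hinv
  obtain ⟨Q₁, hQ₁syl, hTQ₁⟩ := Cfsg.Agent.H39.exists_sylIn_ge (p := p) (Q := T)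
    (K := T ⊔ Subgroup.centralizer (T : Set G)) hTp le_sup_left
  obtain ⟨g₁, hg₁⟩ : ∃ g₁ : G, cj(g₁, Q₁) ≤ (P : Subgroup G) := by
    obtain ⟨g, -, hg⟩ := Cfsg.Agent.H39.exists_conj_mem_of_isPGroup
      (le_top : (P : Subgroup G) ≤ ⊤) P.isPGroup'
      (by rw [Subgroup.relIndex_top_right]; exact P.not_dvd_index) (le_top : Q₁ ≤ ⊤) hQ₁syl.2.1
    exact ⟨g, Cfsg.Agent.H39.conjMap_le_iff.2 hg⟩
  obtain ⟨g₂, hg₂S, hg₂syl⟩ := Cfsg.Agent.H87.exists_conj_normalizerIn_sylow P _ hg₁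
  rw [← Cfsg.Agent.H39.conjMap_mul] at hg₂S hg₂syl
  obtain ⟨g, hgdef⟩ : ∃ g, g = g₂ * g₁ := ⟨_, rfl⟩
  rw [← hgdef] at hg₂S hg₂syl
  have hcfg' := hcfg.conj g
  have hT'Q : cj(g, T) ≤ cj(g, Q₁) := Subgroup.map_mono hTQ₁
  have hQsyl : Cfsg.Agent.H39.SylIn p (cj(g, Q₁))
      (cj(g, T) ⊔ Subgroup.centralizer ((cj(g, T) : Subgroup G) : Set G)) := by
    have := Cfsg.Agent.H39.sylIn_conjMap hQ₁syl g
    rwa [Subgroup.map_sup, ← Cfsg.Agent.H87.centralizer_map_conj] at this
  have hfn := fullyNormalized_of_isSylIn P hg₂S hg₂syl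
  have hcen := isCentric_of_sylIn P hg₂S hT'Q hQsyl
  have hcfg'' := hcfg'.frattini hQsyl
  obtain ⟨M, _, π, hπs, hK, hmodel⟩ := exists_group_model P hfn hcen
  have hM := hmodel _ (normalizerSystem_isNormalizerSystem _ _ hg₂S)
  have hT'p : IsPGroup p (cj(g, T)) := hTp.map _
  have hQp : IsPGroup p (cj(g, Q₁)) := hQ₁syl.2.1.map _
  have hT'X : cj(g, T) ≤ actStab p (cj(g, T)) (fun y => ψ (g⁻¹ * y * g)) ⊓
      Subgroup.normalizer ((cj(g, Q₁) : Subgroup G) : Set G) :=
    le_inf (hcfg'.le_actKer.trans (actKer_le_actStab _ _ _)) (hT'Q.trans Subgroup.le_normalizer)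
  refine hfree _ hfn hcen _ (normalizerSystem_isNormalizerSystem _ _ hg₂S) M _ hM ?_
  refine involves_of_natCfg hp2 hcfg'' hT'p hT'X (π.comp (Subgroup.inclusion inf_le_right)) ?_
  intro x hx
  obtain ⟨h1, h2⟩ := ker_coprime_centralizes hQp π hK (Subgroup.inclusion inf_le_right x) hx
  exact ⟨h1, fun t ht => h2 t (hT'Q ht)⟩

end Cfsg.Agent.H89
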