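import Cfsg.Agent.H89.QdCfg

set_option autoImplicit false
set_option linter.unusedVariables false
set_option maxHeartbeats 1000000

/-!
# From a natural configuration to a section `Qd(p)` (helper89)

`involves_of_natCfg`: for `p` odd, a natural configuration `(X, T, ψ)` with `T ≤ X` a `p`-group
gives a section `Qd(p)` of every group `M` receiving a homomorphism `f` from `X` whose kernel
consists of `p'`-elements centralizing `T`.
-/

namespace Cfsg.Agent.H89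

open Cfsg Cfsg.Agent.H51 Matrix

variable {Γ : Type*} [Group Γ]

local notation "SL2(" p ")" => Matrix.SpecialLinearGroup (Fin 2) (ZMod p)

theorem involves_of_natCfg [Finite Γ] {p : ℕ} [Fact p.Prime] (hp2 : p ≠ 2) {X T : Subgroup Γ}
    {ψ : Γ → Fin 2 → ZMod p} (h : NatCfg p X T ψ) (hT : IsPGroup p T) (hTX : T ≤ X)
    {M : Type*} [Group M] (f : X →* M)
    (hker : ∀ x : X, f x = 1 → (orderOf (x : Γ)).Coprime p ∧ ∀ t ∈ T, (x : Γ) * t = t * x) :
    Cfsg.Involves ↥(Cfsg.qd p) M := by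
  classical
  -- the action homomorphism
  have hex : ∀ x : X, ∃ m : SL2(p), ∀ t ∈ T, ψ ((x : Γ) * t * (x : Γ)⁻¹) = slAct m (ψ t) :=
    fun x => h.act x x.2
  choose ρf hρf using hex
  have huniq : ∀ (x : X) (m : SL2(p)),
      (∀ t ∈ T, ψ ((x : Γ) * t * (x : Γ)⁻¹) = slAct m (ψ t)) → ρf x = m := by
    intro x m hm
    apply slAct_ext
    intro v
    obtain ⟨t, ht, rfl⟩ := h.surj v
    rw [← hρf x t ht, hm t ht]
  obtain ⟨ρ₀, hρ₀⟩ : ∃ ρ₀ : X →* SL2(p), ∀ x, ρ₀ x = ρf x := by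
    refine ⟨MonoidHom.mk' ρf (fun a b => ?_), fun _ => rfl⟩
    apply huniq
    intro t ht
    have hbt : (b : Γ) * t * (b : Γ)⁻¹ ∈ T := h.conj_mem b.2 ht
    have e : ((a * b : X) : Γ) * t * ((a * b : X) : Γ)⁻¹ =
        (a : Γ) * ((b : Γ) * t * (b : Γ)⁻¹) * (a : Γ)⁻¹ := by
      simp only [Subgroup.coe_mul]; group
    rw [e, hρf a _ hbt, hρf b t ht, slAct_mul]
  have hρ₀s : Function.Surjective ρ₀ := by
    intro m
    obtain ⟨x, hx, hxm⟩ := h.full m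
    exact ⟨⟨x, hx⟩, by rw [hρ₀]; exact huniq _ m hxm⟩
  have hρ₀one : ∀ x : X, (∀ t ∈ T, ψ ((x : Γ) * t * (x : Γ)⁻¹) = ψ t) → ρ₀ x = 1 := by
    intro x hx
    rw [hρ₀]
    exact huniq x 1 (fun t ht => by rw [hx t ht, slAct_one])
  -- the kernel of `ψ` on `T`, inside `X`
  obtain ⟨T₀, hT₀⟩ : ∃ T₀ : Subgroup X, ∀ x : X, x ∈ T₀ ↔ (x : Γ) ∈ T ∧ ψ x = 0 := by
    refine ⟨⟨⟨⟨{x | (x : Γ) ∈ T ∧ ψ x = 0}, ?_⟩, ?_⟩, ?_⟩, fun _ => Iff.rfl⟩
    · rintro a b ⟨ha, ha0⟩ ⟨hb, hb0⟩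
      refine ⟨T.mul_mem ha hb, ?_⟩
      show ψ ((a : Γ) * b) = 0
      rw [h.add _ ha _ hb, ha0, hb0, add_zero]
    · exact ⟨T.one_mem, h.map_one⟩
    · rintro a ⟨ha, ha0⟩
      refine ⟨T.inv_mem ha, ?_⟩
      show ψ ((a : Γ)⁻¹) = 0
      rw [h.map_inv ha, ha0, neg_zero]
  haveI hT₀n : T₀.Normal := by
    refine ⟨fun n hn g => ?_⟩
    rw [hT₀] at hn ⊢
    refine ⟨h.conj_mem g.2 hn.1, ?_⟩
    show ψ ((g : Γ) * n * (g : Γ)⁻¹) = 0
    rw [hρf g _ hn.1, hn.2, slAct_zero]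
  obtain ⟨B, hBdef⟩ : ∃ B : Subgroup X, B = T₀ ⊔ f.ker := ⟨_, rfl⟩
  haveI hBn : B.Normal := by rw [hBdef]; infer_instance
  have hB : B ≤ ρ₀.ker := by
    rw [hBdef]
    refine sup_le ?_ ?_
    · intro x hx
      rw [hT₀] at hx
      rw [MonoidHom.mem_ker]
      exact hρ₀one x (fun t ht => h.map_conj hx.1 ht)
    · intro x hx
      rw [MonoidHom.mem_ker] at hx ⊢
      refine hρ₀one x (fun t ht => ?_)
      rw [(hker x hx).2 t ht, mul_inv_cancel_right]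
  -- elements of `T` with the same image modulo `B`
  have hkey : ∀ a b : X, (a : Γ) ∈ T → (b : Γ) ∈ T →
      (QuotientGroup.mk' B a = QuotientGroup.mk' B b ↔ ψ a = ψ b) := by
    intro a b ha hb
    constructor
    · intro hab
      have h1 : a⁻¹ * b ∈ B := QuotientGroup.eq.1 hab
      have h2 : a⁻¹ * b ∈ ((T₀ ⊔ f.ker : Subgroup X) : Set X) := by rw [← hBdef]; exact h1
      rw [Subgroup.mul_normal] at h2
      obtain ⟨y, hy, z, hz, hyz⟩ := Set.mem_mul.1 h2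
      have hy' := (hT₀ y).1 hy
      have hyz' : (y : Γ) * (z : Γ) = (a : Γ)⁻¹ * (b : Γ) := congrArg Subtype.val hyz
      have hzT : (z : Γ) ∈ T := by
        have e : (z : Γ) = (y : Γ)⁻¹ * ((a : Γ)⁻¹ * b) := by rw [← hyz']; group
        rw [e]
        exact T.mul_mem (T.inv_mem hy'.1) (T.mul_mem (T.inv_mem ha) hb)
      have hz1 : (z : Γ) = 1 :=
        eq_one_of_isPGroup_of_coprime hT hzT (hker z (MonoidHom.mem_ker.1 hz)).1
      have e : (b : Γ) = a * y := by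
        rw [hz1, mul_one] at hyz'
        rw [hyz']; group
      rw [e, h.add _ ha _ hy'.1, hy'.2, add_zero]
    · intro hab
      apply QuotientGroup.eq.2
      rw [hBdef]
      apply Subgroup.mem_sup_left
      rw [hT₀]
      refine ⟨T.mul_mem (T.inv_mem ha) hb, ?_⟩
      show ψ ((a : Γ)⁻¹ * b) = 0
      rw [h.add _ (T.inv_mem ha) _ hb, h.map_inv ha, hab, neg_add_cancel]
  -- the image of `T`
  obtain ⟨W, hW⟩ : ∃ W : Subgroup (X ⧸ B), ∀ w, w ∈ W ↔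
      ∃ a : X, (a : Γ) ∈ T ∧ QuotientGroup.mk' B a = w := by
    refine ⟨(T.subgroupOf X).map (QuotientGroup.mk' B), fun w => ?_⟩
    rw [Subgroup.mem_map]
    constructor
    · rintro ⟨a, ha, rfl⟩; exact ⟨a, Subgroup.mem_subgroupOf.1 ha, rfl⟩
    · rintro ⟨a, ha, rfl⟩; exact ⟨a, Subgroup.mem_subgroupOf.2 ha, rfl⟩
  have hWex : ∀ w : W, ∃ a : X, (a : Γ) ∈ T ∧ QuotientGroup.mk' B a = (w : X ⧸ B) :=
    fun w => (hW w).1 w.2
  choose τ hτT hτ using hWex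
  have hψτ : ∀ (w : W) (a : X), (a : Γ) ∈ T → QuotientGroup.mk' B a = (w : X ⧸ B) →
      ψ (τ w) = ψ a := by
    intro w a ha haw
    exact (hkey _ _ (hτT w) ha).1 ((hτ w).trans haw.symm)
  have hWconj : ∀ (l : X ⧸ B) (w : X ⧸ B), w ∈ W → l * w * l⁻¹ ∈ W := by
    intro l w hw
    obtain ⟨x, rfl⟩ := QuotientGroup.mk'_surjective B l
    obtain ⟨a, ha, rfl⟩ := (hW w).1 hw
    refine (hW _).2 ⟨x * a * x⁻¹, h.conj_mem x.2 ha, ?_⟩
    rw [map_mul, map_mul, map_inv]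
  have hWnorm : ∀ l : X ⧸ B, l ∈ Subgroup.normalizer (W : Set (X ⧸ B)) := by
    intro l
    rw [Subgroup.mem_normalizer_iff]
    intro w
    refine ⟨hWconj l w, fun hw => ?_⟩
    have := hWconj l⁻¹ _ hw
    have e : l⁻¹ * (l * w * l⁻¹) * l⁻¹⁻¹ = w := by group
    rwa [e] at this
  have hinv : Cfsg.Involves ↥(Cfsg.qd p) (X ⧸ B) := by
    refine Cfsg.Agent.H38.involves_qd_of_natural hp2 W ⊤ (fun l _ => hWnorm l)
      (fun w => ψ (τ w)) ?_ ?_
      ((QuotientGroup.lift B ρ₀ hB).comp (⊤ : Subgroup (X ⧸ B)).subtype) ?_ ?_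
    · -- additive
      intro w w'
      have := hψτ (w * w') (τ w * τ w') (T.mul_mem (hτT w) (hτT w'))
        (by rw [map_mul, hτ, hτ]; rfl)
      show ψ (τ (w * w')) = ψ (τ w) + ψ (τ w')
      rw [this]; exact h.add _ (hτT w) _ (hτT w')
    · -- bijective
      constructor
      · intro w w' hww
        apply Subtype.ext
        rw [← hτ w, ← hτ w']
        exact (hkey _ _ (hτT w) (hτT w')).2 hww
      · intro v
        obtain ⟨t, ht, rfl⟩ := h.surj v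
        refine ⟨⟨QuotientGroup.mk' B ⟨t, hTX ht⟩, (hW _).2 ⟨⟨t, hTX ht⟩, ht, rfl⟩⟩, ?_⟩
        exact hψτ _ ⟨t, hTX ht⟩ ht rfl
    · -- surjective
      intro m
      obtain ⟨x, hx⟩ := hρ₀s m
      exact ⟨⟨QuotientGroup.mk' B x, Subgroup.mem_top _⟩, hx⟩
    · -- conjugation
      rintro ⟨l, hl⟩ w hlw
      obtain ⟨x, rfl⟩ := QuotientGroup.mk'_surjective B l
      have h1 := hψτ ⟨_, hlw⟩ (x * τ w * x⁻¹) (h.conj_mem x.2 (hτT w))
        (by rw [map_mul, map_mul, map_inv, hτ])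
      show ψ (τ ⟨_, hlw⟩) = slAct (ρ₀ x) (ψ (τ w))
      rw [h1, hρ₀]
      exact hρf x _ (hτT w)
  have h1 : Cfsg.Involves ↥(Cfsg.qd p) (X ⧸ f.ker) := by
    refine Cfsg.Agent.H52.involves_of_surjective
      (QuotientGroup.map f.ker B (MonoidHom.id X) ?_) ?_ hinv
    · intro x hx
      rw [hBdef]
      exact Subgroup.mem_sup_right hx
    · intro l
      obtain ⟨x, rfl⟩ := QuotientGroup.mk'_surjective B l
      exact ⟨QuotientGroup.mk' f.ker x, rfl⟩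
  exact Cfsg.Agent.H52.involves_of_injective (QuotientGroup.kerLift f)
    (QuotientGroup.kerLift_injective f) h1

end Cfsg.Agent.H89
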