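import Mathlib
import Cfsg.Agent.H98.SLkDefs
import Cfsg.Agent.H98.GLkNum

/-!
# S2479, piece NUM (helper89 for helper98): arithmetic bounds for `cfgB` and `cfgCount q 3 3`.
-/

set_option autoImplicit false

namespace Cfsg.Agent.H89.SLk

open Cfsg.Agent.H98.GLk Cfsg.Agent.H98.SLk

/-- `oB q L s r = ∑_m q^m * cfgB q L (s+1) (r - s m)`: the count where the polynomial of exponent
`s` may have constant coefficient zero. -/
def oB (q L s r : ℕ) : ℕ :=
  ∑ m ∈ Finset.range (r / s + 1), q ^ m * cfgB q L (s + 1) (r - s * m)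

theorem div_of_le {s n : ℕ} (hs : 0 < s) (h : s ≤ n) : n / s = (n - s) / s + 1 :=
  Nat.div_eq_sub_div hs h

theorem cfgB_step_lt (q L s n : ℕ) (h : n < s) : cfgB q (L + 1) s n = cfgB q L (s + 1) n := by
  rw [cfgB_succ, Nat.div_eq_of_lt h]
  simp [cm]

theorem cfgB_step_ge (q L s n : ℕ) (hs : 0 < s) (h : s ≤ n) :
    cfgB q (L + 1) s n = cfgB q L (s + 1) n + (q - 1) * oB q L s (n - s) := by
  rw [cfgB_succ, div_of_le hs h, Finset.sum_range_succ', oB, Finset.mul_sum]
  have h0 : cm q 0 * cfgB q L (s + 1) (n - s * 0) = cfgB q L (s + 1) n := by simp [cm]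
  rw [h0, add_comm]
  congr 1
  apply Finset.sum_congr rfl
  intro m _
  have h1 : cm q (m + 1) = (q - 1) * q ^ m := by
    simp only [cm, Nat.add_eq_zero_iff, one_ne_zero, and_false, if_false, Nat.add_sub_cancel]
    rw [pow_succ, Nat.sub_mul, one_mul, mul_comm]
  have h2 : n - s * (m + 1) = n - s - s * m := by
    rw [Nat.mul_succ, Nat.sub_sub, add_comm]
  rw [h1, h2, mul_assoc]

theorem oB_step_lt (q L s n : ℕ) (h : n < s) : oB q L s n = cfgB q L (s + 1) n := by
  rw [oB, Nat.div_eq_of_lt h]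
  simp

theorem oB_step_ge (q L s n : ℕ) (hs : 0 < s) (h : s ≤ n) :
    oB q L s n = cfgB q L (s + 1) n + q * oB q L s (n - s) := by
  rw [oB, div_of_le hs h, Finset.sum_range_succ', oB, Finset.mul_sum]
  have h0 : q ^ 0 * cfgB q L (s + 1) (n - s * 0) = cfgB q L (s + 1) n := by simp
  rw [h0, add_comm]
  congr 1
  apply Finset.sum_congr rfl
  intro m _
  have h2 : n - s * (m + 1) = n - s - s * m := by
    rw [Nat.mul_succ, Nat.sub_sub, add_comm]
  rw [h2, pow_succ, mul_comm (q ^ m) q, mul_assoc]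

/-- The bound of `cfgB_le`. -/
def bnd (q s n : ℕ) : ℕ :=
  if n = 0 then 1 else if n < s then 0 else if n ≤ s + 1 then q - 1 else q ^ (n - s)

theorem bnd_zero (q s : ℕ) : bnd q s 0 = 1 := by simp [bnd]

theorem bnd_lt (q s n : ℕ) (h0 : 0 < n) (h : n < s) : bnd q s n = 0 := by
  unfold bnd
  rw [if_neg (show ¬ n = 0 by omega), if_pos h]

theorem bnd_self (q s : ℕ) (hs : 0 < s) : bnd q s s = q - 1 := by
  unfold bnd
  rw [if_neg (show ¬ s = 0 by omega), if_neg (show ¬ s < s by omega),
    if_pos (show s ≤ s + 1 by omega)]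

theorem bnd_ge (q s n : ℕ) (h0 : 0 < n) (h : s ≤ n) :
    bnd q s n = if n ≤ s + 1 then q - 1 else q ^ (n - s) := by
  unfold bnd
  rw [if_neg (show ¬ n = 0 by omega), if_neg (show ¬ n < s by omega)]

theorem bnd_le_pow (q s n : ℕ) (hq : 2 ≤ q) (h : s + 1 ≤ n) : bnd q s n ≤ q ^ (n - s) := by
  rw [bnd_ge q s n (by omega) (by omega)]
  by_cases h1 : n ≤ s + 1
  · rw [if_pos h1]
    have e : n - s = 1 := by omega
    rw [e, pow_one]; omega
  · rw [if_neg h1]

theorem bnd_succ_le (q s n : ℕ) (hq : 2 ≤ q) (h : n ≠ s) : bnd q (s + 1) n ≤ bnd q s n := by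
  rcases Nat.eq_zero_or_pos n with rfl | hn
  · rw [bnd_zero, bnd_zero]
  rcases Nat.lt_or_ge n s with h1 | h1
  · rw [bnd_lt q (s + 1) n hn (by omega)]; exact Nat.zero_le _
  · have h2 : s + 1 ≤ n := by omega
    rw [bnd_ge q (s + 1) n hn h2, bnd_ge q s n hn h1]
    by_cases h3 : n ≤ s + 1
    · rw [if_pos (show n ≤ s + 1 + 1 by omega), if_pos h3]
    · rw [if_neg h3]
      by_cases h4 : n ≤ s + 1 + 1
      · rw [if_pos h4]
        have e : n - s = 2 := by omega
        rw [e]
        have h5 : q ≤ q ^ 2 := by nlinarith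
        omega
      · rw [if_neg h4]
        exact Nat.pow_le_pow_right (by omega) (by omega)

theorem oB_bound (q L s : ℕ) (hq : 2 ≤ q) (hs : 2 ≤ s)
    (ih : ∀ n, cfgB q L (s + 1) n ≤ bnd q (s + 1) n) (r : ℕ) :
    (r = 0 → oB q L s r ≤ 1) ∧ (0 < r → r < s → oB q L s r = 0) ∧
      (s ≤ r → oB q L s r ≤ q ^ (r + 1 - s)) := by
  induction r using Nat.strong_induction_on with
  | _ r IH =>
    refine ⟨?_, ?_, ?_⟩
    · rintro rfl
      rw [oB_step_lt q L s 0 (by omega)]
      have h1 := ih 0
      rwa [bnd_zero] at h1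
    · intro h0 h1
      rw [oB_step_lt q L s r h1]
      have h2 := ih r
      rw [bnd_lt q (s + 1) r h0 (by omega)] at h2
      omega
    · intro h1
      rw [oB_step_ge q L s r (by omega) h1]
      rcases Nat.eq_or_lt_of_le h1 with h2 | h2
      · subst h2
        have e1 := ih s
        rw [bnd_lt q (s + 1) s (by omega) (by omega)] at e1
        have e2 := (IH 0 (by omega)).1 rfl
        rw [Nat.sub_self]
        have e3 : s + 1 - s = 1 := by omega
        rw [e3, pow_one]
        have e4 : q * oB q L s 0 ≤ q * 1 := Nat.mul_le_mul_left _ e2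
        omega
      · have e1 : cfgB q L (s + 1) r ≤ q ^ (r - s) := by
          refine (ih r).trans ?_
          rcases Nat.eq_or_lt_of_le (show s + 1 ≤ r by omega) with h3 | h3
          · rw [← h3, bnd_self q (s + 1) (by omega)]
            have e : s + 1 - s = 1 := by omega
            rw [e, pow_one]; omega
          · refine (bnd_le_pow q (s + 1) r hq (by omega)).trans ?_
            exact Nat.pow_le_pow_right (by omega) (by omega)
        have e2 : q * oB q L s (r - s) ≤ q ^ (r - s) := by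
          rcases Nat.lt_or_ge (r - s) s with h3 | h3
          · rw [(IH (r - s) (by omega)).2.1 (by omega) h3]; simp
          · have h4 := (IH (r - s) (by omega)).2.2 h3
            calc q * oB q L s (r - s) ≤ q * q ^ (r - s + 1 - s) := Nat.mul_le_mul_left _ h4
              _ = q ^ (r - s + 1 - s + 1) := by rw [pow_succ]; ring
              _ ≤ q ^ (r - s) := Nat.pow_le_pow_right (by omega) (by omega)
        calc cfgB q L (s + 1) r + q * oB q L s (r - s) ≤ q ^ (r - s) + q ^ (r - s) :=
              Nat.add_le_add e1 e2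
          _ = 2 * q ^ (r - s) := by ring
          _ ≤ q * q ^ (r - s) := Nat.mul_le_mul_right _ hq
          _ = q ^ (r + 1 - s) := by
            rw [← pow_succ']; congr 1; omega

theorem cfgB_le_bnd (q : ℕ) (hq : 2 ≤ q) (L : ℕ) :
    ∀ s n : ℕ, 2 ≤ s → cfgB q L s n ≤ bnd q s n := by
  induction L with
  | zero =>
    intro s n hs
    rw [cfgB_zero]
    by_cases h : n = 0
    · rw [if_pos h, h, bnd_zero]
    · rw [if_neg h]; exact Nat.zero_le _
  | succ L ih =>
    intro s n hs
    have ih' : ∀ n, cfgB q L (s + 1) n ≤ bnd q (s + 1) n := fun n => ih (s + 1) n (by omega)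
    have hO := oB_bound q L s hq hs ih'
    rcases Nat.lt_or_ge n s with h | h
    · rw [cfgB_step_lt q L s n h]
      exact (ih' n).trans (bnd_succ_le q s n hq (by omega))
    · rw [cfgB_step_ge q L s n (by omega) h]
      rcases Nat.eq_or_lt_of_le h with h2 | h2
      · subst h2
        have e1 := ih' s
        rw [bnd_lt q (s + 1) s (by omega) (by omega)] at e1
        have e2 := (hO 0).1 rfl
        rw [Nat.sub_self, bnd_self q s (by omega)]
        have e3 : (q - 1) * oB q L s 0 ≤ (q - 1) * 1 := Nat.mul_le_mul_left _ e2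
        omega
      · rcases Nat.lt_or_ge (n - s) s with h3 | h3
        · rw [(hO (n - s)).2.1 (by omega) h3, mul_zero, add_zero]
          exact (ih' n).trans (bnd_succ_le q s n hq (by omega))
        · have e1 : cfgB q L (s + 1) n ≤ q ^ (n - (s + 1)) :=
            (ih' n).trans (bnd_le_pow q (s + 1) n hq (by omega))
          have e2 := (hO (n - s)).2.2 h3
          have e3 : q ^ (n - s + 1 - s) ≤ q ^ (n - (s + 1)) :=
            Nat.pow_le_pow_right (by omega) (by omega)
          have e4 : bnd q s n = q ^ (n - s) := by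
            rw [bnd_ge q s n (by omega) h, if_neg (show ¬ n ≤ s + 1 by omega)]
          have e5 : q ^ (n - s) = q * q ^ (n - (s + 1)) := by
            rw [← pow_succ']; congr 1; omega
          rw [e4, e5]
          calc cfgB q L (s + 1) n + (q - 1) * oB q L s (n - s)
              ≤ q ^ (n - (s + 1)) + (q - 1) * q ^ (n - (s + 1)) :=
                Nat.add_le_add e1 (Nat.mul_le_mul_left _ (e2.trans e3))
            _ = q * q ^ (n - (s + 1)) := by
              obtain ⟨r, rfl⟩ : ∃ r, q = r + 1 := ⟨q - 1, by omega⟩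
              rw [Nat.add_sub_cancel]; ring

/-- piece S2479-NUM, first statement. -/
theorem cfgB_le (q : ℕ) (hq : 2 ≤ q) (L s n : ℕ) (hs : 2 ≤ s) :
    cfgB q L s n ≤ if n = 0 then 1 else if n < s then 0 else if n ≤ s + 1 then q - 1 else q ^ (n - s) :=
  cfgB_le_bnd q hq L s n hs

/-- piece S2479-NUM, second statement. -/
theorem cfgCount_three (q : ℕ) (hq : 2 ≤ q) : cfgCount q 3 3 + q ≤ q ^ 3 := by
  obtain ⟨r, rfl⟩ : ∃ r, q = r + 2 := ⟨q - 2, by omega⟩
  have h1 : ∀ n, cfgCount (r + 2) 1 n = cm (r + 2) n := by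
    intro n
    rw [cfgCount_succ]
    simp only [zero_add, Nat.div_one, one_mul, cfgCount_zero]
    rw [Finset.sum_eq_single n]
    · simp
    · intro m hm hmn
      have : n - m ≠ 0 := by
        have := Finset.mem_range.1 hm
        omega
      simp [this]
    · intro hn
      exact absurd (Finset.mem_range.2 (Nat.lt_succ_self n)) hn
  have h2 : cfgCount (r + 2) 2 3 = cm (r + 2) 3 + cm (r + 2) 1 * cm (r + 2) 1 := by
    rw [cfgCount_succ]
    have e : 3 / (1 + 1) + 1 = 2 := by norm_num
    rw [e, Finset.sum_range_succ, Finset.sum_range_one, h1, h1]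
    simp [cm]
  have h3 : cfgCount (r + 2) 3 3 = cfgCount (r + 2) 2 3 + cm (r + 2) 1 := by
    rw [cfgCount_succ]
    have e : 3 / (2 + 1) + 1 = 2 := by norm_num
    rw [e, Finset.sum_range_succ, Finset.sum_range_one]
    simp [cm, cfgCount_zero_right]
  have c1 : cm (r + 2) 1 = r + 1 := by
    simp [cm]
  have c3 : cm (r + 2) 3 = (r + 2) ^ 2 * (r + 1) := by
    simp only [cm]
    rw [if_neg (by norm_num)]
    apply Nat.sub_eq_of_eq_add
    ring
  rw [h3, h2, c1, c3]
  nlinarith

end Cfsg.Agent.H89.SLk
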