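import Mathlib
import Cfsg.Agent.H13.SaDefs
import Cfsg.Agent.H40.PCore

/-!
S4025-COMPL piece (team project S4025 of helper13): a normal Sylow `p`-subgroup has a complement
whose core is `O_{p'}`.
-/

set_option autoImplicit false

namespace Cfsg.Agent.H89.Sa

open Cfsg Cfsg.Agent.H13.Sa

universe u

/-- Schur–Zassenhaus complement of a normal Sylow subgroup, containing `O_{p'}`. -/
theorem exists_compl {N : Type u} [Group N] [Finite N] {p : ℕ} [Fact p.Prime] (Q : Subgroup N)
    [Q.Normal] (hQ : IsPGroup p Q) (hidx : ¬ p ∣ Q.index) :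
    ∃ H : Subgroup N, Subgroup.IsComplement' Q H ∧ (Nat.card H).Coprime p ∧
      pPrimeCore p N ≤ H := by
  obtain ⟨k, hk⟩ := IsPGroup.iff_card.mp hQ
  have hp : p.Prime := Fact.out
  have hpi : p.Coprime Q.index := (Nat.Prime.coprime_iff_not_dvd hp).mpr hidx
  have hcop : (Nat.card Q).Coprime Q.index := by
    rw [hk]
    exact Nat.Coprime.pow_left k hpi
  obtain ⟨H, hH⟩ := Subgroup.exists_right_complement'_of_coprime hcop
  have hHcard : Nat.card H = Q.index := hH.symm.index_eq_card.symm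
  have hHp : (Nat.card H).Coprime p := by
    rw [hHcard]
    exact hpi.symm
  refine ⟨H, hH, hHp, ?_⟩
  have hKp := Cfsg.Agent.H40.card_pPrimeCore_coprime p N
  have h1 : Nat.card (H ⊔ pPrimeCore p N : Subgroup N) ∣
      Nat.card H * Nat.card (pPrimeCore p N) :=
    Cfsg.Agent.H40.card_sup_dvd_mul H (pPrimeCore p N)
  have h2 : (Nat.card (H ⊔ pPrimeCore p N : Subgroup N)).Coprime p :=
    Nat.Coprime.coprime_dvd_left h1 (Nat.Coprime.mul_left hHp hKp)
  have h3 : Nat.card (H ⊔ pPrimeCore p N : Subgroup N) ∣ Nat.card N :=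
    Subgroup.card_subgroup_dvd_card _
  have h4 : Nat.card N = Nat.card Q * Nat.card H := hH.card_mul_card.symm
  have h5 : Nat.card (H ⊔ pPrimeCore p N : Subgroup N) ∣ Nat.card H := by
    rw [h4] at h3
    refine Nat.Coprime.dvd_of_dvd_mul_left ?_ h3
    rw [hk]
    exact Nat.Coprime.pow_right k h2
  have h6 : H = H ⊔ pPrimeCore p N :=
    Subgroup.eq_of_le_of_card_ge le_sup_left (Nat.le_of_dvd Nat.card_pos h5)
  exact le_sup_right.trans (le_of_eq h6.symm)

theorem compl : ComplStmt.{u} := by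
  intro N _ _ p _ Q _ hQ hidx
  obtain ⟨H, hH, hHp, hKH⟩ := exists_compl Q hQ hidx
  refine ⟨H, hH, le_antisymm ?_ ?_⟩
  · apply Cfsg.Agent.H40.le_pPrimeCore _ (Subgroup.normalCore_normal H)
    exact Nat.Coprime.coprime_dvd_left (Subgroup.card_dvd_of_le (Subgroup.normalCore_le H)) hHp
  · exact Subgroup.normal_le_normalCore.mpr hKH

end Cfsg.Agent.H89.Sa

namespace Cfsg.Agent.H89.Sa
universe u
example : Cfsg.Agent.H13.Sa.ComplStmt.{u} := compl
end Cfsg.Agent.H89.Sa
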