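import Mathlib
import Cfsg.Agent.H13.SaDefs

/-!
S4025-FUS piece (team project S4025 of helper13): Burnside's fusion argument for an abelian Sylow
subgroup.
-/

set_option autoImplicit false

namespace Cfsg.Agent.H89.Sa

open Cfsg Cfsg.Agent.H13.Sa
open scoped Pointwise

universe u

theorem fus : FusStmt.{u} := by
  intro G _ _ p _ hC P hab A B hA hB hcard
  obtain ⟨g, hg⟩ := hC A B (P.isPGroup'.to_le hA) (P.isPGroup'.to_le hB) hcard
  have hPC : (P : Subgroup G) ≤ Subgroup.centralizer (B : Set G) := by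
    intro x hx
    rw [Subgroup.mem_centralizer_iff]
    intro b hb
    exact hab b (hB hb) x hx
  have hgPC : ((g • P : Sylow p G) : Subgroup G) ≤ Subgroup.centralizer (B : Set G) := by
    intro x hx
    rw [Sylow.coe_subgroup_smul, Subgroup.mem_smul_pointwise_iff_exists] at hx
    obtain ⟨y, hy, rfl⟩ := hx
    rw [Subgroup.mem_centralizer_iff]
    intro b hb
    rw [SetLike.mem_coe, hg, Subgroup.mem_map] at hb
    obtain ⟨a, ha, rfl⟩ := hb
    have h1 : a * y = y * a := hab a (hA ha) y hy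
    simp only [MulEquiv.coe_toMonoidHom, MulAut.conj_apply, MulAut.smul_def]
    calc g * a * g⁻¹ * (g * y * g⁻¹) = g * (a * y) * g⁻¹ := by group
      _ = g * (y * a) * g⁻¹ := by rw [h1]
      _ = g * y * g⁻¹ * (g * a * g⁻¹) := by group
  obtain ⟨c, hc⟩ := MulAction.exists_smul_eq (Subgroup.centralizer (B : Set G))
    ((g • P : Sylow p G).subtype hgPC) (P.subtype hPC)
  rw [Sylow.smul_subtype] at hc
  have hc2 : c • (g • P : Sylow p G) = P := Sylow.subtype_injective hc
  have hc3 : ((c : G) * g) • P = P := by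
    rw [mul_smul]
    exact hc2
  refine ⟨(c : G) * g, Sylow.smul_eq_iff_mem_normalizer.mp hc3, ?_⟩
  have hcB : ∀ b ∈ B, (c : G) * b * (c : G)⁻¹ = b := by
    intro b hb
    have h1 := (Subgroup.mem_centralizer_iff.mp c.2) b hb
    rw [← h1, mul_inv_cancel_right]
  ext x
  rw [Subgroup.mem_map]
  constructor
  · intro hx
    have hx' := hx
    rw [hg, Subgroup.mem_map] at hx'
    obtain ⟨a, ha, rfl⟩ := hx'
    refine ⟨a, ha, ?_⟩
    have h2 := hcB _ hx
    simp only [MulEquiv.coe_toMonoidHom, MulAut.conj_apply] at h2 ⊢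
    rw [← h2]
    group
  · rintro ⟨a, ha, rfl⟩
    have h1 : g * a * g⁻¹ ∈ B := by
      rw [hg, Subgroup.mem_map]
      exact ⟨a, ha, by simp⟩
    have h2 := hcB _ h1
    simp only [MulEquiv.coe_toMonoidHom, MulAut.conj_apply]
    have h3 : (c : G) * g * a * ((c : G) * g)⁻¹ = (c : G) * (g * a * g⁻¹) * (c : G)⁻¹ := by group
    rw [h3, h2]
    exact h1

end Cfsg.Agent.H89.Sa

namespace Cfsg.Agent.H89.Sa
universe u
example : Cfsg.Agent.H13.Sa.FusStmt.{u} := fus
end Cfsg.Agent.H89.Sa
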