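import Mathlib
import Cfsg.Agent.H13.SaDefs
import Cfsg.Agent.H40.PCore
import Cfsg.Agent.H89.SaCompl

/-!
S4025-IDX piece (team project S4025 of helper13): for a normal abelian Sylow `p`-subgroup `Q`,
`C_N(Q) = Q × O_{p'}(N)`, in the form `|N : O_{p'}(N)| = |Q| * |N : C_N(Q)|`.
-/

set_option autoImplicit false

namespace Cfsg.Agent.H89.Sa

open Cfsg Cfsg.Agent.H13.Sa

universe u

theorem idx : IdxStmt.{u} := by
  intro N _ _ p _ Q hQn hQ hidx hab
  obtain ⟨H, hH, hHp, hKH⟩ := exists_compl Q hQ hidx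
  have hKp := Cfsg.Agent.H40.card_pPrimeCore_coprime p N
  obtain ⟨k, hk⟩ := IsPGroup.iff_card.mp hQ
  obtain ⟨C, hCdef⟩ : ∃ C : Subgroup N, C = (MulAut.conjNormal : N →* MulAut Q).ker := ⟨_, rfl⟩
  have hCn : C.Normal := by
    rw [hCdef]
    exact MonoidHom.normal_ker _
  have hmemC : ∀ g : N, g ∈ C ↔ ∀ q ∈ Q, g * q * g⁻¹ = q := by
    intro g
    rw [hCdef, MonoidHom.mem_ker]
    constructor
    · intro h q hq
      have h1 := congrArg (fun f : MulAut Q => ((f ⟨q, hq⟩ : Q) : N)) h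
      simpa using h1
    · intro h
      ext q
      rw [MulAut.conjNormal_apply, MulAut.one_apply]
      exact h q.1 q.2
  -- `K ≤ C`
  have hKQ : pPrimeCore p N ⊓ Q = ⊥ := by
    apply Disjoint.eq_bot
    apply Subgroup.disjoint_of_coprime_natCard
    rw [hk]
    exact Nat.Coprime.pow_right k hKp
  have hKC : pPrimeCore p N ≤ C := by
    intro g hg
    rw [hmemC]
    intro q hq
    have h1 : g * q * g⁻¹ * q⁻¹ ∈ pPrimeCore p N ⊓ Q := by
      have h2 : q * g⁻¹ * q⁻¹ ∈ pPrimeCore p N :=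
        (Cfsg.Agent.H40.pPrimeCore_normal p N).conj_mem _ ((pPrimeCore p N).inv_mem hg) q
      have h3 : g * q * g⁻¹ * q⁻¹ = g * (q * g⁻¹ * q⁻¹) := by group
      have h4 : g * q * g⁻¹ * q⁻¹ ∈ pPrimeCore p N := by
        rw [h3]
        exact (pPrimeCore p N).mul_mem hg h2
      have h5 : g * q * g⁻¹ * q⁻¹ ∈ Q := Q.mul_mem (hQn.conj_mem q hq g) (Q.inv_mem hq)
      exact Subgroup.mem_inf.mpr ⟨h4, h5⟩
    rw [hKQ, Subgroup.mem_bot] at h1
    exact mul_inv_eq_one.mp h1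
  -- `C ⊓ H` is a normal `p'`-subgroup
  have hCHn : (C ⊓ H).Normal := by
    constructor
    intro x hx n
    obtain ⟨⟨q, h⟩, hqh⟩ := hH.2 n
    simp only at hqh
    have hxC : x ∈ C := (Subgroup.mem_inf.mp hx).1
    have hxH : x ∈ H := (Subgroup.mem_inf.mp hx).2
    have hhH : (h : N) ∈ H := h.2
    have hy : (h : N) * x * (h : N)⁻¹ ∈ C ⊓ H :=
      Subgroup.mem_inf.mpr ⟨hCn.conj_mem x hxC h, H.mul_mem (H.mul_mem hhH hxH) (H.inv_mem hhH)⟩
    have hyC : (h : N) * x * (h : N)⁻¹ ∈ C := (Subgroup.mem_inf.mp hy).1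
    have h1 := (hmemC _).mp hyC q q.2
    have h2 : (q : N) * ((h : N) * x * (h : N)⁻¹) * (q : N)⁻¹ = (h : N) * x * (h : N)⁻¹ := by
      have h3 : (q : N) * ((h : N) * x * (h : N)⁻¹) = (h : N) * x * (h : N)⁻¹ * (q : N) := by
        have h4 := congrArg (fun z => z * ((h : N) * x * (h : N)⁻¹)) h1
        simp only [inv_mul_cancel_right] at h4
        exact h4.symm
      rw [h3, mul_inv_cancel_right]
    have h5 : n * x * n⁻¹ = (q : N) * ((h : N) * x * (h : N)⁻¹) * (q : N)⁻¹ := by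
      rw [← hqh]
      group
    rw [h5, h2]
    exact hy
  have hCHK : C ⊓ H ≤ pPrimeCore p N := by
    apply Cfsg.Agent.H40.le_pPrimeCore _ hCHn
    exact Nat.Coprime.coprime_dvd_left (Subgroup.card_dvd_of_le inf_le_right) hHp
  have hKeq : pPrimeCore p N = C ⊓ H := le_antisymm (le_inf hKC hKH) hCHK
  refine ⟨by rw [← hCdef]; exact hKC, ?_⟩
  rw [← hCdef, hKeq]
  -- index computation
  have hQC : Q ≤ C := by
    intro g hg
    rw [hmemC]
    intro q hq
    rw [hab g hg q hq, mul_inv_cancel_right]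
  have htop : C ⊔ H = ⊤ := by
    apply top_unique
    rw [← hH.sup_eq_top]
    exact sup_le_sup_right hQC H
  have h1 : (C ⊓ H).relIndex H * H.index = (C ⊓ H).index :=
    Subgroup.relIndex_mul_index inf_le_right
  have h2 : (C ⊓ H).relIndex H = C.index := by
    rw [Subgroup.inf_relIndex_right, ← Subgroup.relIndex_sup_left (K := C) (H := H), htop,
      Subgroup.relIndex_top_right]
  have h3 : H.index = Nat.card Q := hH.index_eq_card
  rw [← h1, h2, h3, mul_comm]

end Cfsg.Agent.H89.Sa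

namespace Cfsg.Agent.H89.Sa
universe u
example : Cfsg.Agent.H13.Sa.IdxStmt.{u} := idx
end Cfsg.Agent.H89.Sa
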