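import Mathlib
import Cfsg.Agent.H97.Sp4Defs

/-!
# S2460, piece K4 (helper89 for helper97): involutions in `Sp_4`
-/

set_option autoImplicit false

namespace Cfsg.Agent.H89.Sp4

open Matrix Cfsg.Agent.H97.Sp4

variable {F : Type*} [Field F] {V : Type*} [AddCommGroup V] [Module F V]

theorem invol_data (h2 : (2 : F) ≠ 0) {B : LinearMap.BilinForm F V} {g : Module.End F V}
    (h : SpData B g) (hgg : g * g = 1) (hns : ∀ c : F, g ≠ c • 1) :
    ∃ w₁ w₂ : V, B w₁ w₂ = 0 ∧ B w₁ (g w₁) = 0 ∧ B w₂ (g w₂) = 0 ∧ B w₁ (g w₂) ≠ 0 ∧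
      B w₂ (g w₁) = - B w₁ (g w₂) := by
  have hskew : ∀ u v : V, B v u = - B u v := by
    intro u v
    have h1 := h.alt (u + v)
    simp only [map_add, LinearMap.add_apply, h.alt u, h.alt v, zero_add, add_zero] at h1
    linear_combination h1
  have hgg' : ∀ v, g (g v) = v := fun v => by
    have h1 := congrArg (fun f : Module.End F V => f v) hgg
    simpa using h1
  have hsw : ∀ u v : V, B u (g v) = - B v (g u) := by
    intro u v
    rw [← hskew, ← h.isom u (g v), hgg']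
  have hdiag : ∀ u : V, B u (g u) = 0 := by
    intro u
    have h1 := hsw u u
    have h3 : (2 : F) * B u (g u) = 0 := by linear_combination h1
    exact (mul_eq_zero.1 h3).resolve_left h2
  obtain ⟨w₂, hw₂⟩ : ∃ w₂ : V, LinearIndependent F ![w₂, g w₂] := by
    by_contra hcon
    push Not at hcon
    obtain ⟨c, hc⟩ := LinearMap.exists_eq_smul_id_of_forall_notLinearIndependent hcon
    exact hns c hc
  have hw₂ne : w₂ ≠ 0 := hw₂.ne_zero 0
  have hw₂c : ∀ c : F, g w₂ ≠ c • w₂ := by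
    intro c hc
    have h1 := (LinearIndependent.pair_iff.1 hw₂) c (-1) (by rw [hc]; simp)
    exact absurd h1.2 (by norm_num)
  obtain ⟨e₀, he₀⟩ : ∃ e₀, B e₀ w₂ ≠ 0 := by
    by_contra hcon
    push Not at hcon
    exact hw₂ne (h.nondeg.2 w₂ hcon)
  by_contra hcon
  have key : ∀ w₁, B w₁ w₂ = 0 → B w₁ (g w₂) = 0 := by
    intro w₁ h1
    by_contra h3
    exact hcon ⟨w₁, w₂, h1, hdiag w₁, hdiag w₂, h3, hsw w₂ w₁⟩
  have hall : ∀ u, B u (g w₂ - (B e₀ (g w₂) / B e₀ w₂) • w₂) = 0 := by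
    intro u
    have h4 := key (u - (B u w₂ / B e₀ w₂) • e₀) (by
      simp only [map_sub, map_smul, LinearMap.sub_apply, LinearMap.smul_apply, smul_eq_mul]
      field_simp
      ring)
    simp only [map_sub, map_smul, LinearMap.sub_apply, LinearMap.smul_apply, smul_eq_mul] at h4 ⊢
    linear_combination h4
  have h5 := h.nondeg.2 _ hall
  exact hw₂c _ (sub_eq_zero.1 h5)

end Cfsg.Agent.H89.Sp4
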