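import Mathlib
import Cfsg.Agent.H97.Sp4Defs

/-!
# S2460, piece K5A (helper89 for helper97): `(g - 1)^2 = 0` fixes a Lagrangian plane pointwise
-/

set_option autoImplicit false

namespace Cfsg.Agent.H89.Sp4

open Matrix Cfsg.Agent.H97.Sp4

variable {F : Type*} [Field F] {V : Type*} [AddCommGroup V] [Module F V]

theorem para_of_sq_zero {B : LinearMap.BilinForm F V} {g : Module.End F V} (h : SpData B g)
    (hN : (g - 1) * (g - 1) = 0) (hg : g ≠ 1) : Para B g := by
  haveI : Module.Finite F V := Module.finite_of_finrank_pos (by rw [h.dim]; norm_num)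
  -- `N (N v) = 0`
  have hNN : ∀ v, (g - 1) ((g - 1) v) = 0 := fun v => by
    have h1 := congrArg (fun f : Module.End F V => f v) hN
    simpa using h1
  have hgg : ∀ v, g (g v) = g v + g v - v := by
    intro v
    have h1 := hNN v
    simp only [LinearMap.sub_apply, Module.End.one_apply, map_sub] at h1
    have h2 : g (g v) = g (g v) - g v - (g v - v) + (g v + g v - v) := by abel
    rw [h2, h1, zero_add]
  -- adjoint
  have hadj : ∀ u v, B ((g - 1) u) v = - B u ((g - 1) v) := by
    intro u v
    have h1 := h.isom u (v + v - g v)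
    have h2 : g (v + v - g v) = v := by
      rw [map_sub, map_add, hgg]; abel
    rw [h2] at h1
    simp only [LinearMap.sub_apply, Module.End.one_apply, map_sub, map_add] at h1 ⊢
    linear_combination h1
  -- `N ≠ 0`
  obtain ⟨u, hu⟩ : ∃ u, (g - 1) u ≠ 0 := by
    by_contra hcon
    push Not at hcon
    apply hg
    ext v
    have h1 := hcon v
    simp only [LinearMap.sub_apply, Module.End.one_apply] at h1
    rw [Module.End.one_apply]
    exact sub_eq_zero.1 h1
  have hrk : LinearMap.range (g - 1) ≤ LinearMap.ker (g - 1) := by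
    rintro _ ⟨v, rfl⟩
    exact LinearMap.mem_ker.2 (hNN v)
  have hdim := LinearMap.finrank_range_add_finrank_ker (g - 1)
  rw [h.dim] at hdim
  have hle := Submodule.finrank_mono hrk
  have hker2 : 2 ≤ Module.finrank F (LinearMap.ker (g - 1)) := by omega
  obtain ⟨w₂, hw₂k, hw₂n⟩ : ∃ w₂ ∈ LinearMap.ker (g - 1), w₂ ∉ Submodule.span F {(g - 1) u} := by
    by_contra hcon
    push Not at hcon
    have h1 : LinearMap.ker (g - 1) ≤ Submodule.span F {(g - 1) u} := hcon
    have h2 := Submodule.finrank_mono h1
    rw [finrank_span_singleton hu] at h2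
    omega
  have hfix : ∀ w ∈ LinearMap.ker (g - 1), g w = w := by
    intro w hw
    have h1 := LinearMap.mem_ker.1 hw
    simp only [LinearMap.sub_apply, Module.End.one_apply] at h1
    exact sub_eq_zero.1 h1
  refine ⟨(g - 1) u, w₂, ?_, ?_, hfix _ (hrk ⟨u, rfl⟩), hfix _ hw₂k⟩
  · rw [LinearIndependent.pair_iff' hu]
    intro c hc
    exact hw₂n (hc ▸ Submodule.smul_mem _ c (Submodule.mem_span_singleton_self _))
  · rw [hadj, LinearMap.mem_ker.1 hw₂k, map_zero, neg_zero]

end Cfsg.Agent.H89.Sp4
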