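import Mathlib
import Cfsg.Agent.H44.SpLDefs

/-!
# SPL-ARITH (S2333, helper89 for helper44): the recursion for the Landazuri–Seitz bound
-/

set_option autoImplicit false

namespace Cfsg.Agent.H89.SpL

open Cfsg.Agent.H44.SpL

/-- `(q^{m+1}-1)(q^{m+1}-q) = (q^m-1)(q^m-q) + (q+1)(q-1)(q^{2m}-q^m)` in `ℕ`, for `q ≥ 1`. -/
theorem bnd_key (q m : ℕ) (hq : 0 < q) :
    (q ^ (m + 1) - 1) * (q ^ (m + 1) - q) =
      (q ^ m - 1) * (q ^ m - q) + (q + 1) * ((q - 1) * (q ^ (2 * m) - q ^ m)) := by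
  rcases Nat.eq_zero_or_pos m with rfl | hm
  · simp
  · have h1 : 1 ≤ q := hq
    have h2 : 1 ≤ q ^ m := Nat.one_le_pow _ _ hq
    have h3 : 1 ≤ q ^ (m + 1) := Nat.one_le_pow _ _ hq
    have h4 : q ≤ q ^ m := Nat.le_self_pow (by omega) q
    have h5 : q ≤ q ^ (m + 1) := Nat.le_self_pow (by omega) q
    have h6 : q ^ m ≤ q ^ (2 * m) := Nat.pow_le_pow_right hq (by omega)
    zify [h1, h2, h3, h4, h5, h6]
    ring

theorem arith : StArith := by
  intro q m x y hx hy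
  rcases Nat.eq_zero_or_pos q with rfl | hq
  · simp [bnd]
  · unfold bnd at hx ⊢
    rw [bnd_key q m hq]
    have hpos : 0 < 2 * (q + 1) := by omega
    calc ((q ^ m - 1) * (q ^ m - q) + (q + 1) * ((q - 1) * (q ^ (2 * m) - q ^ m))) / (2 * (q + 1))
        ≤ ((q ^ m - 1) * (q ^ m - q) + (2 * (q + 1)) * y) / (2 * (q + 1)) := by
          apply Nat.div_le_div_right
          have : (q + 1) * ((q - 1) * (q ^ (2 * m) - q ^ m)) ≤ (q + 1) * (2 * y) :=
            Nat.mul_le_mul_left _ hy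
          nlinarith [this]
      _ = (q ^ m - 1) * (q ^ m - q) / (2 * (q + 1)) + y := Nat.add_mul_div_left _ _ hpos
      _ ≤ x + y := Nat.add_le_add_right hx y

example : StArith := arith

end Cfsg.Agent.H89.SpL
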