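import Mathlib
import Cfsg.Agent.H44.SpLDefs

/-!
# SPL-CHAR2 (S2333, helper89 for helper44): a finite field of even order has characteristic 2
-/

set_option autoImplicit false

namespace Cfsg.Agent.H89.SpL

open Cfsg.Agent.H44.SpL

universe u

theorem char2 : StChar2.{u} := by
  intro F _ _ hev
  have h : ringChar F = 2 := FiniteField.even_card_iff_char_two.mpr (Nat.even_iff.mp hev)
  haveI : CharP F 2 := (ringChar.eq_iff).mp h
  exact_mod_cast CharP.cast_eq_zero F 2

example : StChar2.{u} := char2

end Cfsg.Agent.H89.SpL
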