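import Mathlib
import Cfsg.Agent.H44.SpLDefs

/-!
# SPL-COUNT (S2333, helper89 for helper44)

A function `K` on `F^{2m}` (`F` finite of characteristic 2) with
`K (d + d') = K d + K d' + f(d, d') / s` takes values in `℘(F) = {τ² + τ}` at least
`(q^{2m} - q^m) / 2` times: with `ε` the `±1` character of `F` with kernel `℘(F)` and
`S = Σ_d ε (K d)` one has `S² = q^{2m}`.
-/

set_option autoImplicit false

namespace Cfsg.Agent.H89.SpL

open Cfsg.Agent.H44.SpL Matrix

universe u

/-- The Artin–Schreier map `τ ↦ τ² + τ` as an additive homomorphism (characteristic 2). -/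
def asHom {F : Type u} [Field F] (h2 : (2 : F) = 0) : F →+ F where
  toFun x := x ^ 2 + x
  map_zero' := by simp
  map_add' x y := by linear_combination (x * y) * h2

theorem asHom_apply {F : Type u} [Field F] (h2 : (2 : F) = 0) (x : F) :
    asHom h2 x = x ^ 2 + x := rfl

theorem asHom_ker_card {F : Type u} [Field F] (h2 : (2 : F) = 0) :
    Nat.card (asHom h2).ker = 2 := by
  have hset : ((asHom h2).ker : Set F) = {0, 1} := by
    ext x
    simp only [SetLike.mem_coe, AddMonoidHom.mem_ker, asHom_apply, Set.mem_insert_iff,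
      Set.mem_singleton_iff]
    constructor
    · intro h
      have h' : x * (x + 1) = 0 := by linear_combination h
      rcases mul_eq_zero.mp h' with h0 | h1
      · exact Or.inl h0
      · right
        linear_combination h1 - h2
    · rintro (rfl | rfl)
      · simp
      · linear_combination h2
  have h1 : Nat.card (asHom h2).ker = ((asHom h2).ker : Set F).ncard :=
    Nat.card_coe_set_eq ((asHom h2).ker : Set F)
  rw [h1, hset, Set.ncard_pair zero_ne_one]

theorem asHom_range_index {F : Type u} [Field F] [Finite F] (h2 : (2 : F) = 0) :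
    (asHom h2).range.index = 2 := by
  have h1 := AddSubgroup.card_mul_index (asHom h2).ker
  have h3 := AddSubgroup.card_mul_index (asHom h2).range
  rw [AddSubgroup.index_ker, asHom_ker_card] at h1
  have hpos : 0 < Nat.card (asHom h2).range := Nat.card_pos
  exact Nat.eq_of_mul_eq_mul_left hpos (by linarith)

/-- The `±1`-valued additive character of `F` with kernel `{τ² + τ}`. -/
theorem exists_eps {F : Type u} [Field F] [Finite F] (h2 : (2 : F) = 0) :
    ∃ ε : F → ℤ, (∀ x y, ε (x + y) = ε x * ε y) ∧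
      (∀ x, (∃ τ : F, τ ^ 2 + τ = x) → ε x = 1) ∧
      (∀ x, (¬ ∃ τ : F, τ ^ 2 + τ = x) → ε x = -1) ∧ (∃ x, ε x = -1) := by
  classical
  have hidx := asHom_range_index h2
  refine ⟨fun x => if x ∈ (asHom h2).range then 1 else -1, ?_, ?_, ?_, ?_⟩
  · intro x y
    have := AddSubgroup.add_mem_iff_of_index_two hidx (a := x) (b := y)
    by_cases hx : x ∈ (asHom h2).range <;> by_cases hy : y ∈ (asHom h2).range <;>
      simp [hx, hy, this]
  · rintro x ⟨τ, rfl⟩
    have : τ ^ 2 + τ ∈ (asHom h2).range := ⟨τ, rfl⟩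
    simp [this]
  · intro x hx
    have : x ∉ (asHom h2).range := fun ⟨τ, hτ⟩ => hx ⟨τ, hτ⟩
    simp [this]
  · have hne : (asHom h2).range ≠ ⊤ := by
      intro h
      rw [h, AddSubgroup.index_top] at hidx
      omega
    obtain ⟨x, hx⟩ : ∃ x, x ∉ (asHom h2).range := by
      by_contra hcon
      push Not at hcon
      exact hne (eq_top_iff.mpr fun x _ => hcon x)
    exact ⟨x, by simp [hx]⟩

theorem sympForm_add_left' {F : Type u} [Field F] (m : ℕ) (d d' u : Fin m ⊕ Fin m → F) :
    Cfsg.sympForm m F (d + d') u = Cfsg.sympForm m F d u + Cfsg.sympForm m F d' u := by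
  unfold Cfsg.sympForm
  rw [add_dotProduct]

theorem sympForm_zero_right' {F : Type u} [Field F] (m : ℕ) (d : Fin m ⊕ Fin m → F) :
    Cfsg.sympForm m F d 0 = 0 := by
  unfold Cfsg.sympForm
  rw [mulVec_zero, dotProduct_zero]

/-- Nondegeneracy of `sympForm`. -/
theorem sympForm_surj {F : Type u} [Field F] (m : ℕ) (u : Fin m ⊕ Fin m → F) (hu : u ≠ 0)
    (c : F) : ∃ d : Fin m ⊕ Fin m → F, Cfsg.sympForm m F d u = c := by
  classical
  have hJ : Matrix.J (Fin m) F *ᵥ u ≠ 0 := by
    intro h
    apply hu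
    have h' : Matrix.J (Fin m) F *ᵥ (Matrix.J (Fin m) F *ᵥ u) = 0 := by
      rw [h, mulVec_zero]
    rw [mulVec_mulVec, Matrix.J_squared, neg_mulVec, one_mulVec, neg_eq_zero] at h'
    exact h'
  obtain ⟨k, hk⟩ : ∃ k, (Matrix.J (Fin m) F *ᵥ u) k ≠ 0 := by
    by_contra hcon
    push Not at hcon
    exact hJ (funext hcon)
  refine ⟨Pi.single k (c / (Matrix.J (Fin m) F *ᵥ u) k), ?_⟩
  unfold Cfsg.sympForm
  rw [single_dotProduct]
  field_simp

theorem count : StCount.{u} := by
  intro F _ _ m h2 K s hs hK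
  classical
  obtain ⟨ε, hεadd, hε1, hεm1, x₀, hx₀⟩ := exists_eps h2
  have hK0 : K 0 = 0 := by
    have h := hK 0 0
    rw [add_zero, sympForm_zero_right', zero_div, add_zero] at h
    linear_combination -h
  have hε0 : ε 0 = 1 := hε1 0 ⟨0, by simp⟩
  have hεsq : ∀ x, ε x * ε x = 1 := by
    intro x
    rw [← hεadd]
    have : x + x = 0 := by linear_combination x * h2
    rw [this, hε0]
  obtain ⟨S, hS⟩ : ∃ S : ℤ, S = ∑ d : Fin m ⊕ Fin m → F, ε (K d) := ⟨_, rfl⟩
  -- character sums vanish
  have hnondeg : ∀ u : Fin m ⊕ Fin m → F, u ≠ 0 →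
      ∑ d : Fin m ⊕ Fin m → F, ε (Cfsg.sympForm m F d u / s) = 0 := by
    intro u hu
    obtain ⟨d₀, hd₀⟩ := sympForm_surj m u hu (s * x₀)
    have hshift : ∀ d, ε (Cfsg.sympForm m F (d + d₀) u / s)
        = - ε (Cfsg.sympForm m F d u / s) := by
      intro d
      have : Cfsg.sympForm m F (d + d₀) u / s = Cfsg.sympForm m F d u / s + x₀ := by
        rw [sympForm_add_left', hd₀]
        field_simp
      rw [this, hεadd, hx₀]
      ring
    have hsum : ∑ d, ε (Cfsg.sympForm m F (d + d₀) u / s)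
        = ∑ d, ε (Cfsg.sympForm m F d u / s) :=
      Equiv.sum_comp (Equiv.addRight d₀) (fun d => ε (Cfsg.sympForm m F d u / s))
    simp only [hshift, Finset.sum_neg_distrib] at hsum
    linarith
  have hcard : (Fintype.card (Fin m ⊕ Fin m → F) : ℤ) = (Fintype.card F : ℤ) ^ (2 * m) := by
    rw [Fintype.card_fun, Fintype.card_sum, Fintype.card_fin]
    push_cast
    ring_nf
  have hSsq : S * S = (Fintype.card F : ℤ) ^ (2 * m) := by
    rw [hS, Finset.sum_mul_sum]
    have hinner : ∀ d, ∑ d', ε (K d) * ε (K d')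
        = ∑ u, ε (K u) * ε (Cfsg.sympForm m F d u / s) := by
      intro d
      rw [← Equiv.sum_comp (Equiv.addLeft d) (fun d' => ε (K d) * ε (K d'))]
      refine Finset.sum_congr rfl fun u _ => ?_
      simp only [Equiv.coe_addLeft]
      rw [hK d u, hεadd, hεadd, ← mul_assoc, ← mul_assoc, hεsq, one_mul]
    rw [Finset.sum_congr rfl fun d _ => hinner d, Finset.sum_comm]
    simp only [← Finset.mul_sum]
    rw [Finset.sum_eq_single 0]
    · rw [hK0, hε0, one_mul]
      simp only [sympForm_zero_right', zero_div, hε0, Finset.sum_const, Finset.card_univ,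
        nsmul_eq_mul, mul_one]
      exact hcard
    · intro u _ hu
      rw [hnondeg u hu, mul_zero]
    · intro h
      exact absurd (Finset.mem_univ _) h
  have hD : S = 2 * (Set.ncard {d : Fin m ⊕ Fin m → F | ∃ τ : F, τ ^ 2 + τ = K d} : ℤ)
      - (Fintype.card F : ℤ) ^ (2 * m) := by
    have hε' : ∀ d, ε (K d) = 2 * (if (∃ τ : F, τ ^ 2 + τ = K d) then 1 else 0) - 1 := by
      intro d
      by_cases h : ∃ τ : F, τ ^ 2 + τ = K d
      · rw [if_pos h, hε1 _ h]
        norm_num
      · rw [if_neg h, hεm1 _ h]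
        norm_num
    rw [hS, Finset.sum_congr rfl fun d _ => hε' d, Finset.sum_sub_distrib, ← Finset.mul_sum,
      Finset.sum_boole, Finset.sum_const, Finset.card_univ, nsmul_eq_mul, mul_one, hcard,
      Set.ncard_eq_toFinset_card', Set.toFinset_ofPred]
  have hge : -((Fintype.card F : ℤ) ^ m) ≤ S := by
    have h : S ^ 2 = ((Fintype.card F : ℤ) ^ m) ^ 2 := by
      rw [sq, hSsq]
      ring
    have hnn : (0 : ℤ) ≤ (Fintype.card F : ℤ) ^ m := by positivity
    rcases sq_eq_sq_iff_eq_or_eq_neg.mp h with h | h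
    · rw [h]
      linarith
    · rw [h]
  rw [Nat.sub_le_iff_le_add]
  have hfin : ((Fintype.card F ^ (2 * m) : ℕ) : ℤ) ≤
      ((2 * Set.ncard {d : Fin m ⊕ Fin m → F | ∃ τ : F, τ ^ 2 + τ = K d}
        + Fintype.card F ^ m : ℕ) : ℤ) := by
    push_cast
    linarith
  exact_mod_cast hfin

example : StCount.{u} := count

end Cfsg.Agent.H89.SpL
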