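import Cfsg.Agent.H89.AutSys
import Cfsg.Agent.H90.NormalAut
import Cfsg.Agent.H90.SmallFus

set_option autoImplicit false
set_option maxHeartbeats 1000000

/-!
Subsystems generated by the inner automorphisms and a group of automorphisms of order prime to `p`,
and their use for "sparse" fusion systems.
-/

namespace Cfsg.Agent.H89

open Cfsg Cfsg.FusionSystem Cfsg.Agent.H86

variable {Ω : Type*} [Group Ω]

/-- The `p`-elements of `Inn(T) H`, `H` a `p'`-group, are inner. -/
theorem inn_sup_pelement {T : Type*} [Group T] {p : ℕ} (H : Subgroup (MulAut T)) [Finite H]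
    (hH : Nat.Coprime (Nat.card H) p) :
    ∀ α ∈ Inn T ⊔ H, (∃ k : ℕ, α ^ p ^ k = 1) → α ∈ Inn T := by
  rintro α hα ⟨k, hk⟩
  have h1 : α ∈ (H.map (QuotientGroup.mk' (Inn T))).comap (QuotientGroup.mk' (Inn T)) := by
    have hle : Inn T ⊔ H ≤ (H.map (QuotientGroup.mk' (Inn T))).comap (QuotientGroup.mk' (Inn T)) := by
      refine sup_le ?_ ?_
      · intro x hx
        rw [Subgroup.mem_comap]
        have : (QuotientGroup.mk' (Inn T)) x = 1 := (QuotientGroup.eq_one_iff x).2 hx
        rw [this]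
        exact one_mem _
      · exact Subgroup.le_comap_map _ _
    exact hle hα
  obtain ⟨h, hh, hhα⟩ := h1
  have h2 : (QuotientGroup.mk' (Inn T) α) ^ Nat.card H = 1 := by
    rw [← hhα, ← map_pow]
    have : h ^ Nat.card H = 1 := by
      have := pow_card_eq_one' (G := H) (x := ⟨h, hh⟩)
      exact congrArg (fun z : H => (z : MulAut T)) this
    rw [this, map_one]
  have h3 : (QuotientGroup.mk' (Inn T) α) ^ (p ^ k) = 1 := by rw [← map_pow, hk, map_one]
  have h4 : orderOf (QuotientGroup.mk' (Inn T) α) ∣ Nat.gcd (Nat.card H) (p ^ k) :=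
    Nat.dvd_gcd (orderOf_dvd_of_pow_eq_one h2) (orderOf_dvd_of_pow_eq_one h3)
  rw [Nat.Coprime.pow_right k hH] at h4
  have h5 : QuotientGroup.mk' (Inn T) α = 1 := orderOf_eq_one_iff.1 (Nat.dvd_one.1 h4)
  exact (QuotientGroup.eq_one_iff α).1 h5

theorem focal_le_top {S : Subgroup Ω} (F : FusionSystem S) : F.focalSubgroup ≤ S := by
  unfold focalSubgroup
  rw [Subgroup.closure_le]
  rintro y ⟨P, φ, x, hφ, rfl⟩
  exact S.mul_mem (S.inv_mem ((F.le_of_mem hφ).1 x.2)) ((F.le_of_mem hφ).2 x)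

variable {S : Subgroup Ω}

/-- The system generated over `T` by `Inn(T)` and a subgroup `H` of `Aut_F(T)` is a subsystem. -/
theorem autSys_isSubsystemOf (F : FusionSystem S) {T : Subgroup Ω} (hT : T ≤ S)
    {A : Subgroup (MulAut T)} (hA : Inn T ≤ A) (hAF : A ≤ F.autGroup T) :
    (autSys T A hA).IsSubsystemOf F := by
  rintro P φ ⟨hP, α, hα, h⟩
  have h1 := (Cfsg.Agent.H89.mem_autGroup_iff F hT α).1 (hAF hα)
  have h2 := restrict_mem F hP h1
  have e : φ = (T.subtype.comp α.toMonoidHom).comp (Subgroup.inclusion hP) := by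
    ext x
    rw [h x]
    rfl
  rw [e]
  exact h2

/-- In a system whose saturated subsystems are inner or everything, an automorphism of prime order
`q ≠ p` of a subgroup `T` forces `T = S`, and the system is generated by it. -/
theorem sparse_key [Finite S] {p : ℕ} [Fact p.Prime] (hS : IsPGroup p S) (F : FusionSystem S)
    (hxs : ∀ (T : Subgroup Ω) (E : FusionSystem T), E.IsSaturated p → E.IsSubsystemOf F →
      (T = S ∧ ∀ P : Subgroup Ω, E.Hom P = F.Hom P) ∨
        (∀ P : Subgroup Ω, E.Hom P = (innerFusionSystem T).Hom P))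
    {T : Subgroup Ω} (hT : T ≤ S) {q : ℕ} (hq : q.Prime) (hqp : q ≠ p) (γ : MulAut T)
    (hγ : γ ∈ F.autGroup T) (hγq : orderOf γ = q) :
    T = S ∧ ∀ P : Subgroup Ω,
      (autSys T (Inn T ⊔ Subgroup.zpowers γ) le_sup_left).Hom P = F.Hom P := by
  have hp : p.Prime := Fact.out
  have : Finite T := finite_of_le hT
  have hTp : IsPGroup p T := hS.to_le hT
  have hcard : Nat.card (Subgroup.zpowers γ) = q := by rw [Nat.card_zpowers, hγq]
  have hcop : Nat.Coprime (Nat.card (Subgroup.zpowers γ)) p := by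
    rw [hcard]
    exact (Nat.coprime_primes hq hp).2 hqp
  have hsat := autSys_saturated hTp (Inn T ⊔ Subgroup.zpowers γ) le_sup_left
    (inn_sup_pelement (Subgroup.zpowers γ) hcop)
  have hsub := autSys_isSubsystemOf F hT (le_sup_left : Inn T ≤ Inn T ⊔ Subgroup.zpowers γ)
    (sup_le (inn_le_autGroup F hT) ((Subgroup.zpowers_le).2 hγ))
  rcases hxs T _ hsat hsub with h | h
  · exact h
  · exfalso
    have h1 : T.subtype.comp γ.toMonoidHom ∈
        (autSys T (Inn T ⊔ Subgroup.zpowers γ) le_sup_left).Hom T :=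
      ⟨le_rfl, γ, (le_sup_right : Subgroup.zpowers γ ≤ _) (Subgroup.mem_zpowers γ), fun x => rfl⟩
    rw [h T] at h1
    obtain ⟨-, g, hg, hgx⟩ := h1
    have h2 : γ = MulAut.conj (⟨g, hg⟩ : T) := by
      ext x
      have := hgx x
      simp only [MonoidHom.comp_apply, Subgroup.coe_subtype] at this
      rw [MulAut.conj_apply]
      exact this
    have h3 : γ ^ Nat.card T = 1 := by
      rw [h2, ← map_pow, pow_card_eq_one', map_one]
    have h4 : q ∣ Nat.card T := hγq ▸ orderOf_dvd_of_pow_eq_one h3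
    obtain ⟨n, hn⟩ := (IsPGroup.iff_card).1 hTp
    rw [hn] at h4
    exact hqp ((Nat.prime_dvd_prime_iff_eq hq hp).1 (hq.dvd_of_dvd_pow h4))

/-- A subgroup invariant under an automorphism `γ` of `S` of prime order `q ≠ p` of the sparse
system, on which `γ` cannot act trivially, is `S`. -/
theorem sparse_sub [Finite S] {p : ℕ} [Fact p.Prime] (hS : IsPGroup p S) (F : FusionSystem S)
    (hxs : ∀ (T : Subgroup Ω) (E : FusionSystem T), E.IsSaturated p → E.IsSubsystemOf F →
      (T = S ∧ ∀ P : Subgroup Ω, E.Hom P = F.Hom P) ∨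
        (∀ P : Subgroup Ω, E.Hom P = (innerFusionSystem T).Hom P))
    {q : ℕ} (hq : q.Prime) (hqp : q ≠ p) (γ : MulAut S)
    (hγ : γ ∈ F.autGroup S) (hγq : orderOf γ = q)
    {T : Subgroup Ω} (hT : T ≤ S) (hinv : ∀ x : S, (x : Ω) ∈ T → ((γ x : S) : Ω) ∈ T)
    (hfix : (∀ x : S, (x : Ω) ∈ T → γ x = x) → γ = 1) : T = S := by
  have : Finite T := finite_of_le hT
  have : Fact q.Prime := ⟨hq⟩
  have hM : Mor F T (autFun S γ) := ((Cfsg.Agent.H86.mem_autGroup_iff le_rfl γ).1 hγ).restrict hT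
  have himg : imgS T (autFun S γ) = T := imgS_eq_of_maps hM (fun x hx => by
    rw [autFun_of_mem γ (hT hx)]
    exact hinv ⟨x, hT hx⟩ hx)
  obtain ⟨γT, hγT⟩ : ∃ γT : MulAut T, γT = mkAut hM himg := ⟨_, rfl⟩
  have hrel : ∀ x : T, ((γ ⟨x, hT x.2⟩ : S) : Ω) = ((γT x : T) : Ω) := by
    intro x
    rw [hγT, mkAut_apply, autFun_of_mem γ (hT x.2)]
  have hγTq : γT ^ q = 1 := by
    ext x
    have h1 := aut_rel_pow hT hrel q x
    rw [← hγq, pow_orderOf_eq_one] at h1
    rw [← hγq, ← h1]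
    rfl
  have hγT1 : γT ≠ 1 := by
    intro h1
    have h2 : γ = 1 := by
      apply hfix
      intro x hx
      apply Subtype.ext
      have := hrel ⟨x, hx⟩
      rw [h1] at this
      exact this
    rw [h2, orderOf_one] at hγq
    exact hq.one_lt.ne hγq
  have hord : orderOf γT = q := orderOf_eq_prime hγTq hγT1
  exact (sparse_key hS F hxs hT hq hqp γT (hγT ▸ mkAut_mem hM himg) hord).1

end Cfsg.Agent.H89
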