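import Mathlib
import Cfsg.Agent.H88.StNDefs
import Cfsg.Agent.H49.PlusModel
import Cfsg.Agent.H49.Refl
import Cfsg.Agent.H49.Omega2
import Cfsg.Agent.H49.MinusForm
import Cfsg.Agent.H49.SimpleForms

set_option autoImplicit false

/-!
# S2549-LONG: a long element of `Ω⁻_{2m+2}(q)` (helper89, for helper88)

`g = (∏ i, r_{e_i + f_i}) · (r_{z_0} if m is odd)`: an even number of reflections in vectors of
norm `1`.
-/

namespace Cfsg.Agent.H89.StN

open Matrix Cfsg.Agent.H88.StN Cfsg.Agent.H49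

variable {F : Type*} [Field F]

/-- The index type of the natural module. -/
abbrev Idx (m : ℕ) : Type := (Fin m ⊕ Fin m) ⊕ Fin 2

/-- The group of isometries of the bundled form. -/
abbrev GQ (m : ℕ) (F : Type*) [Field F] (a b : F) : Type _ :=
  ↥(Cfsg.isometryGroup F (⇑(QMin m F a b)))

/-- The action of an isometry on vectors. -/
def av {m : ℕ} {a b : F} (g : GQ m F a b) (x : Idx m → F) : Idx m → F :=
  ((g : Matrix.GeneralLinearGroup (Idx m) F) : Matrix (Idx m) (Idx m) F) *ᵥ x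

theorem av_mul {m : ℕ} {a b : F} (g h : GQ m F a b) (x : Idx m → F) :
    av (g * h) x = av g (av h x) :=
  coe_mul_mulVec g h x

theorem av_one {m : ℕ} {a b : F} (x : Idx m → F) : av (1 : GQ m F a b) x = x :=
  one_coe_mulVec x

theorem av_zero {m : ℕ} {a b : F} (g : GQ m F a b) : av g 0 = 0 := by
  unfold av
  rw [Matrix.mulVec_zero]

theorem av_refl {m : ℕ} {a b : F} (v x : Idx m → F) :
    av (reflG (QMin m F a b) v) x
      = x - ((QMin m F a b v)⁻¹ * QuadraticMap.polar (⇑(QMin m F a b)) v x) • v := by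
  unfold av
  rw [reflG_coe, reflectionMatrix_mulVec]

/-- `e_i + f_i`. -/
def uv (m : ℕ) (F : Type*) [Field F] (i : Fin m) : Idx m → F :=
  Pi.single (Sum.inl (Sum.inl i)) 1 + Pi.single (Sum.inl (Sum.inr i)) 1

/-- `z_0`. -/
def zv (m : ℕ) (F : Type*) [Field F] : Idx m → F :=
  Pi.single (Sum.inr 0) 1

theorem uv_ee (m : ℕ) (i j : Fin m) :
    uv m F i (Sum.inl (Sum.inl j)) = if j = i then 1 else 0 := by
  simp [uv, Pi.single_apply]

theorem uv_ff (m : ℕ) (i j : Fin m) :
    uv m F i (Sum.inl (Sum.inr j)) = if j = i then 1 else 0 := by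
  simp [uv, Pi.single_apply]

theorem uv_zz (m : ℕ) (i : Fin m) (j : Fin 2) : uv m F i (Sum.inr j) = 0 := by
  simp [uv]

theorem zv_ee (m : ℕ) (j : Fin m) : zv m F (Sum.inl (Sum.inl j)) = 0 := by
  simp [zv]

theorem zv_ff (m : ℕ) (j : Fin m) : zv m F (Sum.inl (Sum.inr j)) = 0 := by
  simp [zv]

theorem zv_z0 (m : ℕ) : zv m F (Sum.inr 0) = 1 := by
  simp [zv]

theorem zv_z1 (m : ℕ) : zv m F (Sum.inr 1) = 0 := by
  simp [zv]

theorem Q_uv (m : ℕ) (a b : F) (i : Fin m) : QMin m F a b (uv m F i) = 1 := by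
  rw [QMin_formula, Finset.sum_eq_single i]
  · simp [uv_ee, uv_ff, uv_zz]
  · intro j _ hj
    simp [uv_ee, uv_ff, hj]
  · intro h
    exact absurd (Finset.mem_univ i) h

theorem polar_uv (m : ℕ) (a b : F) (i : Fin m) (x : Idx m → F) :
    QuadraticMap.polar (⇑(QMin m F a b)) (uv m F i) x
      = x (Sum.inl (Sum.inl i)) + x (Sum.inl (Sum.inr i)) := by
  rw [polar_QMin_formula, Finset.sum_eq_single i]
  · simp [uv_ee, uv_ff, uv_zz]
    ring
  · intro j _ hj
    simp [uv_ee, uv_ff, hj]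
  · intro h
    exact absurd (Finset.mem_univ i) h

theorem Q_zv (m : ℕ) (a b : F) : QMin m F a b (zv m F) = 1 := by
  rw [QMin_formula]
  simp [zv_ee, zv_ff, zv_z0, zv_z1]

theorem polar_zv (m : ℕ) (a b : F) (x : Idx m → F) :
    QuadraticMap.polar (⇑(QMin m F a b)) (zv m F) x = 2 * x (Sum.inr 0) + a * x (Sum.inr 1) := by
  rw [polar_QMin_formula]
  simp [zv_ee, zv_ff, zv_z0, zv_z1]

theorem av_uv (m : ℕ) (a b : F) (i : Fin m) (x : Idx m → F) :
    av (reflG (QMin m F a b) (uv m F i)) x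
      = x - (x (Sum.inl (Sum.inl i)) + x (Sum.inl (Sum.inr i))) • uv m F i := by
  rw [av_refl, Q_uv, polar_uv, inv_one, one_mul]

theorem av_zv (m : ℕ) (a b : F) (x : Idx m → F) :
    av (reflG (QMin m F a b) (zv m F)) x
      = x - (2 * x (Sum.inr 0) + a * x (Sum.inr 1)) • zv m F := by
  rw [av_refl, Q_zv, polar_zv, inv_one, one_mul]

/-- The product of the reflections in `e_i + f_i`, `i` in a list. -/
def PL (m : ℕ) (a b : F) (is : List (Fin m)) : GQ m F a b :=
  (is.map (fun i => reflG (QMin m F a b) (uv m F i))).prod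

theorem av_PL (m : ℕ) (a b : F) : ∀ (is : List (Fin m)), is.Nodup → ∀ x : Idx m → F,
    (∀ j, av (PL m a b is) x (Sum.inl (Sum.inl j))
        = if j ∈ is then - x (Sum.inl (Sum.inr j)) else x (Sum.inl (Sum.inl j))) ∧
    (∀ j, av (PL m a b is) x (Sum.inl (Sum.inr j))
        = if j ∈ is then - x (Sum.inl (Sum.inl j)) else x (Sum.inl (Sum.inr j))) ∧
    (∀ j, av (PL m a b is) x (Sum.inr j) = x (Sum.inr j))
  | [], _, x => by
    have e : PL m a b ([] : List (Fin m)) = 1 := rfl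
    rw [e, av_one]
    simp
  | i :: is, hnd, x => by
    have hi : i ∉ is := (List.nodup_cons.mp hnd).1
    obtain ⟨h1, h2, h3⟩ := av_PL m a b is (List.nodup_cons.mp hnd).2 x
    have e : av (PL m a b (i :: is)) x
        = av (reflG (QMin m F a b) (uv m F i)) (av (PL m a b is) x) := by
      have e' : PL m a b (i :: is) = reflG (QMin m F a b) (uv m F i) * PL m a b is := by
        unfold PL
        rw [List.map_cons, List.prod_cons]
      rw [e', av_mul]
    rw [e, av_uv]
    refine ⟨fun j => ?_, fun j => ?_, fun j => ?_⟩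
    · simp only [Pi.sub_apply, Pi.smul_apply, smul_eq_mul, uv_ee, h1, h2, if_neg hi]
      by_cases hji : j = i
      · subst hji
        simp [hi]
      · have hmem : (j ∈ i :: is) ↔ j ∈ is := by simp [hji]
        simp [hji, hmem]
    · simp only [Pi.sub_apply, Pi.smul_apply, smul_eq_mul, uv_ff, h1, h2, if_neg hi]
      by_cases hji : j = i
      · subst hji
        simp [hi]
      · have hmem : (j ∈ i :: is) ↔ j ∈ is := by simp [hji]
        simp [hji, hmem]
    · simp only [Pi.sub_apply, Pi.smul_apply, smul_eq_mul, uv_zz, h3, mul_zero, sub_zero]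

theorem pair_mem [Fintype F] (m : ℕ) (hm : 3 ≤ m) (a b : F)
    (hab : ∀ z₁ z₂ : F, z₁ ^ 2 + a * z₁ * z₂ + b * z₂ ^ 2 = 0 → z₁ = 0 ∧ z₂ = 0)
    (u w : Idx m → F) (hu : QMin m F a b u = 1) (hw : QMin m F a b w = 1) :
    reflG (QMin m F a b) u * reflG (QMin m F a b) w ∈ commutator (GQ m F a b) := by
  have hu0 : QMin m F a b u ≠ 0 := by rw [hu]; exact one_ne_zero
  have hw0 : QMin m F a b w ≠ 0 := by rw [hw]; exact one_ne_zero
  by_cases h2 : (2 : F) = 0
  · rw [commutator_eq_evenSub_two (QMin m F a b) h2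
      (QMin_nondeg m a b (disc_ne_zero_of_aniso a b hab)) (finrank_minus m) (Or.inr (by omega))]
    exact Subgroup.subset_closure ⟨_, ⟨u, hu0, rfl⟩, _, ⟨w, hw0, rfl⟩, rfl⟩
  · refine reflG_mul_reflG_mem_commutator (QMin m F a b) h2 u w hu0 hw0 ?_
    rw [hu, hw, one_mul]
    exact ⟨1, (one_mul 1).symm⟩

theorem prod_mem_of_even [Fintype F] (m : ℕ) (hm : 3 ≤ m) (a b : F)
    (hab : ∀ z₁ z₂ : F, z₁ ^ 2 + a * z₁ * z₂ + b * z₂ ^ 2 = 0 → z₁ = 0 ∧ z₂ = 0) :
    ∀ (n : ℕ) (l : List (GQ m F a b)), l.length = 2 * n →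
      (∀ r ∈ l, ∃ u, QMin m F a b u = 1 ∧ r = reflG (QMin m F a b) u) →
      l.prod ∈ commutator (GQ m F a b)
  | 0, l, hl, _ => by
    have h0 : l = [] := List.length_eq_zero_iff.mp (by simpa using hl)
    subst h0
    simp
  | n + 1, l, hl, h => by
    cases l with
    | nil => simp at hl
    | cons x l =>
      cases l with
      | nil =>
        simp at hl
        omega
      | cons y l =>
        obtain ⟨u, hu, rfl⟩ := h x (by simp)
        obtain ⟨w, hw, rfl⟩ := h y (by simp)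
        rw [List.prod_cons, List.prod_cons, ← mul_assoc]
        refine mul_mem (pair_mem m hm a b hab u w hu hw)
          (prod_mem_of_even m hm a b hab n l ?_ ?_)
        · simp at hl
          omega
        · intro r hr
          exact h r (by simp [hr])

theorem long_core (m : ℕ) (a b : F) (Z : GQ m F a b)
    (hZ1 : ∀ (x : Idx m → F) (i : Fin m), av Z x (Sum.inl (Sum.inl i)) = x (Sum.inl (Sum.inl i)) ∧
      av Z x (Sum.inl (Sum.inr i)) = x (Sum.inl (Sum.inr i)))
    (hZ2 : ∀ x y : Idx m → F, (∀ k, x (Sum.inr k) = y (Sum.inr k)) →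
      ∀ j, av Z x (Sum.inr j) = av Z y (Sum.inr j))
    (hZ3 : Z * Z = 1)
    (hmem : PL m a b (List.finRange m) * Z ∈ commutator (GQ m F a b)) :
    ∃ g : OGm m F a b, g ∈ Cfsg.Omega F (Cfsg.quadFormMinus m F a b) ∧ g * g = 1 ∧
      (∀ (v : Fin (2 * m + 2) → F) (i : Fin m), (mat g *ᵥ v) (pE m i) = - v (pF m i)) ∧
      (∀ (v : Fin (2 * m + 2) → F) (i : Fin m), (mat g *ᵥ v) (pF m i) = - v (pE m i)) ∧
      (∀ v : Fin (2 * m + 2) → F, (∀ j, v (pZ m j) = 0) → ∀ j, (mat g *ᵥ v) (pZ m j) = 0) := by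
  obtain ⟨g, hg⟩ : ∃ g : GQ m F a b, g = PL m a b (List.finRange m) * Z := ⟨_, rfl⟩
  have hP := av_PL m a b (List.finRange m) (List.nodup_finRange m)
  have hge : ∀ (x : Idx m → F) (i : Fin m),
      av g x (Sum.inl (Sum.inl i)) = - x (Sum.inl (Sum.inr i)) := by
    intro x i
    rw [hg, av_mul, (hP (av Z x)).1 i, if_pos (List.mem_finRange i), (hZ1 x i).2]
  have hgf : ∀ (x : Idx m → F) (i : Fin m),
      av g x (Sum.inl (Sum.inr i)) = - x (Sum.inl (Sum.inl i)) := by
    intro x i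
    rw [hg, av_mul, (hP (av Z x)).2.1 i, if_pos (List.mem_finRange i), (hZ1 x i).1]
  have hgz : ∀ (x : Idx m → F) (j : Fin 2), av g x (Sum.inr j) = av Z x (Sum.inr j) := by
    intro x j
    rw [hg, av_mul, (hP (av Z x)).2.2 j]
  have hmat : ∀ (v : Fin (2 * m + 2) → F) (c : Idx m),
      (mat (g : OGm m F a b) *ᵥ v) (idx m c) = av g (v ∘ idx m) c := by
    intro v c
    exact congrFun (mat_mulVec_comp (g : OGm m F a b) v) c
  refine ⟨g, ?_, ?_, ?_, ?_, ?_⟩
  · rw [hg]
    exact hmem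
  · apply isometry_ext
    intro x
    have e1 : ((((g * g : GQ m F a b)) : Matrix.GeneralLinearGroup (Idx m) F) :
        Matrix (Idx m) (Idx m) F) *ᵥ x = av g (av g x) := av_mul g g x
    have e2 : ((((1 : GQ m F a b)) : Matrix.GeneralLinearGroup (Idx m) F) :
        Matrix (Idx m) (Idx m) F) *ᵥ x = x := av_one x
    refine e1.trans (Eq.trans ?_ e2.symm)
    funext c
    rcases c with (i | i) | j
    · rw [hge, hgf, neg_neg]
    · rw [hgf, hge, neg_neg]
    · rw [hgz, hZ2 (av g x) (av Z x) (fun k => hgz x k) j, ← av_mul, hZ3, av_one]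
  · intro v i
    have h1 := hmat v (Sum.inl (Sum.inl i))
    rw [hge] at h1
    exact h1
  · intro v i
    have h1 := hmat v (Sum.inl (Sum.inr i))
    rw [hgf] at h1
    exact h1
  · intro v hv j
    have h1 := hmat v (Sum.inr j)
    rw [hgz, hZ2 (v ∘ idx m) 0 (fun k => hv k) j, av_zero] at h1
    exact h1

/-- **S2549-LONG**. -/
theorem exists_long [Fintype F] (m : ℕ) (hm : 3 ≤ m) (a b : F)
    (hab : ∀ z₁ z₂ : F, z₁ ^ 2 + a * z₁ * z₂ + b * z₂ ^ 2 = 0 → z₁ = 0 ∧ z₂ = 0) :
    ∃ g : OGm m F a b, g ∈ Cfsg.Omega F (Cfsg.quadFormMinus m F a b) ∧ g * g = 1 ∧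
      (∀ (v : Fin (2 * m + 2) → F) (i : Fin m), (mat g *ᵥ v) (pE m i) = - v (pF m i)) ∧
      (∀ (v : Fin (2 * m + 2) → F) (i : Fin m), (mat g *ᵥ v) (pF m i) = - v (pE m i)) ∧
      (∀ v : Fin (2 * m + 2) → F, (∀ j, v (pZ m j) = 0) → ∀ j, (mat g *ᵥ v) (pZ m j) = 0) := by
  have hrefl : ∀ r ∈ (List.finRange m).map (fun i => reflG (QMin m F a b) (uv m F i)),
      ∃ u, QMin m F a b u = 1 ∧ r = reflG (QMin m F a b) u := by
    intro r hr
    obtain ⟨i, -, rfl⟩ := List.mem_map.mp hr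
    exact ⟨uv m F i, Q_uv m a b i, rfl⟩
  by_cases hpar : Even m
  · obtain ⟨n, hn⟩ := hpar
    refine long_core m a b 1 (fun x i => by rw [av_one]; exact ⟨rfl, rfl⟩)
      (fun x y h j => by rw [av_one, av_one]; exact h j) (one_mul 1) ?_
    rw [mul_one]
    refine prod_mem_of_even m hm a b hab n _ ?_ hrefl
    rw [List.length_map, List.length_finRange, hn]
    ring
  · obtain ⟨n, hn⟩ := Nat.not_even_iff_odd.mp hpar
    refine long_core m a b (reflG (QMin m F a b) (zv m F)) ?_ ?_ (reflG_mul_self _ _) ?_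
    · intro x i
      rw [av_zv]
      simp [zv_ee, zv_ff]
    · intro x y h j
      rw [av_zv, av_zv]
      simp only [Pi.sub_apply, Pi.smul_apply, smul_eq_mul, h]
    · have e : PL m a b (List.finRange m) * reflG (QMin m F a b) (zv m F)
          = ((List.finRange m).map (fun i => reflG (QMin m F a b) (uv m F i))
              ++ [reflG (QMin m F a b) (zv m F)]).prod := by
        rw [List.prod_append, List.prod_singleton]
        rfl
      rw [e]
      refine prod_mem_of_even m hm a b hab (n + 1) _ ?_ ?_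
      · rw [List.length_append, List.length_map, List.length_finRange, List.length_singleton, hn]
        ring
      · intro r hr
        rcases List.mem_append.mp hr with h1 | h1
        · exact hrefl r h1
        · rw [List.mem_singleton] at h1
          exact ⟨zv m F, Q_zv m a b, h1⟩

end Cfsg.Agent.H89.StN
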