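import Mathlib
import Cfsg.Agent.Lib.Lead.SylAlt.Defs

/-!
S2221-LIFT piece (team project S2221 of lead): a Sylow 2-subgroup `P` of `A_n` is `T ⊓ A_n` for a
Sylow 2-subgroup `T` of `S_n`, and direct decomposability transfers.
-/

set_option autoImplicit false

namespace Cfsg.Agent.H89.SylAlt

open Equiv Cfsg.Agent.Lib.Lead.SylAlt

/-- Internal direct products transfer along an injective homomorphism. -/
theorem idp_map {A G : Type*} [Group A] [Group G] (ι : A →* G) (hι : Function.Injective ι)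
    (S₁ S₂ S : Subgroup A) :
    Cfsg.IsInternalDirectProduct (S₁.map ι) (S₂.map ι) (S.map ι) ↔
      Cfsg.IsInternalDirectProduct S₁ S₂ S := by
  constructor
  · rintro ⟨h1, h2, h3, h4, h5⟩
    refine ⟨(Subgroup.map_le_map_iff_of_injective hι).mp h1,
      (Subgroup.map_le_map_iff_of_injective hι).mp h2, ?_, ?_, ?_⟩
    · intro a ha b hb
      apply hι
      rw [map_mul, map_mul]
      exact h3 _ (Subgroup.mem_map_of_mem ι ha) _ (Subgroup.mem_map_of_mem ι hb)
    · rw [← Subgroup.map_inf_eq S₁ S₂ ι hι] at h4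
      exact (Subgroup.map_eq_bot_iff_of_injective _ hι).mp h4
    · apply Subgroup.map_injective hι
      rw [Subgroup.map_sup]
      exact h5
  · rintro ⟨h1, h2, h3, h4, h5⟩
    refine ⟨Subgroup.map_mono h1, Subgroup.map_mono h2, ?_, ?_, ?_⟩
    · rintro _ ⟨a, ha, rfl⟩ _ ⟨b, hb, rfl⟩
      rw [← map_mul, ← map_mul, h3 a ha b hb]
    · rw [← Subgroup.map_inf_eq S₁ S₂ ι hι, h4, Subgroup.map_bot]
    · rw [← Subgroup.map_sup, h5]

theorem lift (n : ℕ) (P : Sylow 2 (alternatingGroup (Fin n))) :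
    ∃ T : Subgroup (Perm (Fin n)), IsSyl2 T ∧
      ((∃ S₁ S₂ : Subgroup (alternatingGroup (Fin n)), S₁ ≠ ⊥ ∧ S₂ ≠ ⊥ ∧
          Cfsg.IsInternalDirectProduct S₁ S₂ (P : Subgroup (alternatingGroup (Fin n)))) ↔
        Dec (T ⊓ alternatingGroup (Fin n))) := by
  have hι : Function.Injective (alternatingGroup (Fin n)).subtype := Subtype.val_injective
  have hP2 : IsPGroup 2 ((P : Subgroup (alternatingGroup (Fin n))).map
      (alternatingGroup (Fin n)).subtype) := P.isPGroup'.map _
  obtain ⟨Q, hQ⟩ := hP2.exists_le_sylow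
  refine ⟨(Q : Subgroup (Perm (Fin n))), ⟨Q.isPGroup', fun R hR hle => Q.is_maximal' hR hle⟩, ?_⟩
  -- `P.map subtype = T ⊓ Alt`
  have hmax : ((Q : Subgroup (Perm (Fin n))) ⊓ alternatingGroup (Fin n)).subgroupOf
      (alternatingGroup (Fin n)) = (P : Subgroup (alternatingGroup (Fin n))) := by
    apply P.is_maximal'
    · have h1 : IsPGroup 2 ↥((Q : Subgroup (Perm (Fin n))) ⊓ alternatingGroup (Fin n)) :=
        Q.isPGroup'.to_le inf_le_left
      exact h1.comap_of_injective (alternatingGroup (Fin n)).subtype hι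
    · intro y hy
      rw [Subgroup.mem_subgroupOf]
      exact ⟨hQ (Subgroup.mem_map_of_mem _ hy), y.2⟩
  have hmap : (P : Subgroup (alternatingGroup (Fin n))).map (alternatingGroup (Fin n)).subtype =
      (Q : Subgroup (Perm (Fin n))) ⊓ alternatingGroup (Fin n) := by
    rw [← hmax]
    exact Subgroup.map_subgroupOf_eq_of_le inf_le_right
  constructor
  · rintro ⟨S₁, S₂, h1, h2, hS⟩
    refine ⟨S₁.map (alternatingGroup (Fin n)).subtype, S₂.map (alternatingGroup (Fin n)).subtype,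
      ?_, ?_, ?_⟩
    · intro h
      exact h1 ((Subgroup.map_eq_bot_iff_of_injective _ hι).mp h)
    · intro h
      exact h2 ((Subgroup.map_eq_bot_iff_of_injective _ hι).mp h)
    · rw [← hmap]
      exact (idp_map _ hι S₁ S₂ _).mpr hS
  · rintro ⟨S₁, S₂, h1, h2, hS⟩
    have hle1 : S₁ ≤ alternatingGroup (Fin n) := hS.1.trans inf_le_right
    have hle2 : S₂ ≤ alternatingGroup (Fin n) := hS.2.1.trans inf_le_right
    have e1 : (S₁.subgroupOf (alternatingGroup (Fin n))).map (alternatingGroup (Fin n)).subtype =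
        S₁ := Subgroup.map_subgroupOf_eq_of_le hle1
    have e2 : (S₂.subgroupOf (alternatingGroup (Fin n))).map (alternatingGroup (Fin n)).subtype =
        S₂ := Subgroup.map_subgroupOf_eq_of_le hle2
    refine ⟨S₁.subgroupOf (alternatingGroup (Fin n)), S₂.subgroupOf (alternatingGroup (Fin n)),
      ?_, ?_, ?_⟩
    · intro h
      apply h1
      rw [← e1, h, Subgroup.map_bot]
    · intro h
      apply h2
      rw [← e2, h, Subgroup.map_bot]
    · rw [← idp_map _ hι, e1, e2, hmap]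
      exact hS

end Cfsg.Agent.H89.SylAlt

namespace Cfsg.Agent.H89.SylAlt
open Equiv Cfsg.Agent.Lib.Lead.SylAlt
example (n : ℕ) (P : Sylow 2 (alternatingGroup (Fin n))) :
    ∃ T : Subgroup (Perm (Fin n)), IsSyl2 T ∧
      ((∃ S₁ S₂ : Subgroup (alternatingGroup (Fin n)), S₁ ≠ ⊥ ∧ S₂ ≠ ⊥ ∧
          Cfsg.IsInternalDirectProduct S₁ S₂ (P : Subgroup (alternatingGroup (Fin n)))) ↔
        Dec (T ⊓ alternatingGroup (Fin n))) := lift n P
end Cfsg.Agent.H89.SylAlt
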