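import Mathlib
import Cfsg.Agent.Lib.Lead.SylAlt.Defs

/-!
S2221-PROJSUP piece (team project S2221 of lead): the `O`-parts of the two direct factors of
`T ⊓ Alt` commute and generate `res T O`.
-/

set_option autoImplicit false

namespace Cfsg.Agent.H89.SylAlt

open Equiv Cfsg.Agent.Lib.Lead.SylAlt

/-- Elements of a join of two elementwise commuting subgroups are products. -/
theorem mem_sup_of_comm {G : Type*} [Group G] (S₁ S₂ : Subgroup G)
    (hc : ∀ a ∈ S₁, ∀ b ∈ S₂, a * b = b * a) (g : G) (hg : g ∈ S₁ ⊔ S₂) :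
    ∃ a ∈ S₁, ∃ b ∈ S₂, g = a * b := by
  rw [Subgroup.sup_eq_closure] at hg
  induction hg using Subgroup.closure_induction with
  | mem x hx =>
    rcases hx with hx | hx
    · exact ⟨x, hx, 1, S₂.one_mem, (mul_one x).symm⟩
    · exact ⟨1, S₁.one_mem, x, hx, (one_mul x).symm⟩
  | one => exact ⟨1, S₁.one_mem, 1, S₂.one_mem, (mul_one 1).symm⟩
  | mul x y _ _ hx hy =>
    obtain ⟨a, ha, b, hb, rfl⟩ := hx
    obtain ⟨a', ha', b', hb', rfl⟩ := hy
    refine ⟨a * a', S₁.mul_mem ha ha', b * b', S₂.mul_mem hb hb', ?_⟩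
    calc a * b * (a' * b') = a * (b * a') * b' := by simp only [mul_assoc]
      _ = a * (a' * b) * b' := by rw [hc a' ha' b hb]
      _ = a * a' * (b * b') := by simp only [mul_assoc]
  | inv x _ hx =>
    obtain ⟨a, ha, b, hb, rfl⟩ := hx
    refine ⟨a⁻¹, S₁.inv_mem ha, b⁻¹, S₂.inv_mem hb, ?_⟩
    rw [mul_inv_rev, hc a⁻¹ (S₁.inv_mem ha) b⁻¹ (S₂.inv_mem hb)]

variable {α : Type*}

/-- Uniqueness of the `O`-part. -/
theorem part_unique (T : Subgroup (Perm α)) (O : Set α) {a a' b b' : Perm α}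
    (ha : a ∈ res T O) (ha' : a' ∈ res T O) (hb : b ∈ res T Oᶜ) (hb' : b' ∈ res T Oᶜ)
    (h : a * b = a' * b') : a = a' := by
  ext y
  by_cases hy : y ∈ O
  · have h1 : b y = y := hb.2 y (fun hc => hc hy)
    have h2 : b' y = y := hb'.2 y (fun hc => hc hy)
    have h3 := congrArg (fun f : Perm α => f y) h
    simp only [Perm.mul_apply, h1, h2] at h3
    exact h3
  · rw [ha.2 y hy, ha'.2 y hy]

variable [Fintype α] [DecidableEq α]

theorem proj_sup (T : Subgroup (Perm α)) (hT : IsSyl2 T) (hs : HSplit T) (x : α)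
    (t' : Perm α) (ht' : t' ∈ res T (orb T x)ᶜ) (hodd : Perm.sign t' = -1)
    (S₁ S₂ : Subgroup (Perm α))
    (hS : Cfsg.IsInternalDirectProduct S₁ S₂ (T ⊓ alternatingGroup α)) :
    (∀ a ∈ proj T (orb T x) S₁, ∀ b ∈ proj T (orb T x) S₂, a * b = b * a) ∧
      proj T (orb T x) S₁ ⊔ proj T (orb T x) S₂ = res T (orb T x) := by
  obtain ⟨hS1, hS2, hcomm, -, hsup⟩ := hS
  constructor
  · rintro a ⟨ha, b, hb, hab⟩ a' ⟨ha', b', hb', hab'⟩
    have h1 := hcomm (a * b) hab (a' * b') hab'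
    have h2 : a * b * (a' * b') = a * a' * (b * b') := by
      calc a * b * (a' * b') = a * (b * a') * b' := by simp only [mul_assoc]
        _ = a * (a' * b) * b' := by rw [res_comm ha' hb]
        _ = a * a' * (b * b') := by simp only [mul_assoc]
    have h3 : a' * b' * (a * b) = a' * a * (b' * b) := by
      calc a' * b' * (a * b) = a' * (b' * a) * b := by simp only [mul_assoc]
        _ = a' * (a * b') * b := by rw [res_comm ha hb']
        _ = a' * a * (b' * b) := by simp only [mul_assoc]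
    rw [h2, h3] at h1
    exact part_unique T (orb T x) ((res T _).mul_mem ha ha') ((res T _).mul_mem ha' ha)
      ((res T _).mul_mem hb hb') ((res T _).mul_mem hb' hb) h1
  · apply le_antisymm
    · exact sup_le (proj_le T _ S₁) (proj_le T _ S₂)
    · intro w hw
      -- an even element with `O`-part `w`
      obtain ⟨c, hc, hq⟩ : ∃ c ∈ res T (orb T x)ᶜ, w * c ∈ T ⊓ alternatingGroup α := by
        rcases Int.units_eq_one_or (Perm.sign w) with h | h
        · refine ⟨1, (res T _).one_mem, ?_⟩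
          rw [mul_one]
          exact ⟨hw.1, Perm.mem_alternatingGroup.mpr h⟩
        · refine ⟨t', ht', T.mul_mem hw.1 ht'.1, ?_⟩
          have h5 : w * t' ∈ alternatingGroup α := by
            rw [Perm.mem_alternatingGroup, map_mul, h, hodd]
            simp
          exact h5
      rw [← hsup] at hq
      obtain ⟨s₁, hs₁, s₂, hs₂, hq'⟩ := mem_sup_of_comm S₁ S₂ hcomm _ hq
      obtain ⟨a₁, ha₁, b₁, hb₁, h1⟩ := hs (orb T x) (orb_inv T x) s₁ (hS1 hs₁).1
      obtain ⟨a₂, ha₂, b₂, hb₂, h2⟩ := hs (orb T x) (orb_inv T x) s₂ (hS2 hs₂).1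
      have h3 : w * c = a₁ * a₂ * (b₁ * b₂) := by
        rw [hq', h1, h2]
        calc a₁ * b₁ * (a₂ * b₂) = a₁ * (b₁ * a₂) * b₂ := by simp only [mul_assoc]
          _ = a₁ * (a₂ * b₁) * b₂ := by rw [res_comm ha₂ hb₁]
          _ = a₁ * a₂ * (b₁ * b₂) := by simp only [mul_assoc]
      have h4 : w = a₁ * a₂ :=
        part_unique T (orb T x) hw ((res T _).mul_mem ha₁ ha₂) hc ((res T _).mul_mem hb₁ hb₂) h3
      rw [h4]
      exact Subgroup.mul_mem_sup ⟨ha₁, b₁, hb₁, by rw [← h1]; exact hs₁⟩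
        ⟨ha₂, b₂, hb₂, by rw [← h2]; exact hs₂⟩

end Cfsg.Agent.H89.SylAlt

namespace Cfsg.Agent.H89.SylAlt
open Equiv Cfsg.Agent.Lib.Lead.SylAlt
variable {α : Type*} [Fintype α] [DecidableEq α]
example (T : Subgroup (Perm α)) (hT : IsSyl2 T) (hs : HSplit T) (x : α)
    (t' : Perm α) (ht' : t' ∈ res T (orb T x)ᶜ) (hodd : Perm.sign t' = -1)
    (S₁ S₂ : Subgroup (Perm α))
    (hS : Cfsg.IsInternalDirectProduct S₁ S₂ (T ⊓ alternatingGroup α)) :
    (∀ a ∈ proj T (orb T x) S₁, ∀ b ∈ proj T (orb T x) S₂, a * b = b * a) ∧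
      proj T (orb T x) S₁ ⊔ proj T (orb T x) S₂ = res T (orb T x) :=
  proj_sup T hT hs x t' ht' hodd S₁ S₂ hS
end Cfsg.Agent.H89.SylAlt
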