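import Mathlib
import Cfsg.Agent.Lib.Lead.SylAlt.Defs

/-!
S2221-SMALL45 piece (team project S2221 of lead): for `n = 4, 5` a Sylow 2-subgroup of `A_n` is a
four-group, hence directly decomposable.
-/

set_option autoImplicit false

namespace Cfsg.Agent.H89.SylAlt

open Equiv Cfsg.Agent.Lib.Lead.SylAlt

/-- An even permutation of at most five points whose fourth power is trivial has trivial square. -/
theorem sq_eq_one_of_even {n : ℕ} (hn : n ≤ 5) (σ : Perm (Fin n)) (h4 : σ ^ 4 = 1)
    (hs : Perm.sign σ = 1) : σ ^ 2 = 1 := by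
  by_contra h2
  have hd : orderOf σ ∣ 4 := orderOf_dvd_of_pow_eq_one h4
  have hnd : ¬ orderOf σ ∣ 2 := fun h => h2 (orderOf_dvd_iff_pow_eq_one.mp h)
  have ho : orderOf σ = 4 := by
    have hle : orderOf σ ≤ 4 := Nat.le_of_dvd (by norm_num) hd
    interval_cases h : orderOf σ
    · simp at hd
    · exact absurd (one_dvd 2) hnd
    · exact absurd (dvd_refl 2) hnd
    · norm_num at hd
    · rfl
  have hlcm : σ.cycleType.lcm = 4 := by rw [Perm.lcm_cycleType, ho]
  -- some cycle has length 4
  have h4mem : 4 ∈ σ.cycleType := by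
    by_contra hno
    have hall : ∀ a ∈ σ.cycleType, a ∣ 2 := by
      intro a ha
      have h1 : a ∣ 4 := by
        rw [← hlcm]
        exact Multiset.dvd_lcm ha
      have h2' : 2 ≤ a := Perm.two_le_of_mem_cycleType ha
      have hle : a ≤ 4 := Nat.le_of_dvd (by norm_num) h1
      interval_cases a
      · exact dvd_refl 2
      · norm_num at h1
      · exact absurd ha hno
    have h5 : σ.cycleType.lcm ∣ 2 := Multiset.lcm_dvd.mpr hall
    rw [hlcm] at h5
    norm_num at h5
  obtain ⟨s', hs'⟩ := Multiset.exists_cons_of_mem h4mem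
  have hsum : σ.cycleType.sum ≤ 5 := by
    have h1 := Perm.sum_cycleType_le σ
    rw [Fintype.card_fin] at h1
    omega
  have hs0 : s' = 0 := by
    by_contra hne
    obtain ⟨a, ha⟩ := Multiset.exists_mem_of_ne_zero hne
    have h1 : 2 ≤ a := Perm.two_le_of_mem_cycleType (by rw [hs']; exact Multiset.mem_cons_of_mem ha)
    have h2' : a ≤ s'.sum := Multiset.le_sum_of_mem ha
    rw [hs', Multiset.sum_cons] at hsum
    omega
  have hsign := Perm.sign_of_cycleType σ
  rw [hs', hs0] at hsign
  rw [hs] at hsign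
  simp only [Multiset.cons_zero, Multiset.sum_singleton, Multiset.card_singleton] at hsign
  have hne : (1 : ℤˣ) ≠ (-1) ^ (4 + 1) := by decide
  exact hne hsign

theorem small45 (n : ℕ) (hn : n = 4 ∨ n = 5) (P : Sylow 2 (alternatingGroup (Fin n))) :
    ∃ S₁ S₂ : Subgroup (alternatingGroup (Fin n)), S₁ ≠ ⊥ ∧ S₂ ≠ ⊥ ∧
      Cfsg.IsInternalDirectProduct S₁ S₂ (P : Subgroup (alternatingGroup (Fin n))) := by
  have hn5 : n ≤ 5 := by omega
  haveI : Nontrivial (Fin n) := by
    rcases hn with rfl | rfl <;> infer_instance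
  haveI : Fact (Nat.Prime 2) := ⟨Nat.prime_two⟩
  -- the order of `P`
  have hcardA : Nat.card (alternatingGroup (Fin n)) = 12 ∨ Nat.card (alternatingGroup (Fin n)) = 60 := by
    rw [nat_card_alternatingGroup, Nat.card_eq_fintype_card, Fintype.card_fin]
    rcases hn with rfl | rfl
    · left; decide
    · right; decide
  have hcard : Nat.card (P : Subgroup (alternatingGroup (Fin n))) = 4 := by
    obtain ⟨k, hk⟩ := (IsPGroup.iff_card.mp P.isPGroup')
    have hidx : ¬ 2 ∣ (P : Subgroup (alternatingGroup (Fin n))).index := P.not_dvd_index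
    have hmul := Subgroup.index_mul_card (P : Subgroup (alternatingGroup (Fin n)))
    rw [hk] at hmul ⊢
    have hk3 : k < 3 := by
      by_contra hk3
      have h8 : 2 ^ 3 ∣ 2 ^ k := pow_dvd_pow 2 (by omega)
      have h8' : 8 ∣ Nat.card (alternatingGroup (Fin n)) := by
        rw [← hmul]
        exact Dvd.dvd.mul_left (by simpa using h8) _
      rcases hcardA with h | h <;> rw [h] at h8' <;> norm_num at h8'
    interval_cases k
    · exfalso
      apply hidx
      rcases hcardA with h | h <;> rw [h] at hmul <;> omega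
    · exfalso
      apply hidx
      rcases hcardA with h | h <;> rw [h] at hmul <;> omega
    · rfl
  -- exponent two
  have hexp : ∀ g : alternatingGroup (Fin n), g ∈ (P : Subgroup (alternatingGroup (Fin n))) →
      g * g = 1 := by
    intro g hg
    have h1 : g ^ 4 = 1 := by
      have h2 : (⟨g, hg⟩ : (P : Subgroup (alternatingGroup (Fin n)))) ^ 4 = 1 := by
        rw [← hcard]
        exact pow_card_eq_one'
      have h3 := congrArg Subtype.val h2
      simpa using h3
    have h4 : (g : Perm (Fin n)) ^ 4 = 1 := by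
      have h3 := congrArg Subtype.val h1
      simpa using h3
    have h5 := sq_eq_one_of_even hn5 (g : Perm (Fin n)) h4 (Perm.mem_alternatingGroup.mp g.2)
    apply Subtype.ext
    rw [Subgroup.coe_mul, Subgroup.coe_one, ← pow_two]
    exact h5
  have hcomm : ∀ g h : alternatingGroup (Fin n), g ∈ (P : Subgroup (alternatingGroup (Fin n))) →
      h ∈ (P : Subgroup (alternatingGroup (Fin n))) → g * h = h * g := by
    intro g h hg hh
    have h1 := hexp g hg
    have h2 := hexp h hh
    have h3 := hexp (g * h) (mul_mem hg hh)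
    have h4 : g⁻¹ = g := inv_eq_of_mul_eq_one_left h1
    have h5 : h⁻¹ = h := inv_eq_of_mul_eq_one_left h2
    have h6 : (g * h)⁻¹ = g * h := inv_eq_of_mul_eq_one_left h3
    rw [mul_inv_rev, h4, h5] at h6
    exact h6.symm
  -- a nontrivial element
  obtain ⟨a, haP, ha1⟩ : ∃ a ∈ (P : Subgroup (alternatingGroup (Fin n))), a ≠ 1 := by
    by_contra hno
    push Not at hno
    have hbot : (P : Subgroup (alternatingGroup (Fin n))) = ⊥ := by
      rw [Subgroup.eq_bot_iff_forall]
      exact hno
    rw [hbot, Subgroup.card_bot] at hcard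
    omega
  have hoa : orderOf a = 2 := orderOf_eq_prime (by rw [pow_two]; exact hexp a haP) ha1
  have hza : Nat.card (Subgroup.zpowers a) = 2 := by rw [Nat.card_zpowers, hoa]
  obtain ⟨b, hbP, hba⟩ : ∃ b ∈ (P : Subgroup (alternatingGroup (Fin n))),
      b ∉ Subgroup.zpowers a := by
    by_contra hno
    push Not at hno
    have hle : (P : Subgroup (alternatingGroup (Fin n))) ≤ Subgroup.zpowers a := hno
    have h1 := Nat.le_of_dvd (by omega) (Subgroup.card_dvd_of_le hle)
    omega
  have hb1 : b ≠ 1 := fun h => hba (h ▸ Subgroup.one_mem _)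
  have hob : orderOf b = 2 := orderOf_eq_prime (by rw [pow_two]; exact hexp b hbP) hb1
  have hlea : Subgroup.zpowers a ≤ (P : Subgroup (alternatingGroup (Fin n))) :=
    (Subgroup.zpowers_le).mpr haP
  have hleb : Subgroup.zpowers b ≤ (P : Subgroup (alternatingGroup (Fin n))) :=
    (Subgroup.zpowers_le).mpr hbP
  refine ⟨Subgroup.zpowers a, Subgroup.zpowers b, ?_, ?_, hlea, hleb, ?_, ?_, ?_⟩
  · intro h
    rw [Subgroup.zpowers_eq_bot] at h
    exact ha1 h
  · intro h
    rw [Subgroup.zpowers_eq_bot] at h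
    exact hb1 h
  · intro x hx y hy
    exact hcomm x y (hlea hx) (hleb hy)
  · rw [Subgroup.eq_bot_iff_forall]
    rintro x ⟨hxa, hxb⟩
    obtain ⟨k, rfl⟩ := Subgroup.mem_zpowers_iff.mp hxb
    have hk := zpow_mod_orderOf b k
    rw [hob] at hk
    have h2c : ((2 : ℕ) : ℤ) = 2 := rfl
    rw [h2c] at hk
    rw [← hk] at hxa ⊢
    rcases Int.emod_two_eq_zero_or_one k with h | h
    · rw [h, zpow_zero]
    · rw [h, zpow_one] at hxa
      exact absurd hxa hba
  · have hle : Subgroup.zpowers a ⊔ Subgroup.zpowers b ≤ (P : Subgroup (alternatingGroup (Fin n))) :=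
      sup_le hlea hleb
    apply Subgroup.eq_of_le_of_card_ge hle
    have hd1 : Nat.card ↥(Subgroup.zpowers a ⊔ Subgroup.zpowers b) ∣ 4 := by
      rw [← hcard]
      exact Subgroup.card_dvd_of_le hle
    have hd2 : 2 ∣ Nat.card ↥(Subgroup.zpowers a ⊔ Subgroup.zpowers b) := by
      rw [← hza]
      exact Subgroup.card_dvd_of_le le_sup_left
    have hne : Nat.card ↥(Subgroup.zpowers a ⊔ Subgroup.zpowers b) ≠ 2 := by
      intro h2
      have heq : Subgroup.zpowers a = Subgroup.zpowers a ⊔ Subgroup.zpowers b :=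
        Subgroup.eq_of_le_of_card_ge le_sup_left (by rw [h2, hza])
      apply hba
      rw [heq]
      exact Subgroup.mem_sup_right (Subgroup.mem_zpowers b)
    have hle4 : Nat.card ↥(Subgroup.zpowers a ⊔ Subgroup.zpowers b) ≤ 4 :=
      Nat.le_of_dvd (by norm_num) hd1
    rw [hcard]
    interval_cases hc : Nat.card ↥(Subgroup.zpowers a ⊔ Subgroup.zpowers b)
    · simp at hd1
    · norm_num at hd2
    · exact absurd rfl hne
    · norm_num at hd1
    · exact le_refl 4

end Cfsg.Agent.H89.SylAlt

namespace Cfsg.Agent.H89.SylAlt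
open Equiv Cfsg.Agent.Lib.Lead.SylAlt
example (n : ℕ) (hn : n = 4 ∨ n = 5) (P : Sylow 2 (alternatingGroup (Fin n))) :
    ∃ S₁ S₂ : Subgroup (alternatingGroup (Fin n)), S₁ ≠ ⊥ ∧ S₂ ≠ ⊥ ∧
      Cfsg.IsInternalDirectProduct S₁ S₂ (P : Subgroup (alternatingGroup (Fin n))) :=
  small45 n hn P
end Cfsg.Agent.H89.SylAlt
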