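import Cfsg.Agent.H29.ZJ

set_option autoImplicit false
open Cfsg
open scoped commutatorElement Pointwise

/-!
# An axiomatic ZJ-theorem

`S` is a `p`-group embedded by `j` as a Sylow `p`-subgroup of the finite group `M`, and `𝒜` is a
nonempty family of abelian subgroups of `S` with the replacement property (`AxFam`) and whose partial
intersections `famInf 𝒜 R` are invariant under `M`-conjugation (`InvIn`).  If `M` is `p`-stable with
`C_M(O_p(M)) ≤ O_p(M)` and `p` is odd, then the image of the intersection of `𝒜` is normal in `M`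
(`zjax_normal`).  The proof is Glauberman's, as organised by helper29 (`H29.nZ_inf_normal`).
-/

namespace Cfsg.Agent.H89

open Cfsg.Agent.H14 Cfsg.Agent.H29

section ZJAx

variable {S M : Type*} [Group S] [Group M]

/-- The intersection of the members of `𝒜` contained in `R`. -/
def famInf (𝒜 : Set (Subgroup S)) (R : Subgroup S) : Subgroup S := sInf {A | A ∈ 𝒜 ∧ A ≤ R}

lemma mem_famInf {𝒜 : Set (Subgroup S)} {R : Subgroup S} {z : S} :
    z ∈ famInf 𝒜 R ↔ ∀ A ∈ 𝒜, A ≤ R → z ∈ A := by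
  unfold famInf
  rw [Subgroup.mem_sInf]
  constructor
  · intro h A hA hAR
    exact h A ⟨hA, hAR⟩
  · rintro h A ⟨hA, hAR⟩
    exact h A hA hAR

lemma famInf_le_of_mem {𝒜 : Set (Subgroup S)} {R A : Subgroup S} (hA : A ∈ 𝒜) (hAR : A ≤ R) :
    famInf 𝒜 R ≤ A :=
  fun _ hz => mem_famInf.1 hz A hA hAR

lemma famInf_top_le_famInf (𝒜 : Set (Subgroup S)) (R : Subgroup S) :
    famInf 𝒜 ⊤ ≤ famInf 𝒜 R :=
  fun _ hz => mem_famInf.2 (fun A hA _ => mem_famInf.1 hz A hA le_top)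

/-- A nonempty family of abelian subgroups with the replacement property. -/
structure AxFam (𝒜 : Set (Subgroup S)) : Prop where
  ne : 𝒜.Nonempty
  ab : ∀ A ∈ 𝒜, ∀ x ∈ A, ∀ y ∈ A, x * y = y * x
  rep : ∀ B : Subgroup S, ⁅⁅B, B⁆, B⁆ = ⊥ → (∃ A ∈ 𝒜, ⁅B, B⁆ ≤ A ∧ ¬ B ≤ A) →
    ∃ A ∈ 𝒜, ⁅B, B⁆ ≤ A ∧ ¬ B ≤ A ∧ B ≤ Subgroup.normalizer (A : Set S)

/-- Invariance of the partial intersections under conjugation in `M`. -/
def InvIn (j : S →* M) (𝒜 : Set (Subgroup S)) : Prop :=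
  ∀ R : Subgroup S, (∃ A ∈ 𝒜, A ≤ R) → ∀ g : M, (∀ x ∈ R, ∃ y ∈ R, j y = g * j x * g⁻¹) →
    ∀ z ∈ famInf 𝒜 R, ∃ z' ∈ famInf 𝒜 R, j z' = g * j z * g⁻¹

lemma famInf_map_comm (j : S →* M) {𝒜 : Set (Subgroup S)} (h𝒜 : AxFam 𝒜) :
    ∀ x ∈ (famInf 𝒜 ⊤).map j, ∀ y ∈ (famInf 𝒜 ⊤).map j, x * y = y * x := by
  obtain ⟨A, hA⟩ := h𝒜.ne
  rintro _ ⟨x, hx, rfl⟩ _ ⟨y, hy, rfl⟩
  rw [← map_mul, ← map_mul, h𝒜.ab A hA x (famInf_le_of_mem hA le_top hx) y
    (famInf_le_of_mem hA le_top hy)]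

lemma sylow_le_normalizer_famInf [Finite M] {p : ℕ} [Fact p.Prime] (j : S →* M) (T : Sylow p M)
    (hT : (T : Subgroup M) = j.range) {𝒜 : Set (Subgroup S)} (h𝒜 : AxFam 𝒜) (hinv : InvIn j 𝒜) :
    (T : Subgroup M) ≤ Subgroup.normalizer (((famInf 𝒜 ⊤).map j : Subgroup M) : Set M) := by
  intro g hg
  rw [hT] at hg
  obtain ⟨s, rfl⟩ := hg
  apply mem_normalizer_of_conj_mem
  rintro _ ⟨z, hz, rfl⟩
  obtain ⟨A, hA⟩ := h𝒜.ne
  obtain ⟨z', hz', hzz⟩ := hinv ⊤ ⟨A, hA, le_top⟩ (j s)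
    (fun x _ => ⟨s * x * s⁻¹, Subgroup.mem_top _, by simp⟩) z hz
  exact ⟨z', hz', hzz⟩

/-- The inductive heart: `Z ∩ B ⊴ M` for every normal `p`-subgroup `B`. -/
theorem zjax_inf_normal [Finite M] {p : ℕ} [Fact p.Prime] (j : S →* M)
    (hj : Function.Injective j) (T : Sylow p M) (hT : (T : Subgroup M) = j.range)
    (hst : QStab p M) {𝒜 : Set (Subgroup S)} (h𝒜 : AxFam 𝒜) (hinv : InvIn j 𝒜) :
    ∀ (m : ℕ) (B : Subgroup M), Nat.card B = m → B.Normal → IsPGroup p B →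
      ((famInf 𝒜 ⊤).map j ⊓ B).Normal := by
  intro m
  induction m using Nat.strong_induction_on with
  | _ m ih =>
  intro B hm hBn hBp
  have hTZ := sylow_le_normalizer_famInf j T hT h𝒜 hinv
  have hZcomm := famInf_map_comm j h𝒜
  have hZle : ∀ A ∈ 𝒜, (famInf 𝒜 ⊤).map j ≤ A.map j := fun A hA =>
    Subgroup.map_mono (famInf_le_of_mem hA le_top)
  obtain ⟨Z, hZdef⟩ : ∃ Z : Subgroup M, Z = (famInf 𝒜 ⊤).map j := ⟨_, rfl⟩
  rw [← hZdef] at hTZ hZcomm hZle ⊢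
  have hBS : B ≤ (T : Subgroup M) := hBp.le_sylow_of_normal T
  -- Step 1: reduce to `B = ⟨(Z ∩ B)^M⟩`
  have hB₁B : Subgroup.normalClosure ((Z ⊓ B : Subgroup M) : Set M) ≤ B :=
    Subgroup.normalClosure_le_normal (inf_le_right : Z ⊓ B ≤ B)
  have hZB₁ : Z ⊓ B ≤ Subgroup.normalClosure ((Z ⊓ B : Subgroup M) : Set M) :=
    Subgroup.le_normalClosure
  by_cases hne : Subgroup.normalClosure ((Z ⊓ B : Subgroup M) : Set M) = B
  swap
  · have hlt : Nat.card ↥(Subgroup.normalClosure ((Z ⊓ B : Subgroup M) : Set M)) < m := by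
      rw [← hm]; exact card_lt_of_lt (lt_of_le_of_ne hB₁B hne)
    have h1 := ih _ hlt _ rfl Subgroup.normalClosure_normal (hBp.to_le hB₁B)
    rw [← hZdef] at h1
    have h2 : Z ⊓ Subgroup.normalClosure ((Z ⊓ B : Subgroup M) : Set M) = Z ⊓ B :=
      le_antisymm (inf_le_inf_left _ hB₁B) (le_inf inf_le_left hZB₁)
    rw [← h2]; exact h1
  -- Step 2
  have hgen : ∀ N : Subgroup M, N.Normal → Z ⊓ B ≤ N → B ≤ N := by
    intro N hN hle
    rw [← hne]
    exact Subgroup.normalClosure_le_normal hle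
  by_cases hB0 : B = ⊥
  · rw [hB0, inf_bot_eq]; infer_instance
  have hB'n : (⁅B, B⁆).Normal := Subgroup.commutator_normal B B
  have hB'B : ⁅B, B⁆ ≤ B := Subgroup.commutator_le_right B B
  have hB'lt : ⁅B, B⁆ < B := by
    refine lt_of_le_of_ne hB'B (fun e => hB0 ?_)
    exact eq_bot_of_le_commutator_of_isNilpotent B B hBp.isNilpotent le_rfl e.ge
  have hW : (Z ⊓ ⁅B, B⁆).Normal := by
    have := ih _ (by rw [← hm]; exact card_lt_of_lt hB'lt) _ rfl hB'n (hBp.to_le hB'B)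
    rwa [← hZdef] at this
  -- `B' ≤ Z`
  have hB'W : ⁅B, B⁆ ≤ Z ⊓ ⁅B, B⁆ := by
    have hM : B ≤ commKer B (Z ⊓ ⁅B, B⁆) := by
      apply hgen _ (commKer_normal B _)
      intro z hz y hy
      refine Subgroup.mem_inf.mpr ⟨?_, Subgroup.commutator_mem_commutator hz.2 hy⟩
      have e : ⁅z, y⁆ = z * (y * z⁻¹ * y⁻¹) := by simp only [commutatorElement_def]; group
      rw [e]
      exact mul_mem hz.1 ((Subgroup.mem_normalizer_iff.mp (hTZ (hBS hy)) _).mp (inv_mem hz.1))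
    rw [Subgroup.commutator_le]
    intro x hx y hy
    exact hM hx y hy
  have hB'Z : ⁅B, B⁆ ≤ Z := hB'W.trans inf_le_left
  -- class 2
  have hcl2 : B ≤ Subgroup.centralizer ((⁅B, B⁆ : Subgroup M) : Set M) := by
    apply hgen _ inferInstance
    intro z hz
    rw [Subgroup.mem_centralizer_iff]
    intro c hc
    exact hZcomm c (hB'Z hc) z hz.1
  by_cases hall : ∀ A ∈ 𝒜, B ≤ A.map j
  · have hBZ : B ≤ Z := by
      intro b hb
      have hbT : b ∈ j.range := hT ▸ hBS hb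
      obtain ⟨s, rfl⟩ := hbT
      rw [hZdef]
      refine ⟨s, mem_famInf.2 (fun A hA _ => ?_), rfl⟩
      obtain ⟨a, ha, hab⟩ := hall A hA hb
      rw [← hj hab]; exact ha
    rw [inf_eq_right.mpr hBZ]
    exact hBn
  · exfalso
    push Not at hall
    obtain ⟨A₁, hA₁, hBA₁⟩ := hall
    obtain ⟨B₀, hB₀def⟩ : ∃ B₀ : Subgroup S, B₀ = B.comap j := ⟨_, rfl⟩
    have hB₀map : B₀.map j = B := by
      rw [hB₀def]; exact Subgroup.map_comap_eq_self (hT ▸ hBS)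
    have hcomm₀ : (⁅B₀, B₀⁆).map j = ⁅B, B⁆ := by rw [Subgroup.map_commutator, hB₀map]
    have hcl₀ : ⁅⁅B₀, B₀⁆, B₀⁆ = ⊥ := by
      have h1 : (⁅⁅B₀, B₀⁆, B₀⁆).map j = ⊥ := by
        rw [Subgroup.map_commutator, hcomm₀, hB₀map,
          Subgroup.commutator_eq_bot_iff_le_centralizer]
        exact Subgroup.le_centralizer_iff.mp hcl2
      exact (Subgroup.map_eq_bot_iff_of_injective _ hj).1 h1
    have h1 : ⁅B₀, B₀⁆ ≤ A₁ := by
      rw [← Subgroup.map_le_map_iff_of_injective hj, hcomm₀]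
      exact hB'Z.trans (hZle A₁ hA₁)
    have h2 : ¬ B₀ ≤ A₁ := fun h => hBA₁ (by rw [← hB₀map]; exact Subgroup.map_mono h)
    obtain ⟨A, hA, -, hB₀A, hB₀N⟩ := h𝒜.rep B₀ hcl₀ ⟨A₁, hA₁, h1, h2⟩
    have hBNA : B ≤ Subgroup.normalizer ((A.map j : Subgroup M) : Set M) := by
      intro b hb
      rw [← hB₀map] at hb
      obtain ⟨b₀, hb₀, rfl⟩ := hb
      apply mem_normalizer_of_conj_mem
      rintro _ ⟨a, ha, rfl⟩
      exact ⟨b₀ * a * b₀⁻¹, (Subgroup.mem_normalizer_iff.mp (hB₀N hb₀) a).mp ha, by simp⟩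
    have hAMab : IsMulCommutative (A.map j) := by
      refine ⟨⟨fun a b => Subtype.ext ?_⟩⟩
      obtain ⟨a, x, hx, rfl⟩ := a
      obtain ⟨b, y, hy, rfl⟩ := b
      show j x * j y = j y * j x
      rw [← map_mul, ← map_mul, h𝒜.ab A hA x hx y hy]
    obtain ⟨K, hKn, hCK, hKq, hKa⟩ := hst B hBn hBp
    have hAK : A.map j ≤ K := fun a ha => hKa a (quad_of_le_normalizer hBNA hAMab ha)
    obtain ⟨R, hRdef⟩ : ∃ R : Subgroup S, R = ((T : Subgroup M) ⊓ K).comap j := ⟨_, rfl⟩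
    have hRmap : R.map j = (T : Subgroup M) ⊓ K := by
      rw [hRdef]; exact Subgroup.map_comap_eq_self (inf_le_left.trans hT.le)
    have hAR : A ≤ R := by
      rw [hRdef]
      intro a ha
      exact ⟨hT ▸ ⟨a, rfl⟩, hAK ⟨a, ha, rfl⟩⟩
    have hZX : Z ⊓ B ≤ B ⊓ (famInf 𝒜 R).map j := by
      intro z hz
      refine ⟨hz.2, ?_⟩
      have h3 := hz.1
      rw [hZdef] at h3
      exact Subgroup.map_mono (famInf_top_le_famInf 𝒜 R) h3
    have hXn : (B ⊓ (famInf 𝒜 R).map j).Normal := by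
      have hCn : (Subgroup.centralizer (B : Set M)).Normal := inferInstance
      rw [← Subgroup.normalizer_eq_top_iff, eq_top_iff,
        ← normalizer_sup_eq_top_of_pquot T K (Subgroup.centralizer (B : Set M)) hKq]
      apply sup_le
      · intro g hg
        have hgR : ∀ x ∈ R, ∃ y ∈ R, j y = g * j x * g⁻¹ := by
          intro x hx
          have h3 : j x ∈ (T : Subgroup M) ⊓ K := hRmap ▸ ⟨x, hx, rfl⟩
          have h4 := (Subgroup.mem_normalizer_iff.mp hg (j x)).mp h3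
          rw [← hRmap] at h4
          obtain ⟨y, hy, hyx⟩ := h4
          exact ⟨y, hy, hyx⟩
        apply mem_normalizer_of_conj_mem
        intro x hx
        refine ⟨hBn.conj_mem x hx.1 g, ?_⟩
        obtain ⟨z, hz, rfl⟩ := hx.2
        obtain ⟨z', hz', hzz⟩ := hinv R ⟨A, hA, hAR⟩ g hgR z hz
        exact ⟨z', hz', hzz⟩
      · intro c hc
        apply mem_normalizer_of_conj_mem
        intro x hx
        have h3 := Subgroup.mem_centralizer_iff.mp hc x hx.1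
        have h4 : c * x * c⁻¹ = x := by rw [← h3]; group
        rw [h4]; exact hx
    have hBX : B ≤ (famInf 𝒜 R).map j := (hgen _ hXn hZX).trans inf_le_right
    apply hB₀A
    rw [hB₀def]
    intro b hb
    obtain ⟨z, hz, hzb⟩ := hBX hb
    rw [← hj hzb]
    exact famInf_le_of_mem hA hAR hz

/-- **Axiomatic ZJ-theorem.** -/
theorem zjax_normal [Finite M] {p : ℕ} [Fact p.Prime] (j : S →* M)
    (hj : Function.Injective j) (T : Sylow p M) (hT : (T : Subgroup M) = j.range)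
    (hst : QStab p M)
    (hc : Subgroup.centralizer (Cfsg.pCore p M : Set M) ≤ Cfsg.pCore p M)
    {𝒜 : Set (Subgroup S)} (h𝒜 : AxFam 𝒜) (hinv : InvIn j 𝒜) :
    ((famInf 𝒜 ⊤).map j).Normal := by
  have hQn : (Cfsg.pCore p M).Normal := pCore_normal p M
  have hQp : IsPGroup p (Cfsg.pCore p M) := pCore_isPGroup p M
  have hQS : Cfsg.pCore p M ≤ (T : Subgroup M) := hQp.le_sylow_of_normal T
  have hTZ := sylow_le_normalizer_famInf j T hT h𝒜 hinv
  have hZcomm : IsMulCommutative ((famInf 𝒜 ⊤).map j) :=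
    ⟨⟨fun a b => Subtype.ext (famInf_map_comm j h𝒜 a a.2 b b.2)⟩⟩
  have hZQ : (famInf 𝒜 ⊤).map j ≤ Cfsg.pCore p M := by
    obtain ⟨K, hKn, hCK, hKq, hKa⟩ := hst _ hQn hQp
    have hKp : IsPGroup p K := by
      rintro ⟨x, hx⟩
      obtain ⟨k, hk⟩ := hKq x hx
      obtain ⟨i, hi⟩ := hQp ⟨x ^ (p ^ k), hc hk⟩
      refine ⟨k + i, Subtype.ext ?_⟩
      have h1 := congrArg Subtype.val hi
      simp only [Subgroup.coe_pow, Subgroup.coe_one] at h1 ⊢
      rw [pow_add, pow_mul]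
      exact h1
    have hKQ : K ≤ Cfsg.pCore p M := le_pCore hKn hKp
    intro z hz
    exact hKQ (hKa z (quad_of_le_normalizer (hQS.trans hTZ) hZcomm hz))
  have h := zjax_inf_normal j hj T hT hst h𝒜 hinv _ _ rfl hQn hQp
  rwa [inf_eq_left.mpr hZQ] at h

end ZJAx

end Cfsg.Agent.H89
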